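import Mathlib

/-!
# Symplectic group: vectors, form, transvections (`T`) and short root elements (`Y`)
-/

set_option autoImplicit false
set_option linter.unusedSimpArgs false

namespace Cfsg.Agent.Lib.SpAm

open Matrix Sum

variable {F : Type*} [Field F] {n : ℕ}

/-- The natural module. -/
abbrev Vc (F : Type*) (n : ℕ) := Fin n ⊕ Fin n → F

/-- The symplectic group, as in the statements. -/
abbrev SpG (F : Type*) [Field F] (n : ℕ) := ↥(Matrix.symplecticGroup (Fin n) F)

/-- The alternating form with `Bf (eV k) (fV k) = 1`. -/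
def Bf (v w : Vc F n) : F := ∑ k, (v (inl k) * w (inr k) - v (inr k) * w (inl k))

/-- Standard basis. -/
def eV (k : Fin n) : Vc F n := Pi.single (inl k) 1
/-- Standard basis. -/
def fV (k : Fin n) : Vc F n := Pi.single (inr k) 1

theorem Bf_add_left (x y z : Vc F n) : Bf (x + y) z = Bf x z + Bf y z := by
  simp only [Bf, Pi.add_apply, ← Finset.sum_add_distrib]
  exact Finset.sum_congr rfl fun _ _ => by ring

theorem Bf_add_right (x y z : Vc F n) : Bf x (y + z) = Bf x y + Bf x z := by
  simp only [Bf, Pi.add_apply, ← Finset.sum_add_distrib]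
  exact Finset.sum_congr rfl fun _ _ => by ring

theorem Bf_smul_left (t : F) (x y : Vc F n) : Bf (t • x) y = t * Bf x y := by
  simp only [Bf, Pi.smul_apply, smul_eq_mul, Finset.mul_sum]
  exact Finset.sum_congr rfl fun _ _ => by ring

theorem Bf_smul_right (t : F) (x y : Vc F n) : Bf x (t • y) = t * Bf x y := by
  simp only [Bf, Pi.smul_apply, smul_eq_mul, Finset.mul_sum]
  exact Finset.sum_congr rfl fun _ _ => by ring

theorem Bf_self (x : Vc F n) : Bf x x = 0 := by
  simp only [Bf]
  exact Finset.sum_eq_zero fun _ _ => by ring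

theorem Bf_comm (x y : Vc F n) : Bf x y = - Bf y x := by
  simp only [Bf, ← Finset.sum_neg_distrib]
  exact Finset.sum_congr rfl fun _ _ => by ring

theorem Bf_neg_left (x y : Vc F n) : Bf (-x) y = - Bf x y := by
  have := Bf_smul_left (-1 : F) x y
  simpa using this

theorem Bf_neg_right (x y : Vc F n) : Bf x (-y) = - Bf x y := by
  have := Bf_smul_right (-1 : F) x y
  simpa using this

theorem Bf_sub_left (x y z : Vc F n) : Bf (x - y) z = Bf x z - Bf y z := by
  rw [sub_eq_add_neg, Bf_add_left, Bf_neg_left, sub_eq_add_neg]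

theorem Bf_sub_right (x y z : Vc F n) : Bf x (y - z) = Bf x y - Bf x z := by
  rw [sub_eq_add_neg, Bf_add_right, Bf_neg_right, sub_eq_add_neg]

@[simp] theorem Bf_zero_left (x : Vc F n) : Bf 0 x = 0 := by
  simp [Bf]

@[simp] theorem Bf_zero_right (x : Vc F n) : Bf x 0 = 0 := by
  simp [Bf]

theorem Bf_e_left (l : Fin n) (v : Vc F n) : Bf (eV l) v = v (inr l) := by
  classical
  simp only [Bf, eV]
  rw [Finset.sum_eq_single l]
  · simp
  · intro b _ hb
    have h1 : (Pi.single (inl l) (1 : F) : Vc F n) (inl b) = 0 :=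
      Pi.single_eq_of_ne (by simpa using hb) _
    have h2 : (Pi.single (inl l) (1 : F) : Vc F n) (inr b) = 0 :=
      Pi.single_eq_of_ne (by simp) _
    rw [h1, h2]; ring
  · simp

theorem Bf_f_left (l : Fin n) (v : Vc F n) : Bf (fV l) v = - v (inl l) := by
  classical
  simp only [Bf, fV]
  rw [Finset.sum_eq_single l]
  · simp
  · intro b _ hb
    have h1 : (Pi.single (inr l) (1 : F) : Vc F n) (inr b) = 0 :=
      Pi.single_eq_of_ne (by simpa using hb) _
    have h2 : (Pi.single (inr l) (1 : F) : Vc F n) (inl b) = 0 :=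
      Pi.single_eq_of_ne (by simp) _
    rw [h1, h2]; ring
  · simp

theorem Bf_e_right (l : Fin n) (v : Vc F n) : Bf v (eV l) = - v (inr l) := by
  rw [Bf_comm, Bf_e_left]

theorem Bf_f_right (l : Fin n) (v : Vc F n) : Bf v (fV l) = v (inl l) := by
  rw [Bf_comm, Bf_f_left, neg_neg]

@[simp] theorem eV_inl_self (l : Fin n) : (eV l : Vc F n) (inl l) = 1 := by simp [eV]
@[simp] theorem eV_inr (l m : Fin n) : (eV l : Vc F n) (inr m) = 0 := by
  simp [eV]
@[simp] theorem fV_inr_self (l : Fin n) : (fV l : Vc F n) (inr l) = 1 := by simp [fV]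
@[simp] theorem fV_inl (l m : Fin n) : (fV l : Vc F n) (inl m) = 0 := by
  simp [fV]
theorem eV_inl_ne {l m : Fin n} (h : m ≠ l) : (eV l : Vc F n) (inl m) = 0 := by
  simp [eV, h]
theorem fV_inr_ne {l m : Fin n} (h : m ≠ l) : (fV l : Vc F n) (inr m) = 0 := by
  simp [fV, h]

theorem Bf_e_f_self (l : Fin n) : Bf (eV l) (fV l : Vc F n) = 1 := by
  rw [Bf_e_left]; simp

theorem Bf_f_e_self (l : Fin n) : Bf (fV l) (eV l : Vc F n) = -1 := by
  rw [Bf_f_left]; simp

theorem Bf_e_e (l m : Fin n) : Bf (eV l) (eV m : Vc F n) = 0 := by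
  rw [Bf_e_left]; simp

theorem Bf_f_f (l m : Fin n) : Bf (fV l) (fV m : Vc F n) = 0 := by
  rw [Bf_f_left]; simp

theorem eV_ne_zero (l : Fin n) : (eV l : Vc F n) ≠ 0 := by
  intro h
  have := congrFun h (inl l)
  simp at this

theorem fV_ne_zero (l : Fin n) : (fV l : Vc F n) ≠ 0 := by
  intro h
  have := congrFun h (inr l)
  simp at this

/-- Nondegeneracy. -/
theorem Bf_nondeg {v : Vc F n} (h : ∀ l : Fin n, Bf (eV l) v = 0 ∧ Bf (fV l) v = 0) : v = 0 := by
  funext x
  rcases x with l | l
  · have := (h l).2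
    rw [Bf_f_left] at this
    simpa using this
  · have := (h l).1
    rw [Bf_e_left] at this
    simpa using this

theorem vec_ext {v w : Vc F n} (h : ∀ l : Fin n, Bf (eV l) v = Bf (eV l) w ∧ Bf (fV l) v = Bf (fV l) w) :
    v = w := by
  have : v - w = 0 := by
    apply Bf_nondeg
    intro l
    rw [Bf_sub_right, Bf_sub_right, (h l).1, (h l).2]
    simp
  exact sub_eq_zero.1 this

/-- The expansion in the standard basis. -/
theorem vec_expand (v : Vc F n) :
    v = ∑ l : Fin n, (v (inl l) • eV l + v (inr l) • fV l) := by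
  classical
  funext x
  rcases x with m | m
  · simp only [Finset.sum_apply, Pi.add_apply, Pi.smul_apply, smul_eq_mul, fV_inl, mul_zero, add_zero]
    rw [Finset.sum_eq_single m]
    · simp
    · intro b _ hb
      rw [eV_inl_ne (Ne.symm hb)]; simp
    · simp
  · simp only [Finset.sum_apply, Pi.add_apply, Pi.smul_apply, smul_eq_mul, eV_inr, mul_zero, zero_add]
    rw [Finset.sum_eq_single m]
    · simp
    · intro b _ hb
      rw [fV_inr_ne (Ne.symm hb)]; simp
    · simp

/-- The action. -/
def act (g : SpG F n) : Vc F n →ₗ[F] Vc F n := Matrix.mulVecLin g.1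

theorem act_apply (g : SpG F n) (v : Vc F n) : act g v = g.1.mulVec v := rfl

@[simp] theorem act_one (v : Vc F n) : act (1 : SpG F n) v = v := by
  simp [act_apply]

theorem act_mul (g h : SpG F n) (v : Vc F n) : act (g * h) v = act g (act h v) := by
  simp [act_apply, Matrix.mulVec_mulVec]

theorem act_inv_act (g : SpG F n) (v : Vc F n) : act g⁻¹ (act g v) = v := by
  rw [← act_mul]; simp

theorem act_act_inv (g : SpG F n) (v : Vc F n) : act g (act g⁻¹ v) = v := by
  rw [← act_mul]; simp

theorem act_injective (g : SpG F n) : Function.Injective (act g) := fun x y h => by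
  have := congrArg (act g⁻¹) h
  simpa [act_inv_act] using this

theorem Bf_eq_dot (v w : Vc F n) :
    Bf v w = - (v ⬝ᵥ (J (Fin n) F).mulVec w) := by
  have h : (J (Fin n) F).mulVec w = Sum.elim (fun k => - w (inr k)) (fun k => w (inl k)) := by
    funext x
    rcases x with k | k
    · simp only [J, Matrix.mulVec, dotProduct, Fintype.sum_sum_type, Matrix.fromBlocks_apply₁₁,
        Matrix.fromBlocks_apply₁₂, Matrix.zero_apply, zero_mul, Finset.sum_const_zero, zero_add,
        Sum.elim_inl, Matrix.neg_apply, Matrix.one_apply, neg_mul]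
      rw [Finset.sum_eq_single k] <;> simp +contextual [Ne.symm]
    · simp only [J, Matrix.mulVec, dotProduct, Fintype.sum_sum_type, Matrix.fromBlocks_apply₂₁,
        Matrix.fromBlocks_apply₂₂, Matrix.zero_apply, zero_mul, Finset.sum_const_zero, add_zero,
        Sum.elim_inr, Matrix.one_apply]
      rw [Finset.sum_eq_single k] <;> simp +contextual [Ne.symm]
  rw [h]
  simp only [Bf, dotProduct, Fintype.sum_sum_type, Sum.elim_inl, Sum.elim_inr]
  rw [← Finset.sum_add_distrib, ← Finset.sum_neg_distrib]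
  exact Finset.sum_congr rfl fun _ _ => by ring

theorem dot_key (A : Matrix (Fin n ⊕ Fin n) (Fin n ⊕ Fin n) F) (x y : Vc F n) :
    (A.mulVec x) ⬝ᵥ ((J (Fin n) F).mulVec (A.mulVec y)) =
      x ⬝ᵥ ((Aᵀ * J (Fin n) F * A).mulVec y) := by
  rw [← Matrix.mulVec_mulVec, ← Matrix.mulVec_mulVec, Matrix.dotProduct_mulVec x Aᵀ,
    Matrix.vecMul_transpose]

/-- The group preserves the form. -/
theorem Bf_act (g : SpG F n) (x y : Vc F n) : Bf (act g x) (act g y) = Bf x y := by
  have h : (g.1)ᵀ * J (Fin n) F * g.1 = J (Fin n) F := SymplecticGroup.mem_iff'.1 g.2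
  rw [Bf_eq_dot, Bf_eq_dot, act_apply, act_apply, dot_key, h]

theorem Bf_act_inv (g : SpG F n) (x y : Vc F n) : Bf (act g⁻¹ x) y = Bf x (act g y) := by
  conv_rhs => rw [← act_act_inv g x, Bf_act]

theorem Bf_act_inv' (g : SpG F n) (x y : Vc F n) : Bf x (act g⁻¹ y) = Bf (act g x) y := by
  conv_rhs => rw [← act_act_inv g y, Bf_act]

/-- Group elements are determined by their action. -/
theorem G_ext {g h : SpG F n} (H : ∀ v, act g v = act h v) : g = h := by
  apply Subtype.ext
  ext i j
  have := congrFun (H (Pi.single j 1)) i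
  simpa [act_apply, Matrix.mulVec_single_one] using this

/-- Group elements are determined by their action on the basis. -/
theorem G_ext_basis {g h : SpG F n} (H : ∀ l, act g (eV l) = act h (eV l) ∧ act g (fV l) = act h (fV l)) :
    g = h := by
  apply G_ext
  intro v
  rw [vec_expand v]
  simp only [map_sum, map_add, map_smul]
  exact Finset.sum_congr rfl fun l _ => by rw [(H l).1, (H l).2]

/-- A linear map preserving the form is an element of the group. -/
noncomputable def mkG (φ : Vc F n →ₗ[F] Vc F n) (hφ : ∀ x y, Bf (φ x) (φ y) = Bf x y) : SpG F n :=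
  ⟨LinearMap.toMatrix' φ, by
    classical
    rw [SymplecticGroup.mem_iff']
    ext i j
    have key := hφ (Pi.single i 1) (Pi.single j 1)
    rw [Bf_eq_dot, Bf_eq_dot] at key
    have e1 : ∀ x, φ x = (LinearMap.toMatrix' φ).mulVec x := fun x => by simp
    rw [e1, e1, dot_key] at key
    have key2 := neg_injective key
    simpa [Matrix.mulVec_single_one] using key2⟩

@[simp] theorem act_mkG (φ : Vc F n →ₗ[F] Vc F n) (hφ : ∀ x y, Bf (φ x) (φ y) = Bf x y) (v : Vc F n) :
    act (mkG φ hφ) v = φ v := by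
  simp [act_apply, mkG]

/-! ### Transvections -/

/-- Linear transvection. -/
noncomputable def Tlin (v : Vc F n) (t : F) : Vc F n →ₗ[F] Vc F n where
  toFun x := x + (t * Bf v x) • v
  map_add' x y := by
    simp only [Bf_add_right]
    module
  map_smul' a x := by
    simp only [Bf_smul_right, RingHom.id_apply, smul_add, smul_smul]
    congr 2
    ring

/-- Transvection. -/
noncomputable def T (v : Vc F n) (t : F) : SpG F n :=
  mkG (Tlin v t) (by
    intro x y
    simp only [Tlin, LinearMap.coe_mk, AddHom.coe_mk, Bf_add_left, Bf_add_right, Bf_smul_left,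
      Bf_smul_right, Bf_self]
    rw [Bf_comm x v]
    ring)

theorem act_T (v : Vc F n) (t : F) (x : Vc F n) : act (T v t) x = x + (t * Bf v x) • v := by
  simp [T, Tlin]

/-! ### Short root elements -/

/-- Linear short root element. -/
noncomputable def Ylin (u r : Vc F n) : Vc F n →ₗ[F] Vc F n where
  toFun x := x + Bf r x • u + Bf u x • r
  map_add' x y := by
    simp only [Bf_add_right]
    module
  map_smul' a x := by
    simp only [Bf_smul_right, RingHom.id_apply, smul_add, smul_smul]

/-- Short root element (the identity if `u`, `r` are not orthogonal). -/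
noncomputable def Y (u r : Vc F n) : SpG F n := by
  classical
  exact if h : Bf u r = 0 then mkG (Ylin u r) (by
    intro x y
    have h' : Bf r u = 0 := by rw [Bf_comm, h, neg_zero]
    simp only [Ylin, LinearMap.coe_mk, AddHom.coe_mk, Bf_add_left, Bf_add_right, Bf_smul_left,
      Bf_smul_right, Bf_self, h, h']
    rw [Bf_comm x u, Bf_comm x r]
    ring) else 1

theorem act_Y {u r : Vc F n} (h : Bf u r = 0) (x : Vc F n) :
    act (Y u r) x = x + Bf r x • u + Bf u x • r := by
  simp [Y, h, Ylin]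

theorem Y_of_ne {u r : Vc F n} (h : Bf u r ≠ 0) : Y u r = 1 := by
  simp [Y, h]

theorem Bf_symm0 {u r : Vc F n} (h : Bf u r = 0) : Bf r u = 0 := by
  rw [Bf_comm, h, neg_zero]

@[simp] theorem Y_zero_left (r : Vc F n) : Y 0 r = 1 := by
  apply G_ext
  intro x
  rw [act_Y (Bf_zero_left r)]
  simp

@[simp] theorem Y_zero_right (u : Vc F n) : Y u 0 = 1 := by
  apply G_ext
  intro x
  rw [act_Y (Bf_zero_right u)]
  simp

@[simp] theorem T_zero_param (v : Vc F n) : T v 0 = 1 := by
  apply G_ext
  intro x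
  rw [act_T]
  simp

@[simp] theorem T_zero_vec (t : F) : T (0 : Vc F n) t = 1 := by
  apply G_ext
  intro x
  rw [act_T]
  simp

theorem conj_T (g : SpG F n) (v : Vc F n) (t : F) : g * T v t * g⁻¹ = T (act g v) t := by
  apply G_ext
  intro x
  rw [act_mul, act_mul, act_T, act_T, map_add, map_smul, act_act_inv, Bf_act_inv']

theorem conj_Y (g : SpG F n) (u r : Vc F n) : g * Y u r * g⁻¹ = Y (act g u) (act g r) := by
  by_cases h : Bf u r = 0
  · have h' : Bf (act g u) (act g r) = 0 := by rw [Bf_act, h]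
    apply G_ext
    intro x
    rw [act_mul, act_mul, act_Y h, act_Y h', map_add, map_add, map_smul, map_smul, act_act_inv,
      Bf_act_inv', Bf_act_inv']
  · have h' : Bf (act g u) (act g r) ≠ 0 := by rwa [Bf_act]
    rw [Y_of_ne h, Y_of_ne h']
    simp

theorem T_add_param (v : Vc F n) (s t : F) : T v s * T v t = T v (s + t) := by
  apply G_ext
  intro x
  rw [act_mul, act_T, act_T, act_T, Bf_add_right, Bf_smul_right, Bf_self]
  module

theorem T_neg_param (v : Vc F n) (t : F) : T v (-t) = (T v t)⁻¹ := by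
  rw [eq_inv_iff_mul_eq_one, T_add_param]
  simp

theorem T_neg_vec (v : Vc F n) (t : F) : T (-v) t = T v t := by
  apply G_ext
  intro x
  rw [act_T, act_T, Bf_neg_left]
  module

theorem Y_comm_sym (u r : Vc F n) : Y u r = Y r u := by
  by_cases h : Bf u r = 0
  · apply G_ext
    intro x
    rw [act_Y h, act_Y (Bf_symm0 h)]
    module
  · have h' : Bf r u ≠ 0 := fun h2 => h (Bf_symm0 h2)
    rw [Y_of_ne h, Y_of_ne h']

theorem Y_mul_left {u u' r : Vc F n} (h : Bf u r = 0) (h' : Bf u' r = 0) :
    Y u r * Y u' r = Y (u + u') r * T r (Bf u u') := by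
  have h2 : Bf (u + u') r = 0 := by rw [Bf_add_left, h, h', add_zero]
  apply G_ext
  intro x
  rw [act_mul, act_mul, act_Y h, act_Y h', act_Y h2, act_T]
  simp only [Bf_add_left, Bf_add_right, Bf_smul_right, Bf_self, Bf_symm0 h, Bf_symm0 h', h, h']
  module

theorem Y_mul_right {u r r' : Vc F n} (h : Bf u r = 0) (h' : Bf u r' = 0) :
    Y u r * Y u r' = Y u (r + r') * T u (Bf r r') := by
  rw [Y_comm_sym u r, Y_comm_sym u r', Y_comm_sym u (r + r')]
  exact Y_mul_left (Bf_symm0 h) (Bf_symm0 h')

theorem Y_rel {u u' r r' : Vc F n} (h0 : Bf u u' = 0) (h1 : Bf u r = 0) (h2 : Bf u r' = 0)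
    (h3 : Bf u' r = 0) (h4 : Bf u' r' = 0) :
    Y u r * Y u' r' = Y u (Bf r r' • u') * (Y u' r' * Y u r) := by
  have h5 : Bf u (Bf r r' • u') = 0 := by rw [Bf_smul_right, h0, mul_zero]
  apply G_ext
  intro x
  simp only [act_mul, act_Y h1, act_Y h4, act_Y h5, Bf_add_left, Bf_add_right, Bf_smul_right, Bf_smul_left, Bf_self, Bf_symm0 h1,
    Bf_symm0 h2, Bf_symm0 h3, Bf_symm0 h4, Bf_symm0 h0, h0, h1, h2, h3, h4, Bf_comm r' r]
  module

theorem T_add {u u' : Vc F n} (h : Bf u u' = 0) (t : F) :
    T (u + u') t = T u t * T u' t * Y u (t • u') := by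
  have h5 : Bf u (t • u') = 0 := by rw [Bf_smul_right, h, mul_zero]
  apply G_ext
  intro x
  rw [act_mul, act_mul, act_T, act_T, act_T, act_Y h5]
  simp only [Bf_add_left, Bf_add_right, Bf_smul_right, Bf_smul_left, Bf_self, Bf_symm0 h, h]
  module

theorem Y_smul_left (t : F) (u r : Vc F n) : Y (t • u) r = Y u (t • r) := by
  by_cases ht : t = 0
  · subst ht; simp
  by_cases h : Bf u r = 0
  · have h1 : Bf (t • u) r = 0 := by rw [Bf_smul_left, h, mul_zero]
    have h2 : Bf u (t • r) = 0 := by rw [Bf_smul_right, h, mul_zero]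
    apply G_ext
    intro x
    rw [act_Y h1, act_Y h2]
    simp only [Bf_smul_left]
    module
  · have h1 : Bf (t • u) r ≠ 0 := by rw [Bf_smul_left]; exact mul_ne_zero ht h
    have h2 : Bf u (t • r) ≠ 0 := by rw [Bf_smul_right]; exact mul_ne_zero ht h
    rw [Y_of_ne h1, Y_of_ne h2]

theorem Y_neg_left {u r : Vc F n} (h : Bf u r = 0) : Y (-u) r = (Y u r)⁻¹ := by
  have h' : Bf (-u) r = 0 := by rw [Bf_neg_left, h, neg_zero]
  rw [eq_inv_iff_mul_eq_one]
  have := Y_mul_left h' h
  simpa [Bf_neg_left, Bf_self] using this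

end Cfsg.Agent.Lib.SpAm
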