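import Cfsg.Agent.Lib.SpAm.Level

/-!
# The commutator lemma for two Heisenberg-like families on a hyperbolic plane
-/

set_option autoImplicit false
set_option linter.unusedSimpArgs false
set_option linter.unusedVariables false

namespace Cfsg.Agent.Lib.SpAm

open Matrix Sum

variable {F : Type*} [Field F] {n : ℕ}

section Cc

variable {H : Type*} [Group H]

/-- The commutator. -/
def cc (x y : H) : H := x * y * x⁻¹ * y⁻¹

theorem cc_mul_right {x y a : H} (h : Commute x a) : cc x (y * a) = cc x y := by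
  have h' : x * a * x⁻¹ = a := by rw [h.eq]; group
  unfold cc
  calc x * (y * a) * x⁻¹ * (y * a)⁻¹ = x * y * x⁻¹ * (x * a * x⁻¹) * a⁻¹ * y⁻¹ := by group
    _ = _ := by rw [h']; group

theorem cc_mul_left {x y a : H} (h : Commute a y) : cc (x * a) y = cc x y := by
  have h' : a * y * a⁻¹ = y := by rw [h.eq]; group
  unfold cc
  calc x * a * y * (x * a)⁻¹ * y⁻¹ = x * (a * y * a⁻¹) * x⁻¹ * y⁻¹ := by group
    _ = _ := by rw [h']

theorem cc_conj (g x y : H) : g * cc x y * g⁻¹ = cc (g * x * g⁻¹) (g * y * g⁻¹) := by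
  unfold cc; group

theorem cc_mul_right_expand (x y y' : H) : cc x (y * y') = cc x y * (y * cc x y' * y⁻¹) := by
  unfold cc; group

end Cc

variable {H : Type*} [Group H]

/-- The abstract commutator lemma. -/
theorem zeta_lemma (m : Fin n) (σ₂ : SpG F n → H) (q₁ q₃ : Vc F n → H) (t₁ t₃ : F → H)
    (hσ : ∀ a ∈ (Sg m : Subgroup (SpG F n)), ∀ b ∈ (Sg m : Subgroup (SpG F n)),
      σ₂ (a * b) = σ₂ a * σ₂ b)
    (eq1 : ∀ g ∈ (Sg m : Subgroup (SpG F n)), ∀ w ∈ (Pl m : Submodule F (Vc F n)),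
      σ₂ g * q₁ w * (σ₂ g)⁻¹ = q₁ (act g w))
    (eq3 : ∀ g ∈ (Sg m : Subgroup (SpG F n)), ∀ w ∈ (Pl m : Submodule F (Vc F n)),
      σ₂ g * q₃ w * (σ₂ g)⁻¹ = q₃ (act g w))
    (h1 : ∀ w ∈ (Pl m : Submodule F (Vc F n)), ∀ w' ∈ (Pl m : Submodule F (Vc F n)),
      q₁ w * q₁ w' = q₁ (w + w') * t₁ (Bf w w'))
    (h3 : ∀ w ∈ (Pl m : Submodule F (Vc F n)), ∀ w' ∈ (Pl m : Submodule F (Vc F n)),
      q₃ w * q₃ w' = q₃ (w + w') * t₃ (Bf w w'))
    (c1 : ∀ τ, ∀ w ∈ (Pl m : Submodule F (Vc F n)), Commute (t₁ τ) (q₃ w))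
    (c3 : ∀ τ, ∀ w ∈ (Pl m : Submodule F (Vc F n)), Commute (t₃ τ) (q₁ w))
    (c0 : ∀ t s : F, Commute (q₁ (t • eV m)) (q₃ (s • eV m)))
    (z1 : q₁ 0 = 1) (z3 : q₃ 0 = 1) (t10 : t₁ 0 = 1) (t30 : t₃ 0 = 1) :
    ∃ ζ : F → H,
      (∀ w ∈ (Pl m : Submodule F (Vc F n)), ∀ w' ∈ (Pl m : Submodule F (Vc F n)),
        cc (q₁ w) (q₃ w') = ζ (Bf w w')) ∧
      ζ 0 = 1 ∧ (∀ s t, ζ (s + t) = ζ s * ζ t) ∧
      (∀ t, ∀ g ∈ (Sg m : Subgroup (SpG F n)), Commute (ζ t) (σ₂ g)) ∧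
      (∀ t, ∀ w ∈ (Pl m : Submodule F (Vc F n)), Commute (ζ t) (q₁ w)) ∧
      (∀ t, ∀ w ∈ (Pl m : Submodule F (Vc F n)), Commute (ζ t) (q₃ w)) := by
  have he := eV_mem_Pl (F := F) m
  have hf := fV_mem_Pl (F := F) m
  have hP : ∀ (κ : F) {w : Vc F n}, w ∈ (Pl m : Submodule F (Vc F n)) →
    κ • w ∈ (Pl m : Submodule F (Vc F n)) := fun κ w hw => (Pl m).smul_mem κ hw
  have σ1 : σ₂ 1 = 1 := by
    have := hσ 1 (Sg m).one_mem 1 (Sg m).one_mem
    rw [mul_one] at this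
    exact left_eq_mul.1 this
  have σinv : ∀ s ∈ (Sg m : Subgroup (SpG F n)), σ₂ s⁻¹ = (σ₂ s)⁻¹ := by
    intro s hs
    rw [eq_inv_iff_mul_eq_one, ← hσ _ ((Sg m).inv_mem hs) _ hs]
    simp [σ1]
  have htrans : ∀ {w : Vc F n}, w ∈ (Pl m : Submodule F (Vc F n)) → w ≠ 0 →
      ∃ s ∈ (Sg m : Subgroup (SpG F n)), act s (eV m) = w := by
    intro w hw h0
    obtain ⟨s, hs, h⟩ := exists_trans_plane hw h0
    exact ⟨s, Tset_le_Sg m hs, h⟩
  have equi : ∀ g ∈ (Sg m : Subgroup (SpG F n)), ∀ w ∈ (Pl m : Submodule F (Vc F n)),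
      ∀ w' ∈ (Pl m : Submodule F (Vc F n)),
      σ₂ g * cc (q₁ w) (q₃ w') * (σ₂ g)⁻¹ = cc (q₁ (act g w)) (q₃ (act g w')) := by
    intro g hg w hw w' hw'
    rw [cc_conj, eq1 g hg w hw, eq3 g hg w' hw']
  -- dependent vectors
  have star : ∀ w ∈ (Pl m : Submodule F (Vc F n)), ∀ κ : F, Commute (q₁ w) (q₃ (κ • w)) := by
    intro w hw κ
    by_cases h0 : w = 0
    · subst h0; rw [z1]; exact Commute.one_left _
    · obtain ⟨s, hs, hse⟩ := htrans hw h0
      have h2 := c0 1 κ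
      rw [one_smul] at h2
      have h3' := h2.conj (σ₂ s)
      rw [eq1 s hs _ he, eq3 s hs _ (hP κ he), map_smul, hse] at h3'
      exact h3'
  have star' : ∀ w ∈ (Pl m : Submodule F (Vc F n)), ∀ κ : F, Commute (q₁ (κ • w)) (q₃ w) := by
    intro w hw κ
    by_cases h0 : κ = 0
    · subst h0; rw [zero_smul, z1]; exact Commute.one_left _
    · have := star _ (hP κ hw) κ⁻¹
      rwa [smul_smul, inv_mul_cancel₀ h0, one_smul] at this
  have claimA : ∀ w ∈ (Pl m : Submodule F (Vc F n)), ∀ w' ∈ (Pl m : Submodule F (Vc F n)),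
      ∀ κ : F, cc (q₁ w) (q₃ (w' + κ • w)) = cc (q₁ w) (q₃ w') := by
    intro w hw w' hw' κ
    have h := h3 w' hw' _ (hP κ hw)
    have e : q₃ (w' + κ • w) = q₃ w' * (q₃ (κ • w) * (t₃ (Bf w' (κ • w)))⁻¹) := by
      rw [← mul_assoc, h]; group
    rw [e]
    exact cc_mul_right ((star w hw κ).mul_right ((c3 _ w hw).symm.inv_right))
  have claimB : ∀ w ∈ (Pl m : Submodule F (Vc F n)), ∀ w' ∈ (Pl m : Submodule F (Vc F n)),
      ∀ κ : F, cc (q₁ (w + κ • w')) (q₃ w') = cc (q₁ w) (q₃ w') := by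
    intro w hw w' hw' κ
    have h := h1 w hw _ (hP κ hw')
    have e : q₁ (w + κ • w') = q₁ w * (q₁ (κ • w') * (t₁ (Bf w (κ • w')))⁻¹) := by
      rw [← mul_assoc, h]; group
    rw [e]
    exact cc_mul_left ((star' w' hw' κ).mul_left ((c1 _ w' hw').inv_left))
  -- definition of `ζ`
  let ζ : F → H := fun t => cc (q₁ (eV m)) (q₃ (t • fV m))
  have ζ0 : ζ 0 = 1 := by
    show cc _ _ = 1
    rw [zero_smul, z3]
    unfold cc; group
  have ζ_Te : ∀ t τ : F, Commute (ζ t) (σ₂ (T (eV m) τ)) := by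
    intro t τ
    have hT := T_mem_Sg (F := F) he τ
    have e1 := equi _ hT _ he _ (hP t hf)
    rw [act_T, act_T, Bf_self, mul_zero, zero_smul, add_zero, Bf_smul_right, Bf_e_f_self,
      mul_one] at e1
    rw [claimA _ he _ (hP t hf)] at e1
    show Commute (cc _ _) _
    rw [Commute.symm_iff, commute_iff_eq]
    exact (eq_mul_inv_iff_mul_eq.1 e1.symm).symm
  have ζ_Tf : ∀ t τ : F, Commute (ζ t) (σ₂ (T (fV m) τ)) := by
    intro t τ
    by_cases ht : t = 0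
    · subst ht; rw [ζ0]; exact Commute.one_left _
    have hT := T_mem_Sg (F := F) hf τ
    have e1 := equi _ hT _ he _ (hP t hf)
    rw [act_T, act_T, Bf_smul_right, Bf_self, mul_zero, mul_zero, zero_smul, add_zero,
      Bf_f_e_self] at e1
    have e2 : (τ * -1) • fV m = (-τ / t) • (t • fV m : Vc F n) := by
      rw [smul_smul]; congr 1; field_simp
    rw [e2, claimB _ he _ (hP t hf)] at e1
    show Commute (cc _ _) _
    rw [Commute.symm_iff, commute_iff_eq]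
    exact (eq_mul_inv_iff_mul_eq.1 e1.symm).symm
  have ζ_S : ∀ t, ∀ g ∈ (Sg m : Subgroup (SpG F n)), Commute (ζ t) (σ₂ g) := by
    intro t g hg
    have main : ∀ g ∈ Subgroup.closure (Tset (F := F) m), g ∈ (Sg m : Subgroup (SpG F n)) ∧
        Commute (ζ t) (σ₂ g) := by
      intro g hg
      induction hg using Subgroup.closure_induction with
      | mem x hx =>
        obtain ⟨τ, rfl | rfl⟩ := hx
        · exact ⟨T_mem_Sg he τ, ζ_Te t τ⟩
        · exact ⟨T_mem_Sg hf τ, ζ_Tf t τ⟩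
      | one => exact ⟨(Sg m).one_mem, by rw [σ1]; exact Commute.one_right _⟩
      | mul x y _ _ hx hy =>
        refine ⟨(Sg m).mul_mem hx.1 hy.1, ?_⟩
        rw [hσ _ hx.1 _ hy.1]
        exact hx.2.mul_right hy.2
      | inv x _ hx =>
        refine ⟨(Sg m).inv_mem hx.1, ?_⟩
        rw [σinv _ hx.1]
        exact hx.2.inv_right
    exact (main g (Sg_le_closure m hg)).2
  have formula : ∀ w ∈ (Pl m : Submodule F (Vc F n)), ∀ w' ∈ (Pl m : Submodule F (Vc F n)),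
      cc (q₁ w) (q₃ w') = ζ (Bf w w') := by
    intro w hw w' hw'
    by_cases h0 : w = 0
    · subst h0
      rw [z1, Bf_zero_left, ζ0]
      unfold cc; group
    obtain ⟨s, hs, hse⟩ := htrans hw h0
    have hw'' : act s⁻¹ w' ∈ (Pl m : Submodule F (Vc F n)) := act_Sg_P ((Sg m).inv_mem hs) hw'
    have hB : Bf (eV m) (act s⁻¹ w') = Bf w w' := by rw [Bf_act_inv', hse]
    obtain ⟨hform⟩ : Nonempty (act s⁻¹ w' =
        Bf (eV m) (act s⁻¹ w') • fV m + (act s⁻¹ w' (inl m)) • eV m) := by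
      refine ⟨?_⟩
      have := plane_form hw''
      rw [Bf_e_left]
      rw [add_comm]
      exact this
    have e := equi s hs _ he _ hw''
    rw [hse, act_act_inv] at e
    rw [← e, hform, claimA _ he _ (hP _ hf), hB]
    exact ζ_S _ s hs |>.symm.eq ▸ by group
  have ζ_q1e : ∀ t, Commute (ζ t) (q₁ (eV m)) := by
    intro t
    have hy : (-t) • eV m ∈ (Pl m : Submodule F (Vc F n)) := hP _ he
    have hz : ζ t = cc (q₁ (fV m)) (q₃ ((-t) • eV m)) := by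
      rw [formula _ hf _ hy, Bf_smul_right, Bf_f_e_self]
      congr 1; ring
    have hgy : Commute (q₁ (eV m)) (q₃ ((-t) • eV m)) := by
      have := c0 1 (-t)
      rwa [one_smul] at this
    have h1a := h1 _ he _ hf
    have h1b := h1 _ hf _ he
    rw [add_comm (fV m)] at h1b
    have hgx : q₁ (eV m) * q₁ (fV m) * (q₁ (eV m))⁻¹ = q₁ (fV m) *
        (q₁ (eV m) * ((t₁ (Bf (fV m) (eV m)))⁻¹ * t₁ (Bf (eV m) (fV m))) * (q₁ (eV m))⁻¹) := by
      rw [h1a]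
      have : q₁ (eV m + fV m) = q₁ (fV m) * q₁ (eV m) * (t₁ (Bf (fV m) (eV m)))⁻¹ := by
        rw [h1b]; group
      rw [this]; group
    have hZ : Commute (q₁ (eV m) * ((t₁ (Bf (fV m) (eV m)))⁻¹ * t₁ (Bf (eV m) (fV m))) *
        (q₁ (eV m))⁻¹) (q₃ ((-t) • eV m)) :=
      (hgy.mul_left (((c1 _ _ hy).inv_left).mul_left (c1 _ _ hy))).mul_left hgy.inv_left
    have hgy' : q₁ (eV m) * q₃ ((-t) • eV m) * (q₁ (eV m))⁻¹ = q₃ ((-t) • eV m) := by
      rw [hgy.eq]; group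
    have key : q₁ (eV m) * ζ t * (q₁ (eV m))⁻¹ = ζ t := by
      rw [hz, cc_conj, hgx, hgy', cc_mul_left hZ]
    rw [Commute.symm_iff, commute_iff_eq]
    exact (eq_mul_inv_iff_mul_eq.1 key.symm).symm
  have ζ_q3e : ∀ t, Commute (ζ t) (q₃ (eV m)) := by
    intro t
    have hy : t • fV m ∈ (Pl m : Submodule F (Vc F n)) := hP _ hf
    have hgx : Commute (q₃ (eV m)) (q₁ (eV m)) := by
      have := c0 1 1
      rw [one_smul] at this
      exact this.symm
    have h1a := h3 _ he _ hy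
    have h1b := h3 _ hy _ he
    rw [add_comm (t • fV m)] at h1b
    have hgy : q₃ (eV m) * q₃ (t • fV m) * (q₃ (eV m))⁻¹ = q₃ (t • fV m) *
        (q₃ (eV m) * ((t₃ (Bf (t • fV m) (eV m)))⁻¹ * t₃ (Bf (eV m) (t • fV m))) * (q₃ (eV m))⁻¹) := by
      rw [h1a]
      have : q₃ (eV m + t • fV m) = q₃ (t • fV m) * q₃ (eV m) * (t₃ (Bf (t • fV m) (eV m)))⁻¹ := by
        rw [h1b]; group
      rw [this]; group
    have hZ : Commute (q₁ (eV m)) (q₃ (eV m) * ((t₃ (Bf (t • fV m) (eV m)))⁻¹ * t₃ (Bf (eV m) (t • fV m))) *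
        (q₃ (eV m))⁻¹) := by
      refine ((hgx.symm.mul_right ?_).mul_right hgx.symm.inv_right)
      exact ((c3 _ _ he).symm.inv_right).mul_right (c3 _ _ he).symm
    have hgx' : q₃ (eV m) * q₁ (eV m) * (q₃ (eV m))⁻¹ = q₁ (eV m) := by
      rw [hgx.eq]; group
    have key : q₃ (eV m) * ζ t * (q₃ (eV m))⁻¹ = ζ t := by
      show _ * cc _ _ * _ = cc _ _
      rw [cc_conj, hgx', hgy, cc_mul_right hZ]
    rw [Commute.symm_iff, commute_iff_eq]
    exact (eq_mul_inv_iff_mul_eq.1 key.symm).symm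
  have ζ_q1 : ∀ t, ∀ w ∈ (Pl m : Submodule F (Vc F n)), Commute (ζ t) (q₁ w) := by
    intro t w hw
    by_cases h0 : w = 0
    · subst h0; rw [z1]; exact Commute.one_right _
    obtain ⟨s, hs, hse⟩ := htrans hw h0
    have e := eq1 s hs _ he
    rw [hse] at e
    rw [← e]
    exact ((ζ_S t s hs).mul_right (ζ_q1e t)).mul_right (ζ_S t s hs).inv_right
  have ζ_q3 : ∀ t, ∀ w ∈ (Pl m : Submodule F (Vc F n)), Commute (ζ t) (q₃ w) := by
    intro t w hw
    by_cases h0 : w = 0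
    · subst h0; rw [z3]; exact Commute.one_right _
    obtain ⟨s, hs, hse⟩ := htrans hw h0
    have e := eq3 s hs _ he
    rw [hse] at e
    rw [← e]
    exact ((ζ_S t s hs).mul_right (ζ_q3e t)).mul_right (ζ_S t s hs).inv_right
  have ζ_add : ∀ s t, ζ (s + t) = ζ s * ζ t := by
    intro s t
    have h := h3 _ (hP s hf) _ (hP t hf)
    rw [Bf_smul_left, Bf_smul_right, Bf_self, mul_zero, mul_zero, t30, mul_one, ← add_smul] at h
    show cc _ _ = ζ s * ζ t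
    rw [← h, cc_mul_right_expand]
    show ζ s * (_ * ζ t * _) = _
    rw [(ζ_q3 t _ (hP s hf)).symm.eq]
    group
  exact ⟨ζ, formula, ζ0, ζ_add, ζ_S, ζ_q1, ζ_q3⟩

end Cfsg.Agent.Lib.SpAm
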