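import Cfsg.Agent.Lib.SpAm.Step
import Cfsg.Agent.Lib.SpAm.Zeta

/-!
# The amalgam data and the construction of the short root elements
-/

set_option autoImplicit false
set_option linter.unusedSimpArgs false
set_option linter.unusedVariables false
set_option linter.unusedSectionVars false

namespace Cfsg.Agent.Lib.SpAm

open Matrix Sum

variable {F : Type*} [Field F] {n : ℕ}

/-! ### Identities in the group -/

theorem T_comm_Y {v u r : Vc F n} (hu : Bf v u = 0) (hr : Bf v r = 0) (τ : F) :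
    T v τ * Y u r = Y u r * T v τ := by
  have := conj_Y (T v τ) u r
  rw [act_T, act_T, hu, hr, mul_zero, zero_smul, add_zero, add_zero] at this
  rw [mul_inv_eq_iff_eq_mul] at this
  exact this

theorem T_comm_T {v v' : Vc F n} (h : Bf v v' = 0) (τ τ' : F) :
    T v τ * T v' τ' = T v' τ' * T v τ := by
  have := conj_T (T v τ) v' τ'
  rw [act_T, h, mul_zero, zero_smul, add_zero] at this
  rw [mul_inv_eq_iff_eq_mul] at this
  exact this

theorem Gk_Sg_comm {k : ℕ} {c : Fin n} (hc : k ≤ c.val) {g s : SpG F n} (hg : g ∈ Gk F n k)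
    (hs : s ∈ (Sg c : Subgroup (SpG F n))) : g * s = s * g := by
  apply G_ext_basis
  intro l
  by_cases h : l = c
  · subst h
    have h1 := act_Gk_P hg hc (eV_mem_Pl (F := F) l)
    have h2 := act_Gk_P hg hc (fV_mem_Pl (F := F) l)
    constructor <;> rw [act_mul, act_mul]
    · rw [h1, act_Gk_P hg hc (act_Sg_P hs (eV_mem_Pl l))]
    · rw [h2, act_Gk_P hg hc (act_Sg_P hs (fV_mem_Pl l))]
  · have he := (hs l h).1
    have hf := (hs l h).2
    constructor <;> rw [act_mul, act_mul]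
    · rw [he]
      by_cases hl : l.val < k
      · exact (act_Sg_W hs hc (act_Gk_W hg (eV_mem_Wk hl))).symm
      · rw [(hg l (by omega)).1, he]
    · rw [hf]
      by_cases hl : l.val < k
      · exact (act_Sg_W hs hc (act_Gk_W hg (fV_mem_Wk hl))).symm
      · rw [(hg l (by omega)).2, hf]

theorem exists_Sg_act {c : Fin n} {r : Vc F n} (hr : r ∈ (Pl c : Submodule F (Vc F n))) (h0 : r ≠ 0) :
    ∃ s ∈ (Sg c : Subgroup (SpG F n)), act s (eV c) = r := by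
  obtain ⟨s, hs, h⟩ := exists_trans_plane hr h0
  exact ⟨s, Tset_le_Sg c hs, h⟩

theorem act_ne_zero (g : SpG F n) {v : Vc F n} (h : v ≠ 0) : act g v ≠ 0 := by
  intro h'
  exact h (act_injective g (by rw [h', map_zero]))

section PM

variable {G H : Type*} [Group G] [Group H] {J : Subgroup G} {f : G → H}

theorem pm_one (hf : ∀ a ∈ J, ∀ b ∈ J, f (a * b) = f a * f b) : f 1 = 1 := by
  have := hf 1 J.one_mem 1 J.one_mem
  rw [mul_one] at this
  exact left_eq_mul.1 this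

theorem pm_inv (hf : ∀ a ∈ J, ∀ b ∈ J, f (a * b) = f a * f b) {a : G} (ha : a ∈ J) :
    f a⁻¹ = (f a)⁻¹ := by
  rw [eq_inv_iff_mul_eq_one, ← hf _ (J.inv_mem ha) _ ha]
  simp [pm_one hf]

theorem pm_conj (hf : ∀ a ∈ J, ∀ b ∈ J, f (a * b) = f a * f b) {a x : G} (ha : a ∈ J) (hx : x ∈ J) :
    f (a * x * a⁻¹) = f a * f x * (f a)⁻¹ := by
  rw [hf _ (J.mul_mem ha hx) _ (J.inv_mem ha), hf _ ha _ hx, pm_inv hf ha]

end PM

/-- The amalgam, in the form of total functions. -/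
structure Amal (F : Type*) [Field F] (n : ℕ) (H : Type*) [Group H] where
  σ : Fin n → SpG F n → H
  μ : Fin n → SpG F n → H
  Ψb : Fin n → SpG F n → H
  Ψc : Fin n → SpG F n → H
  σ_mul : ∀ j, ∀ a ∈ (Sg j : Subgroup (SpG F n)), ∀ b ∈ (Sg j : Subgroup (SpG F n)),
    σ j (a * b) = σ j a * σ j b
  μ_mul : ∀ i i' : Fin n, i'.val = i.val + 1 → ∀ a ∈ (Mg i i' : Subgroup (SpG F n)),
    ∀ b ∈ (Mg i i' : Subgroup (SpG F n)), μ i (a * b) = μ i a * μ i b
  comm_SS : ∀ j l : Fin n, j ≠ l → ∀ a ∈ (Sg j : Subgroup (SpG F n)),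
    ∀ b ∈ (Sg l : Subgroup (SpG F n)), Commute (σ j a) (σ l b)
  comm_MM : ∀ i i₁ i' i₁' : Fin n, i₁.val = i.val + 1 → i₁'.val = i'.val + 1 → i ≠ i' →
    ∀ a ∈ (Mg i i₁ : Subgroup (SpG F n)), ∀ b ∈ (Mg i' i₁' : Subgroup (SpG F n)),
      Commute (μ i a) (μ i' b)
  comm_MS : ∀ i i₁ j : Fin n, i₁.val = i.val + 1 → j ≠ i → j ≠ i₁ →
    ∀ a ∈ (Mg i i₁ : Subgroup (SpG F n)), ∀ b ∈ (Sg j : Subgroup (SpG F n)),
      Commute (μ i a) (σ j b)
  Ψb_mul : ∀ i i' : Fin n, i'.val = i.val + 1 →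
    ∀ a ∈ (Mg i i' ⊔ Sg i : Subgroup (SpG F n)), ∀ b ∈ (Mg i i' ⊔ Sg i : Subgroup (SpG F n)),
      Ψb i (a * b) = Ψb i a * Ψb i b
  Ψb_μ : ∀ i i' : Fin n, i'.val = i.val + 1 → ∀ a ∈ (Mg i i' : Subgroup (SpG F n)), Ψb i a = μ i a
  Ψb_σ : ∀ i i' : Fin n, i'.val = i.val + 1 → ∀ a ∈ (Sg i : Subgroup (SpG F n)), Ψb i a = σ i a
  Ψc_mul : ∀ i i' : Fin n, i'.val = i.val + 1 →
    ∀ a ∈ (Mg i i' ⊔ Sg i' : Subgroup (SpG F n)), ∀ b ∈ (Mg i i' ⊔ Sg i' : Subgroup (SpG F n)),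
      Ψc i (a * b) = Ψc i a * Ψc i b
  Ψc_μ : ∀ i i' : Fin n, i'.val = i.val + 1 → ∀ a ∈ (Mg i i' : Subgroup (SpG F n)), Ψc i a = μ i a
  Ψc_σ : ∀ i i' : Fin n, i'.val = i.val + 1 → ∀ a ∈ (Sg i' : Subgroup (SpG F n)), Ψc i a = σ i' a

variable {H : Type*} [Group H]

/-- A solution at level `k`. -/
structure Lev (A : Amal F n H) (k : ℕ) where
  Φ : SpG F n → H
  Φ_mul : ∀ a ∈ Gk F n k, ∀ b ∈ Gk F n k, Φ (a * b) = Φ a * Φ b
  Φ_σ : ∀ j : Fin n, j.val < k → ∀ a ∈ (Sg j : Subgroup (SpG F n)), Φ a = A.σ j a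
  Φ_μ : ∀ i i' : Fin n, i'.val = i.val + 1 → i'.val < k → ∀ a ∈ (Mg i i' : Subgroup (SpG F n)),
    Φ a = A.μ i a

namespace Amal

variable (A : Amal F n H)

theorem σ_one (j : Fin n) : A.σ j 1 = 1 := pm_one (A.σ_mul j)
theorem σ_inv {j : Fin n} {a : SpG F n} (ha : a ∈ (Sg j : Subgroup (SpG F n))) :
    A.σ j a⁻¹ = (A.σ j a)⁻¹ := pm_inv (A.σ_mul j) ha

end Amal

namespace Lev

variable {A : Amal F n H} {k : ℕ} (L : Lev A k)

theorem Φ_one : L.Φ 1 = 1 := pm_one L.Φ_mul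
theorem Φ_inv {a : SpG F n} (ha : a ∈ Gk F n k) : L.Φ a⁻¹ = (L.Φ a)⁻¹ := pm_inv L.Φ_mul ha
theorem Φ_conj {a x : SpG F n} (ha : a ∈ Gk F n k) (hx : x ∈ Gk F n k) :
    L.Φ (a * x * a⁻¹) = L.Φ a * L.Φ x * (L.Φ a)⁻¹ := pm_conj L.Φ_mul ha hx

/-- Commuting with all of `Gk k'` is checked on generators. -/
theorem gk_commute {k' : ℕ} (hk' : k' ≤ k) (X : H)
    (h : ∀ g ∈ Gens F n k', Commute (L.Φ g) X) : ∀ g ∈ Gk F n k', Commute (L.Φ g) X := by
  intro g hg
  rw [Gk_eq_closure] at hg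
  have main : g ∈ Gk F n k' ∧ Commute (L.Φ g) X := by
    induction hg using Subgroup.closure_induction with
    | mem x hx => exact ⟨Gens_closure_le k' (Subgroup.subset_closure hx), h x hx⟩
    | one => exact ⟨(Gk F n k').one_mem, by rw [L.Φ_one]; exact Commute.one_left _⟩
    | mul x y _ _ hx hy =>
      refine ⟨(Gk F n k').mul_mem hx.1 hy.1, ?_⟩
      rw [L.Φ_mul _ (Gk_mono hk' hx.1) _ (Gk_mono hk' hy.1)]
      exact hx.2.mul_left hy.2
    | inv x _ hx =>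
      refine ⟨(Gk F n k').inv_mem hx.1, ?_⟩
      rw [L.Φ_inv (Gk_mono hk' hx.1)]
      exact hx.2.inv_left
  exact main.2

end Lev

section Step

variable (A : Amal F n H) {k : ℕ} (L : Lev A k) {b c : Fin n}

/-- The short root element from the amalgam. -/
noncomputable def Y0h (A : Amal F n H) (b c : Fin n) : H := A.μ b (Y (eV b) (eV c))

theorem Y0_mem_Mg (b c : Fin n) : Y (eV b) (eV c) ∈ (Mg b c : Subgroup (SpG F n)) := by
  have := Y_mem_Mg (F := F) (b := b) (c := c) 1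
  rwa [one_smul] at this

variable (hb : b.val + 1 = k) (hc : c.val = k)

include hb in
theorem b_lt_k : b.val < k := by omega

include hb hc in
theorem bc_succ : c.val = b.val + 1 := by omega

include hb hc in
theorem b_ne_c : b ≠ c := by
  intro h
  subst h
  omega

include hc in
theorem Phi_comm_sigma {g s : SpG F n} (hg : g ∈ Gk F n k) (hs : s ∈ (Sg c : Subgroup (SpG F n))) :
    Commute (L.Φ g) (A.σ c s) := by
  refine L.gk_commute le_rfl _ ?_ g hg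
  rintro g (⟨j, hj, hg⟩ | ⟨i, i', h1, h2, hg⟩)
  · rw [L.Φ_σ j hj g hg]
    refine A.comm_SS j c ?_ g hg s hs
    rintro rfl
    omega
  · rw [L.Φ_μ i i' h1 h2 g hg]
    refine A.comm_MS i i' c h1 ?_ ?_ g hg s hs
    · rintro rfl; omega
    · rintro rfl; omega

include hb hc in
theorem T_eb_eq (τ : F) : L.Φ (T (eV b) τ) = A.μ b (T (eV b) τ) := by
  rw [L.Φ_σ b (by omega) _ (T_mem_Sg (eV_mem_Pl b) τ),
    ← A.Ψb_σ b c (bc_succ hb hc) _ (T_mem_Sg (eV_mem_Pl b) τ),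
    A.Ψb_μ b c (bc_succ hb hc) _ (T_mem_Mg_left τ)]

include hb hc in
theorem T_ec_eq (τ : F) : A.σ c (T (eV c) τ) = A.μ b (T (eV c) τ) := by
  rw [← A.Ψc_σ b c (bc_succ hb hc) _ (T_mem_Sg (eV_mem_Pl c) τ),
    A.Ψc_μ b c (bc_succ hb hc) _ (T_mem_Mg_right τ)]

include hb hc in
theorem Te_comm_Y0 (τ : F) : Commute (A.σ c (T (eV c) τ)) (Y0h A b c) := by
  rw [T_ec_eq A hb hc]
  show _ * _ = _ * _
  unfold Y0h
  have h := bc_succ hb hc
  rw [← A.μ_mul b c h _ (T_mem_Mg_right τ) _ (Y0_mem_Mg b c),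
    ← A.μ_mul b c h _ (Y0_mem_Mg b c) _ (T_mem_Mg_right τ),
    T_comm_Y (Bf_e_e _ _) (Bf_e_e _ _)]

include hb hc in
theorem T_eb_comm_Y0 (τ : F) : Commute (L.Φ (T (eV b) τ)) (Y0h A b c) := by
  rw [T_eb_eq A L hb hc]
  show _ * _ = _ * _
  unfold Y0h
  have h := bc_succ hb hc
  rw [← A.μ_mul b c h _ (T_mem_Mg_left τ) _ (Y0_mem_Mg b c),
    ← A.μ_mul b c h _ (Y0_mem_Mg b c) _ (T_mem_Mg_left τ),
    T_comm_Y (Bf_e_e _ _) (Bf_e_e _ _)]

include hb hc in
/-- The stabilizer of `e_b` at level `k-1`: `Gk (k-1)` part. -/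
theorem low_comm_Y0 {g : SpG F n} (hg : g ∈ Gk F n b.val) : Commute (L.Φ g) (Y0h A b c) := by
  have hle : b.val ≤ k := by omega
  refine L.gk_commute hle _ ?_ g hg
  rintro g (⟨j, hj, hg⟩ | ⟨i, i', h1, h2, hg⟩)
  · rw [L.Φ_σ j (by omega) g hg]
    refine (A.comm_MS b c j (bc_succ hb hc) ?_ ?_ _ (Y0_mem_Mg b c) g hg).symm
    · rintro rfl; omega
    · rintro rfl; omega
  · rw [L.Φ_μ i i' h1 (by omega) g hg]
    refine A.comm_MM i i' b c h1 (bc_succ hb hc) ?_ g hg _ (Y0_mem_Mg b c)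
    rintro rfl; omega

include hb hc in
/-- `Φ` of the short root elements in the stabilizer commute with `Ŷ₀`. -/
theorem Yw_comm_Y0 {w : Vc F n} (hw : w ∈ Wk F n b.val) :
    Commute (L.Φ (Y w (eV b))) (Y0h A b c) := by
  by_cases h0 : w = 0
  · subst h0
    rw [Y_zero_left, L.Φ_one]
    exact Commute.one_left _
  have hb0 : b.val ≠ 0 := by
    intro h
    rw [h] at hw
    exact h0 (Wk_zero hw)
  have hale : b.val - 1 < n := by have := b.isLt; omega
  obtain ⟨g, hg, hge⟩ := exists_Gk_act (b := ⟨b.val - 1, hale⟩) (by simp; omega) hw h0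
  have hgk : g ∈ Gk F n k := Gk_mono (by omega) hg
  have hgb : act g (eV b) = eV b := (hg b le_rfl).1
  have hconj := conj_Y g (eV ⟨b.val - 1, hale⟩) (eV b)
  rw [hge, hgb] at hconj
  have hbval : (⟨b.val - 1, hale⟩ : Fin n).val < k := by simp; omega
  have hYa : Y (eV (⟨b.val - 1, hale⟩ : Fin n)) (eV b) ∈ Gk F n k :=
    Y_mem_Gk (eV_mem_Wk hbval) (eV_mem_Wk (by omega))
  rw [← hconj, L.Φ_conj hgk hYa]
  have hg' := low_comm_Y0 A L hb hc hg
  refine (hg'.mul_left ?_).mul_left hg'.inv_left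
  rw [L.Φ_μ _ b (by simp; omega) (by omega) _ (Y0_mem_Mg _ _)]
  refine A.comm_MM _ b b c (by simp; omega) (bc_succ hb hc) ?_ _ (Y0_mem_Mg _ _) _ (Y0_mem_Mg _ _)
  intro h
  have := congrArg Fin.val h
  simp at this
  omega

include hb hc in
/-- The stabilizer of `e_b` commutes with `Ŷ₀`. -/
theorem stab_comm_Y0 {p : SpG F n} (hp : p ∈ Gk F n k) (he : act p (eV b) = eV b) :
    Commute (L.Φ p) (Y0h A b c) := by
  have hp' : p ∈ Gk F n (b.val + 1) := by rw [hb]; exact hp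
  obtain ⟨w, hw, t, g, hg, rfl⟩ := normal_form (k := b.val) (c := b) rfl hp' he
  have hwk : Y w (eV b) ∈ Gk F n k :=
    Y_mem_Gk (Wk_mono (by omega) hw) (eV_mem_Wk (by omega))
  have hTk : T (eV b) t ∈ Gk F n k := T_mem_Gk (eV_mem_Wk (by omega)) t
  have hgk : g ∈ Gk F n k := Gk_mono (by omega) hg
  rw [L.Φ_mul _ ((Gk F n k).mul_mem hwk hTk) _ hgk, L.Φ_mul _ hwk _ hTk]
  exact ((Yw_comm_Y0 A L hb hc hw).mul_left (T_eb_comm_Y0 A L hb hc t)).mul_left
    (low_comm_Y0 A L hb hc hg)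

/-- The expression defining `yh`. -/
noncomputable def yexp (g s : SpG F n) : H :=
  L.Φ g * A.σ c s * Y0h A b c * (A.σ c s)⁻¹ * (L.Φ g)⁻¹

include hb hc in
theorem yexp_wd {g g' s s' : SpG F n} (hg : g ∈ Gk F n k) (hg' : g' ∈ Gk F n k)
    (hs : s ∈ (Sg c : Subgroup (SpG F n))) (hs' : s' ∈ (Sg c : Subgroup (SpG F n)))
    (h1 : act g (eV b) = act g' (eV b)) (h2 : act s (eV c) = act s' (eV c)) :
    yexp A L (b := b) (c := c) g s = yexp A L (b := b) (c := c) g' s' := by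
  -- write `g' = g p`, `s' = s T`
  have hp : g⁻¹ * g' ∈ Gk F n k := (Gk F n k).mul_mem ((Gk F n k).inv_mem hg) hg'
  have hpe : act (g⁻¹ * g') (eV b) = eV b := by
    rw [act_mul, ← h1, act_inv_act]
  have hpc := stab_comm_Y0 A L hb hc hp hpe
  have hq : s⁻¹ * s' ∈ (Sg c : Subgroup (SpG F n)) := (Sg c).mul_mem ((Sg c).inv_mem hs) hs'
  have hqe : act (s⁻¹ * s') (eV c) = eV c := by
    rw [act_mul, ← h2, act_inv_act]
  obtain ⟨τ, hτ⟩ := Sg_stab hq hqe
  have hs'' : s' = s * T (eV c) τ := by rw [← hτ]; group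
  have hg'' : g' = g * (g⁻¹ * g') := by group
  have hT := T_mem_Sg (F := F) (eV_mem_Pl c) τ
  have hcom := Te_comm_Y0 A hb hc τ
  have hpc2 := Phi_comm_sigma A L hc hp hs
  have hpc3 := Phi_comm_sigma A L hc hp hT
  unfold yexp
  rw [hs'', A.σ_mul c _ hs _ hT]
  conv_rhs => rw [hg'', L.Φ_mul _ hg _ hp]
  set P := L.Φ (g⁻¹ * g') with hPdef
  set Q := A.σ c (T (eV c) τ) with hQdef
  set S := A.σ c s with hSdef
  set X := Y0h A b c with hXdef
  have e1 : S * Q * X * (S * Q)⁻¹ = S * X * S⁻¹ := by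
    have : Q * X = X * Q := hcom.eq
    calc S * Q * X * (S * Q)⁻¹ = S * (Q * X) * Q⁻¹ * S⁻¹ := by group
      _ = _ := by rw [this]; group
  have e2 : P * (S * X * S⁻¹) * P⁻¹ = S * X * S⁻¹ := by
    have h3 : P * S = S * P := hpc2.eq
    have h4 : P * X = X * P := hpc.eq
    calc P * (S * X * S⁻¹) * P⁻¹ = (P * S) * X * S⁻¹ * P⁻¹ := by group
      _ = S * (P * X) * S⁻¹ * P⁻¹ := by rw [h3]; group
      _ = S * X * (P * S⁻¹) * P⁻¹ := by rw [h4]; group
      _ = S * X * (S⁻¹ * P) * P⁻¹ := by rw [(hpc2.inv_right).eq]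
      _ = _ := by group
  calc L.Φ g * S * X * S⁻¹ * (L.Φ g)⁻¹ = L.Φ g * (S * X * S⁻¹) * (L.Φ g)⁻¹ := by group
    _ = L.Φ g * (P * (S * X * S⁻¹) * P⁻¹) * (L.Φ g)⁻¹ := by rw [e2]
    _ = L.Φ g * P * (S * Q * X * (S * Q)⁻¹) * (L.Φ g * P)⁻¹ := by rw [e1]; group
    _ = _ := by group

/-- The short root elements in `H`. -/
noncomputable def yh (u r : Vc F n) : H := by
  classical
  exact if h : ∃ p : SpG F n × SpG F n, p.1 ∈ Gk F n k ∧ p.2 ∈ (Sg c : Subgroup (SpG F n)) ∧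
      act p.1 (eV b) = u ∧ act p.2 (eV c) = r then
    yexp A L (b := b) (c := c) h.choose.1 h.choose.2 else 1

include hb hc in
theorem yh_eq {g s : SpG F n} (hg : g ∈ Gk F n k) (hs : s ∈ (Sg c : Subgroup (SpG F n))) :
    yh A L (b := b) (c := c) (act g (eV b)) (act s (eV c)) = yexp A L (b := b) (c := c) g s := by
  unfold yh
  have h : ∃ p : SpG F n × SpG F n, p.1 ∈ Gk F n k ∧ p.2 ∈ (Sg c : Subgroup (SpG F n)) ∧
      act p.1 (eV b) = act g (eV b) ∧ act p.2 (eV c) = act s (eV c) := ⟨(g, s), hg, hs, rfl, rfl⟩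
  rw [dif_pos h]
  obtain ⟨h1, h2, h3, h4⟩ := h.choose_spec
  exact yexp_wd A L hb hc h1 hg h2 hs h3 h4

theorem yh_zero_left (r : Vc F n) : yh A L (b := b) (c := c) 0 r = 1 := by
  unfold yh
  rw [dif_neg]
  rintro ⟨p, _, _, h, _⟩
  exact act_ne_zero p.1 (eV_ne_zero b) h

theorem yh_zero_right (u : Vc F n) : yh A L (b := b) (c := c) u 0 = 1 := by
  unfold yh
  rw [dif_neg]
  rintro ⟨p, _, _, _, h⟩
  exact act_ne_zero p.2 (eV_ne_zero c) h


/-! ### The equivariance -/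

include hb hc in
theorem yh_L1 {g : SpG F n} (hg : g ∈ Gk F n k) {u r : Vc F n} (hu : u ∈ Wk F n k)
    (hr : r ∈ (Pl c : Submodule F (Vc F n))) :
    L.Φ g * yh A L (b := b) (c := c) u r = yh A L (b := b) (c := c) (act g u) r * L.Φ g := by
  by_cases h0 : u = 0
  · subst h0
    rw [map_zero, yh_zero_left, mul_one, one_mul]
  by_cases h1 : r = 0
  · subst h1
    rw [yh_zero_right, yh_zero_right, mul_one, one_mul]
  obtain ⟨g₀, hg₀, rfl⟩ := exists_Gk_act hb hu h0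
  obtain ⟨s, hs, rfl⟩ := exists_Sg_act hr h1
  rw [yh_eq A L hb hc hg₀ hs, ← act_mul, yh_eq A L hb hc ((Gk F n k).mul_mem hg hg₀) hs]
  unfold yexp
  rw [L.Φ_mul _ hg _ hg₀]
  group

include hb hc in
theorem yh_L2 {s' : SpG F n} (hs' : s' ∈ (Sg c : Subgroup (SpG F n))) {u r : Vc F n}
    (hu : u ∈ Wk F n k) (hr : r ∈ (Pl c : Submodule F (Vc F n))) :
    A.σ c s' * yh A L (b := b) (c := c) u r = yh A L (b := b) (c := c) u (act s' r) * A.σ c s' := by
  by_cases h0 : u = 0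
  · subst h0
    rw [yh_zero_left, yh_zero_left, mul_one, one_mul]
  by_cases h1 : r = 0
  · subst h1
    rw [map_zero, yh_zero_right, mul_one, one_mul]
  obtain ⟨g₀, hg₀, rfl⟩ := exists_Gk_act hb hu h0
  obtain ⟨s, hs, rfl⟩ := exists_Sg_act hr h1
  rw [yh_eq A L hb hc hg₀ hs, ← act_mul, yh_eq A L hb hc hg₀ ((Sg c).mul_mem hs' hs)]
  unfold yexp
  rw [A.σ_mul c _ hs' _ hs]
  have hcom := Phi_comm_sigma A L hc hg₀ hs'
  have e : A.σ c s' * L.Φ g₀ = L.Φ g₀ * A.σ c s' := hcom.symm.eq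
  calc A.σ c s' * (L.Φ g₀ * A.σ c s * Y0h A b c * (A.σ c s)⁻¹ * (L.Φ g₀)⁻¹)
      = (A.σ c s' * L.Φ g₀) * A.σ c s * Y0h A b c * (A.σ c s)⁻¹ * (L.Φ g₀)⁻¹ := by group
    _ = L.Φ g₀ * (A.σ c s' * A.σ c s) * Y0h A b c * (A.σ c s)⁻¹ * (L.Φ g₀)⁻¹ := by rw [e]; group
    _ = L.Φ g₀ * (A.σ c s' * A.σ c s) * Y0h A b c * (A.σ c s' * A.σ c s)⁻¹ *
          (A.σ c s' * (L.Φ g₀)⁻¹) := by group
    _ = L.Φ g₀ * (A.σ c s' * A.σ c s) * Y0h A b c * (A.σ c s' * A.σ c s)⁻¹ *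
          ((L.Φ g₀)⁻¹ * A.σ c s') := by rw [hcom.symm.inv_right.eq]
    _ = _ := by group

include hb hc in
theorem yh_conj {g s : SpG F n} (hg : g ∈ Gk F n k) (hs : s ∈ (Sg c : Subgroup (SpG F n)))
    {u r : Vc F n} (hu : u ∈ Wk F n k) (hr : r ∈ (Pl c : Submodule F (Vc F n))) :
    yh A L (b := b) (c := c) (act g u) (act s r) =
      L.Φ g * A.σ c s * yh A L (b := b) (c := c) u r * (A.σ c s)⁻¹ * (L.Φ g)⁻¹ := by
  have h1 := yh_L2 A L hb hc hs hu hr
  have h2 := yh_L1 A L hb hc hg hu (act_Sg_P hs hr)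
  have h3 : yh A L (b := b) (c := c) u (act s r) =
      A.σ c s * yh A L (b := b) (c := c) u r * (A.σ c s)⁻¹ := by rw [h1]; group
  have h4 : yh A L (b := b) (c := c) (act g u) (act s r) =
      L.Φ g * yh A L (b := b) (c := c) u (act s r) * (L.Φ g)⁻¹ := by rw [h2]; group
  rw [h4, h3]; group

/-! ### The case `u = e_b`: the subgroup `Mg b c ⊔ Sg c` -/

include hb hc in
theorem Y_eb_mem {r : Vc F n} (hr : r ∈ (Pl c : Submodule F (Vc F n))) :
    Y (eV b) r ∈ (Mg b c ⊔ Sg c : Subgroup (SpG F n)) ∧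
      yh A L (b := b) (c := c) (eV b) r = A.Ψc b (Y (eV b) r) := by
  have hs1 := bc_succ hb hc
  have hbne := b_ne_c hb hc
  by_cases h1 : r = 0
  · subst h1
    rw [Y_zero_right, yh_zero_right, pm_one (A.Ψc_mul b c hs1)]
    exact ⟨Subgroup.one_mem _, rfl⟩
  obtain ⟨s, hs, rfl⟩ := exists_Sg_act hr h1
  have hJs : s ∈ (Mg b c ⊔ Sg c : Subgroup (SpG F n)) := Subgroup.mem_sup_right hs
  have hJY : Y (eV b) (eV c) ∈ (Mg b c ⊔ Sg c : Subgroup (SpG F n)) :=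
    Subgroup.mem_sup_left (Y0_mem_Mg b c)
  have hsb : act s (eV b) = eV b := (hs b hbne).1
  have hconj := conj_Y s (eV b) (eV c)
  rw [hsb] at hconj
  refine ⟨by rw [← hconj]; exact Subgroup.mul_mem _ (Subgroup.mul_mem _ hJs hJY) (Subgroup.inv_mem _ hJs), ?_⟩
  have h1b : yh A L (b := b) (c := c) (eV b) (act s (eV c)) =
      yexp A L (b := b) (c := c) 1 s := by
    have := yh_eq A L hb hc (Gk F n k).one_mem hs
    rwa [act_one] at this
  rw [h1b, ← hconj, pm_conj (A.Ψc_mul b c hs1) hJs hJY, A.Ψc_σ b c hs1 _ hs,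
    A.Ψc_μ b c hs1 _ (Y0_mem_Mg b c)]
  unfold yexp
  rw [L.Φ_one]
  simp only [Y0h, one_mul, inv_one, mul_one]

include hb hc in
theorem yh_A2_eb {r r' : Vc F n} (hr : r ∈ (Pl c : Submodule F (Vc F n)))
    (hr' : r' ∈ (Pl c : Submodule F (Vc F n))) :
    yh A L (b := b) (c := c) (eV b) r * yh A L (b := b) (c := c) (eV b) r' =
      yh A L (b := b) (c := c) (eV b) (r + r') * L.Φ (T (eV b) (Bf r r')) := by
  have hs1 := bc_succ hb hc
  have hbne := b_ne_c hb hc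
  obtain ⟨m1, e1⟩ := Y_eb_mem A L hb hc hr
  obtain ⟨m2, e2⟩ := Y_eb_mem A L hb hc hr'
  obtain ⟨m3, e3⟩ := Y_eb_mem A L hb hc ((Pl c).add_mem hr hr')
  have h0 : ∀ {x : Vc F n}, x ∈ (Pl c : Submodule F (Vc F n)) → Bf (eV b) x = 0 := fun hx =>
    Bf_P_P hbne (eV_mem_Pl b) hx
  have hrel := Y_mul_right (h0 hr) (h0 hr')
  rw [e1, e2, e3, ← A.Ψc_mul b c hs1 _ m1 _ m2, hrel,
    A.Ψc_mul b c hs1 _ m3 _ (Subgroup.mem_sup_left (T_mem_Mg_left _)),
    A.Ψc_μ b c hs1 _ (T_mem_Mg_left _), T_eb_eq A L hb hc]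

include hb hc in
theorem yh_conj_g {g : SpG F n} (hg : g ∈ Gk F n k) {u r : Vc F n} (hu : u ∈ Wk F n k)
    (hr : r ∈ (Pl c : Submodule F (Vc F n))) :
    yh A L (b := b) (c := c) (act g u) r = L.Φ g * yh A L (b := b) (c := c) u r * (L.Φ g)⁻¹ := by
  rw [yh_L1 A L hb hc hg hu hr]; group

include hb hc in
theorem yh_conj_s {s : SpG F n} (hs : s ∈ (Sg c : Subgroup (SpG F n))) {u r : Vc F n}
    (hu : u ∈ Wk F n k) (hr : r ∈ (Pl c : Submodule F (Vc F n))) :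
    yh A L (b := b) (c := c) u (act s r) = A.σ c s * yh A L (b := b) (c := c) u r * (A.σ c s)⁻¹ := by
  rw [yh_L2 A L hb hc hs hu hr]; group

include hb hc in
theorem yh_L4 {u r r' : Vc F n} (hu : u ∈ Wk F n k) (hr : r ∈ (Pl c : Submodule F (Vc F n)))
    (hr' : r' ∈ (Pl c : Submodule F (Vc F n))) :
    yh A L (b := b) (c := c) u r * yh A L (b := b) (c := c) u r' =
      yh A L (b := b) (c := c) u (r + r') * L.Φ (T u (Bf r r')) := by
  by_cases h0 : u = 0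
  · subst h0
    rw [yh_zero_left, yh_zero_left, yh_zero_left, T_zero_vec, L.Φ_one, one_mul]
  obtain ⟨g, hg, rfl⟩ := exists_Gk_act hb hu h0
  have hWb : (eV b : Vc F n) ∈ Wk F n k := eV_mem_Wk (by omega)
  have hTb : T (eV b) (Bf r r') ∈ Gk F n k := T_mem_Gk hWb _
  rw [yh_conj_g A L hb hc hg hWb hr, yh_conj_g A L hb hc hg hWb hr',
    yh_conj_g A L hb hc hg hWb ((Pl c).add_mem hr hr'), ← conj_T, L.Φ_conj hg hTb]
  have := yh_A2_eb A L hb hc hr hr'
  calc L.Φ g * yh A L (b := b) (c := c) (eV b) r * (L.Φ g)⁻¹ *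
        (L.Φ g * yh A L (b := b) (c := c) (eV b) r' * (L.Φ g)⁻¹)
      = L.Φ g * (yh A L (b := b) (c := c) (eV b) r * yh A L (b := b) (c := c) (eV b) r') *
          (L.Φ g)⁻¹ := by group
    _ = _ := by rw [this]; group

/-! ### The case `r = e_c`: the subgroup `Mg b c ⊔ Sg b` -/

include hb hc in
theorem Y_pl_mem {u : Vc F n} (hu : u ∈ (Pl b : Submodule F (Vc F n))) :
    Y u (eV c) ∈ (Mg b c ⊔ Sg b : Subgroup (SpG F n)) ∧
      yh A L (b := b) (c := c) u (eV c) = A.Ψb b (Y u (eV c)) := by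
  have hs1 := bc_succ hb hc
  have hbne := b_ne_c hb hc
  by_cases h1 : u = 0
  · subst h1
    rw [Y_zero_left, yh_zero_left, pm_one (A.Ψb_mul b c hs1)]
    exact ⟨Subgroup.one_mem _, rfl⟩
  obtain ⟨s, hs, rfl⟩ := exists_Sg_act hu h1
  have hJs : s ∈ (Mg b c ⊔ Sg b : Subgroup (SpG F n)) := Subgroup.mem_sup_right hs
  have hJY : Y (eV b) (eV c) ∈ (Mg b c ⊔ Sg b : Subgroup (SpG F n)) :=
    Subgroup.mem_sup_left (Y0_mem_Mg b c)
  have hsc : act s (eV c) = eV c := (hs c hbne.symm).1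
  have hconj := conj_Y s (eV b) (eV c)
  rw [hsc] at hconj
  refine ⟨by rw [← hconj]; exact Subgroup.mul_mem _ (Subgroup.mul_mem _ hJs hJY) (Subgroup.inv_mem _ hJs), ?_⟩
  have hsG : s ∈ Gk F n k := Sg_le_Gk (by omega) hs
  have h1b : yh A L (b := b) (c := c) (act s (eV b)) (eV c) =
      yexp A L (b := b) (c := c) s 1 := by
    have := yh_eq A L hb hc hsG (Sg c).one_mem
    rwa [act_one] at this
  rw [h1b, ← hconj, pm_conj (A.Ψb_mul b c hs1) hJs hJY, A.Ψb_σ b c hs1 _ hs,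
    A.Ψb_μ b c hs1 _ (Y0_mem_Mg b c)]
  unfold yexp
  rw [A.σ_one, L.Φ_σ b (by omega) _ hs]
  simp only [Y0h, mul_one, inv_one]

include hb hc in
theorem yh_A1_plane {u u' : Vc F n} (hu : u ∈ (Pl b : Submodule F (Vc F n)))
    (hu' : u' ∈ (Pl b : Submodule F (Vc F n))) :
    yh A L (b := b) (c := c) u (eV c) * yh A L (b := b) (c := c) u' (eV c) =
      yh A L (b := b) (c := c) (u + u') (eV c) * A.σ c (T (eV c) (Bf u u')) := by
  have hs1 := bc_succ hb hc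
  have hbne := b_ne_c hb hc
  obtain ⟨m1, e1⟩ := Y_pl_mem A L hb hc hu
  obtain ⟨m2, e2⟩ := Y_pl_mem A L hb hc hu'
  obtain ⟨m3, e3⟩ := Y_pl_mem A L hb hc ((Pl b).add_mem hu hu')
  have h0 : ∀ {x : Vc F n}, x ∈ (Pl b : Submodule F (Vc F n)) → Bf x (eV c) = 0 := fun hx =>
    Bf_P_P hbne hx (eV_mem_Pl c)
  have hrel := Y_mul_left (h0 hu) (h0 hu')
  rw [e1, e2, e3, ← A.Ψb_mul b c hs1 _ m1 _ m2, hrel,
    A.Ψb_mul b c hs1 _ m3 _ (Subgroup.mem_sup_left (T_mem_Mg_right _)),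
    A.Ψb_μ b c hs1 _ (T_mem_Mg_right _), T_ec_eq A hb hc]

include hb hc in
theorem yh_line (t : F) :
    yh A L (b := b) (c := c) (t • eV b) (eV c) = A.μ b (Y (t • eV b) (eV c)) := by
  have hs1 := bc_succ hb hc
  rw [(Y_pl_mem A L hb hc ((Pl b).smul_mem t (eV_mem_Pl b))).2, A.Ψb_μ b c hs1 _ (Y_mem_Mg t)]

include hb hc in
theorem yh_L6_base (t : F) :
    yh A L (b := b) (c := c) (t • eV b) (eV c) = yh A L (b := b) (c := c) (eV b) (t • eV c) := by
  have hs1 := bc_succ hb hc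
  rw [yh_line A L hb hc, (Y_eb_mem A L hb hc ((Pl c).smul_mem t (eV_mem_Pl c))).2,
    ← Y_smul_left, A.Ψc_μ b c hs1 _ (Y_mem_Mg t)]

include hb hc in
theorem yh_L6 (t : F) {u r : Vc F n} (hu : u ∈ Wk F n k)
    (hr : r ∈ (Pl c : Submodule F (Vc F n))) :
    yh A L (b := b) (c := c) (t • u) r = yh A L (b := b) (c := c) u (t • r) := by
  by_cases h0 : u = 0
  · subst h0
    rw [smul_zero, yh_zero_left, yh_zero_left]
  by_cases h1 : r = 0
  · subst h1
    rw [smul_zero, yh_zero_right, yh_zero_right]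
  obtain ⟨g, hg, rfl⟩ := exists_Gk_act hb hu h0
  obtain ⟨s, hs, rfl⟩ := exists_Sg_act hr h1
  have hWb : (eV b : Vc F n) ∈ Wk F n k := eV_mem_Wk (by omega)
  rw [← map_smul, ← map_smul, yh_conj A L hb hc hg hs ((Wk F n k).smul_mem t hWb) (eV_mem_Pl c),
    yh_conj A L hb hc hg hs hWb ((Pl c).smul_mem t (eV_mem_Pl c)), yh_L6_base A L hb hc]

end Step

/-! ### Reduction of pairs of vectors -/

theorem pair_red {k : ℕ} {b : Fin n} (hb : b.val + 1 = k) (Q : Vc F n → Vc F n → Prop)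
    (hinv : ∀ g ∈ Gk F n k, ∀ u ∈ Wk F n k, ∀ u' ∈ Wk F n k, Q u u' → Q (act g u) (act g u'))
    (h0 : ∀ u' ∈ Wk F n k, Q 0 u')
    (hpl : ∀ u' ∈ (Pl b : Submodule F (Vc F n)), Q (eV b) u')
    (hab : ∀ a : Fin n, a.val + 1 = b.val → Q (eV b) (eV a)) :
    ∀ u ∈ Wk F n k, ∀ u' ∈ Wk F n k, Q u u' := by
  have main : ∀ u' ∈ Wk F n k, Q (eV b) u' := by
    intro u' hu'
    have hu'2 : u' ∈ Wk F n (b.val + 1) := by rw [hb]; exact hu'
    have hx' := sub_prP_mem (k := b.val) (c := b) rfl hu'2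
    set x' := u' - prP b u' with hx'def
    set lam := u' (inl b) with hlam
    set nu := u' (inr b) with hnu
    have hdec : u' = x' + (lam • eV b + nu • fV b) := by
      rw [hx'def]; simp [prP, hlam, hnu]
    have hWb : (eV b : Vc F n) ∈ Wk F n k := eV_mem_Wk (by omega)
    have hWf : (fV b : Vc F n) ∈ Wk F n k := fV_mem_Wk (by omega)
    have hx'W : x' ∈ Wk F n k := Wk_mono (by omega) hx'
    have hx'b : Bf (eV b) x' = 0 := Bf_P_W le_rfl hx' (eV_mem_Pl b)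
    by_cases hnu0 : nu = 0
    · by_cases hx0 : x' = 0
      · have : u' = lam • eV b := by rw [hdec, hx0, hnu0]; simp
        rw [this]
        exact hpl _ ((Pl b).smul_mem _ (eV_mem_Pl b))
      · -- the generic totally isotropic case
        have hb0 : b.val ≠ 0 := by
          intro h
          rw [h] at hx'
          exact hx0 (Wk_zero hx')
        have hale : b.val - 1 < n := by have := b.isLt; omega
        set a : Fin n := ⟨b.val - 1, hale⟩ with hadef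
        have ha : a.val + 1 = b.val := by simp [hadef]; omega
        obtain ⟨g', hg', hge⟩ := exists_Gk_act ha hx' hx0
        have hg'k : g' ∈ Gk F n k := Gk_mono (by omega) hg'
        have hg'b : act g' (eV b) = eV b := (hg' b le_rfl).1
        have hfa : (fV a : Vc F n) ∈ Wk F n k := fV_mem_Wk (by omega)
        have hea : (eV a : Vc F n) ∈ Wk F n k := eV_mem_Wk (by omega)
        have hh' : Y (-(lam • (fV a : Vc F n))) (eV b) ∈ Gk F n k :=
          Y_mem_Gk ((Wk F n k).neg_mem ((Wk F n k).smul_mem _ hfa)) hWb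
        have hB0 : Bf (-(lam • (fV a : Vc F n))) (eV b) = 0 := by
          rw [Bf_neg_left, Bf_smul_left, Bf_comm]
          have : Bf (eV b) (fV a : Vc F n) = 0 := by
            have hne : b ≠ a := by
              intro h
              have := congrArg Fin.val h
              omega
            rw [Bf_e_left, fV_inr_ne hne]
          rw [this]; simp
        have h1 : act (Y (-(lam • (fV a : Vc F n))) (eV b)) (eV b) = eV b := by
          rw [act_Y hB0, Bf_self, hB0]; simp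
        have hBe : Bf (eV b) (eV a : Vc F n) = 0 := Bf_e_e _ _
        have hBf : Bf (-(lam • (fV a : Vc F n))) (eV a : Vc F n) = lam := by
          rw [Bf_neg_left, Bf_smul_left, Bf_f_e_self]; ring
        have h2 : act (Y (-(lam • (fV a : Vc F n))) (eV b)) (eV a) = eV a + lam • eV b := by
          rw [act_Y hB0, hBe, hBf]; simp
        have hQ := hinv _ ((Gk F n k).mul_mem hg'k hh') _ hWb _ hea (hab a ha)
        rw [act_mul, h1, hg'b, act_mul, h2, map_add, hge, map_smul, hg'b] at hQ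
        have : u' = x' + lam • eV b := by rw [hdec, hnu0]; simp
        rw [this]
        exact hQ
    · -- the dual vector is involved
      have hz : nu⁻¹ • x' ∈ Wk F n k := (Wk F n k).smul_mem _ hx'W
      have hh : Y (nu⁻¹ • x') (eV b) * T (eV b) (lam / nu) ∈ Gk F n k :=
        (Gk F n k).mul_mem (Y_mem_Gk hz hWb) (T_mem_Gk hWb _)
      have hB0 : Bf (nu⁻¹ • x') (eV b) = 0 := by
        rw [Bf_smul_left, Bf_comm, hx'b]; simp
      have h1 : act (Y (nu⁻¹ • x') (eV b) * T (eV b) (lam / nu)) (eV b) = eV b := by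
        rw [act_mul, act_T, Bf_self, mul_zero, zero_smul, add_zero, act_Y hB0, Bf_self, hB0]
        simp
      have h2 : act (Y (nu⁻¹ • x') (eV b) * T (eV b) (lam / nu)) (nu • fV b) = u' := by
        have e1 : act (T (eV b) (lam / nu)) (nu • fV b) = nu • fV b + lam • eV b := by
          rw [act_T, Bf_smul_right, Bf_e_f_self]
          congr 2
          field_simp
        have e2 : Bf (eV b) (nu • fV b + lam • eV b : Vc F n) = nu := by
          rw [Bf_add_right, Bf_smul_right, Bf_smul_right, Bf_e_f_self, Bf_self]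
          ring
        have e3 : Bf (nu⁻¹ • x') (nu • fV b + lam • eV b : Vc F n) = 0 :=
          Bf_W_P (c := b) le_rfl ((Wk F n b.val).smul_mem _ hx')
            ((Pl b).add_mem ((Pl b).smul_mem _ (fV_mem_Pl b)) ((Pl b).smul_mem _ (eV_mem_Pl b)))
        rw [act_mul, e1, act_Y hB0, e2, e3, zero_smul, add_zero, smul_smul, mul_inv_cancel₀ hnu0,
          one_smul]
        conv_rhs => rw [hdec]
        abel
      have hQ := hinv _ hh _ hWb _ ((Wk F n k).smul_mem _ hWf)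
        (hpl (nu • fV b) ((Pl b).smul_mem _ (fV_mem_Pl b)))
      rwa [h1, h2] at hQ
  intro u hu u' hu'
  by_cases hu0 : u = 0
  · subst hu0
    exact h0 u' hu'
  obtain ⟨g, hg, rfl⟩ := exists_Gk_act hb hu hu0
  have hWb : (eV b : Vc F n) ∈ Wk F n k := eV_mem_Wk (by omega)
  have hu'' := act_Gk_W ((Gk F n k).inv_mem hg) hu'
  have := hinv g hg _ hWb _ hu'' (main _ hu'')
  rwa [act_act_inv] at this

end Cfsg.Agent.Lib.SpAm
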