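import Cfsg.Agent.Lib.SpAm.Basic

/-!
# The chain of subgroups `Gk k`, the planes, generation
-/

set_option autoImplicit false
set_option linter.unusedSimpArgs false

namespace Cfsg.Agent.Lib.SpAm

open Matrix Sum

variable {F : Type*} [Field F] {n : ℕ}

/-- Vectors supported on the indices `< k`. -/
def Wk (F : Type*) [Field F] (n : ℕ) (k : ℕ) : Submodule F (Vc F n) where
  carrier := {v | ∀ l : Fin n, k ≤ l.val → v (inl l) = 0 ∧ v (inr l) = 0}
  add_mem' := by
    intro a b ha hb l hl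
    simp [(ha l hl).1, (ha l hl).2, (hb l hl).1, (hb l hl).2]
  zero_mem' := by intro l _; simp
  smul_mem' := by
    intro t a ha l hl
    simp [(ha l hl).1, (ha l hl).2]

/-- The hyperbolic plane of index `c`. -/
def Pl (c : Fin n) : Submodule F (Vc F n) where
  carrier := {v | ∀ l : Fin n, l ≠ c → v (inl l) = 0 ∧ v (inr l) = 0}
  add_mem' := by
    intro a b ha hb l hl
    simp [(ha l hl).1, (ha l hl).2, (hb l hl).1, (hb l hl).2]
  zero_mem' := by intro l _; simp
  smul_mem' := by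
    intro t a ha l hl
    simp [(ha l hl).1, (ha l hl).2]

/-- The subgroup fixing `e_l`, `f_l` for `l ≥ k`. -/
def Gk (F : Type*) [Field F] (n : ℕ) (k : ℕ) : Subgroup (SpG F n) where
  carrier := {g | ∀ l : Fin n, k ≤ l.val → act g (eV l) = eV l ∧ act g (fV l) = fV l}
  mul_mem' := by
    intro a b ha hb l hl
    simp [act_mul, (ha l hl).1, (ha l hl).2, (hb l hl).1, (hb l hl).2]
  one_mem' := by intro l _; simp
  inv_mem' := by
    intro a ha l hl
    constructor
    · conv_lhs => rw [← (ha l hl).1]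
      exact act_inv_act _ _
    · conv_lhs => rw [← (ha l hl).2]
      exact act_inv_act _ _

/-- The `SL₂` on the plane of index `c`. -/
def Sg (c : Fin n) : Subgroup (SpG F n) where
  carrier := {g | ∀ l : Fin n, l ≠ c → act g (eV l) = eV l ∧ act g (fV l) = fV l}
  mul_mem' := by
    intro a b ha hb l hl
    simp [act_mul, (ha l hl).1, (ha l hl).2, (hb l hl).1, (hb l hl).2]
  one_mem' := by intro l _; simp
  inv_mem' := by
    intro a ha l hl
    constructor
    · conv_lhs => rw [← (ha l hl).1]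
      exact act_inv_act _ _
    · conv_lhs => rw [← (ha l hl).2]
      exact act_inv_act _ _

/-- The abelian group fixing all `e_l` and `f_l` with `l ≠ b, c`. -/
def Mg (b c : Fin n) : Subgroup (SpG F n) where
  carrier := {g | (∀ l : Fin n, act g (eV l) = eV l) ∧
    ∀ l : Fin n, l ≠ b → l ≠ c → act g (fV l) = fV l}
  mul_mem' := by
    intro x y hx hy
    refine ⟨fun l => by simp [act_mul, hx.1 l, hy.1 l], fun l h1 h2 => ?_⟩
    simp [act_mul, hx.2 l h1 h2, hy.2 l h1 h2]
  one_mem' := ⟨fun l => by simp, fun l _ _ => by simp⟩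
  inv_mem' := by
    intro x hx
    refine ⟨fun l => ?_, fun l h1 h2 => ?_⟩
    · conv_lhs => rw [← hx.1 l]
      exact act_inv_act _ _
    · conv_lhs => rw [← hx.2 l h1 h2]
      exact act_inv_act _ _

theorem mem_Wk {k : ℕ} {v : Vc F n} : v ∈ Wk F n k ↔ ∀ l : Fin n, k ≤ l.val → v (inl l) = 0 ∧ v (inr l) = 0 :=
  Iff.rfl
theorem mem_Pl {c : Fin n} {v : Vc F n} : v ∈ Pl c ↔ ∀ l : Fin n, l ≠ c → v (inl l) = 0 ∧ v (inr l) = 0 :=
  Iff.rfl
theorem mem_Gk {k : ℕ} {g : SpG F n} :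
    g ∈ Gk F n k ↔ ∀ l : Fin n, k ≤ l.val → act g (eV l) = eV l ∧ act g (fV l) = fV l := Iff.rfl
theorem mem_Sg {c : Fin n} {g : SpG F n} :
    g ∈ Sg c ↔ ∀ l : Fin n, l ≠ c → act g (eV l) = eV l ∧ act g (fV l) = fV l := Iff.rfl
theorem mem_Mg {b c : Fin n} {g : SpG F n} :
    g ∈ Mg b c ↔ (∀ l : Fin n, act g (eV l) = eV l) ∧
      ∀ l : Fin n, l ≠ b → l ≠ c → act g (fV l) = fV l := Iff.rfl

theorem eV_mem_Pl (c : Fin n) : (eV c : Vc F n) ∈ Pl c := fun l hl =>
  ⟨eV_inl_ne hl, eV_inr _ _⟩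
theorem fV_mem_Pl (c : Fin n) : (fV c : Vc F n) ∈ Pl c := fun l hl =>
  ⟨fV_inl _ _, fV_inr_ne hl⟩

theorem eV_mem_Wk {k : ℕ} {l : Fin n} (h : l.val < k) : (eV l : Vc F n) ∈ Wk F n k := fun m hm =>
  ⟨eV_inl_ne (by rintro rfl; omega), eV_inr _ _⟩
theorem fV_mem_Wk {k : ℕ} {l : Fin n} (h : l.val < k) : (fV l : Vc F n) ∈ Wk F n k := fun m hm =>
  ⟨fV_inl _ _, fV_inr_ne (by rintro rfl; omega)⟩

theorem Wk_mono {k k' : ℕ} (h : k ≤ k') : Wk F n k ≤ Wk F n k' := fun _ hv l hl =>
  hv l (h.trans hl)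

theorem Pl_le_Wk {k : ℕ} {c : Fin n} (h : c.val < k) : (Pl c : Submodule F (Vc F n)) ≤ Wk F n k :=
  fun _ hv l hl => hv l (by rintro rfl; omega)

theorem Wk_zero {v : Vc F n} (h : v ∈ Wk F n 0) : v = 0 := by
  funext x
  rcases x with l | l
  · exact (h l (Nat.zero_le _)).1
  · exact (h l (Nat.zero_le _)).2

theorem Gk_mono {k k' : ℕ} (h : k ≤ k') : Gk F n k ≤ Gk F n k' := fun _ hv l hl =>
  hv l (h.trans hl)

theorem Sg_le_Gk {k : ℕ} {c : Fin n} (h : c.val < k) : (Sg c : Subgroup (SpG F n)) ≤ Gk F n k :=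
  fun _ hv l hl => hv l (by rintro rfl; omega)

theorem Mg_le_Gk {k : ℕ} {b c : Fin n} (h : b.val < k) (h' : c.val < k) :
    (Mg b c : Subgroup (SpG F n)) ≤ Gk F n k :=
  fun _ hv l hl => ⟨hv.1 l, hv.2 l (by rintro rfl; omega) (by rintro rfl; omega)⟩

/-- Off-support: a vector supported on indices where `g` acts trivially is fixed. -/
theorem act_fix_of_support (g : SpG F n) (v : Vc F n)
    (h : ∀ l : Fin n, act g (eV l) = eV l ∧ act g (fV l) = fV l ∨ (v (inl l) = 0 ∧ v (inr l) = 0)) :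
    act g v = v := by
  conv_lhs => rw [vec_expand v]
  conv_rhs => rw [vec_expand v]
  simp only [map_sum, map_add, map_smul]
  refine Finset.sum_congr rfl fun l _ => ?_
  rcases h l with h1 | h1
  · rw [h1.1, h1.2]
  · rw [h1.1, h1.2]; simp

theorem act_inl (g : SpG F n) (v : Vc F n) (l : Fin n) (h : act g (fV l) = fV l) :
    (act g v) (inl l) = v (inl l) := by
  have h1 : Bf (fV l) (act g v) = Bf (fV l) v := by
    conv_lhs => rw [← h]
    exact Bf_act g _ _
  rw [Bf_f_left, Bf_f_left] at h1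
  exact neg_injective h1

theorem act_inr (g : SpG F n) (v : Vc F n) (l : Fin n) (h : act g (eV l) = eV l) :
    (act g v) (inr l) = v (inr l) := by
  have h1 : Bf (eV l) (act g v) = Bf (eV l) v := by
    conv_lhs => rw [← h]
    exact Bf_act g _ _
  rwa [Bf_e_left, Bf_e_left] at h1

theorem act_Gk_W {k : ℕ} {g : SpG F n} (hg : g ∈ Gk F n k) {u : Vc F n} (hu : u ∈ Wk F n k) :
    act g u ∈ Wk F n k := fun l hl => by
  rw [act_inl g u l (hg l hl).2, act_inr g u l (hg l hl).1]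
  exact hu l hl

theorem act_Gk_P {k : ℕ} {g : SpG F n} (hg : g ∈ Gk F n k) {c : Fin n} (hc : k ≤ c.val)
    {r : Vc F n} (hr : r ∈ Pl c) : act g r = r :=
  act_fix_of_support g r fun l => by
    by_cases h : l = c
    · subst h; exact Or.inl (hg l hc)
    · exact Or.inr (hr l h)

theorem act_Sg_W {k : ℕ} {c : Fin n} {s : SpG F n} (hs : s ∈ Sg c) (hc : k ≤ c.val)
    {u : Vc F n} (hu : u ∈ Wk F n k) : act s u = u :=
  act_fix_of_support s u fun l => by
    by_cases h : l = c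
    · subst h; exact Or.inr (hu l hc)
    · exact Or.inl (hs l h)

theorem act_Sg_P {c : Fin n} {s : SpG F n} (hs : s ∈ Sg c) {r : Vc F n} (hr : r ∈ Pl c) :
    act s r ∈ Pl c := fun l hl => by
  rw [act_inl s r l (hs l hl).2, act_inr s r l (hs l hl).1]
  exact hr l hl

theorem act_Sg_off {c d : Fin n} {s : SpG F n} (hs : s ∈ Sg c) (hd : d ≠ c) {r : Vc F n}
    (hr : r ∈ Pl d) : act s r = r :=
  act_fix_of_support s r fun l => by
    by_cases h : l = d
    · subst h; exact Or.inl (hs l hd)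
    · exact Or.inr (hr l h)

/-- The form vanishes between vectors of disjoint supports. -/
theorem Bf_disjoint {u r : Vc F n}
    (h : ∀ l : Fin n, (u (inl l) = 0 ∧ u (inr l) = 0) ∨ (r (inl l) = 0 ∧ r (inr l) = 0)) :
    Bf u r = 0 := by
  refine Finset.sum_eq_zero fun l _ => ?_
  rcases h l with h1 | h1
  · rw [h1.1, h1.2]; ring
  · rw [h1.1, h1.2]; ring

theorem Bf_W_P {k : ℕ} {c : Fin n} (hc : k ≤ c.val) {u r : Vc F n} (hu : u ∈ Wk F n k)
    (hr : r ∈ Pl c) : Bf u r = 0 :=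
  Bf_disjoint fun l => by
    by_cases h : l = c
    · subst h; exact Or.inl (hu l hc)
    · exact Or.inr (hr l h)

theorem Bf_P_W {k : ℕ} {c : Fin n} (hc : k ≤ c.val) {u r : Vc F n} (hu : u ∈ Wk F n k)
    (hr : r ∈ Pl c) : Bf r u = 0 := Bf_symm0 (Bf_W_P hc hu hr)

theorem Bf_P_P {c d : Fin n} (hd : c ≠ d) {u r : Vc F n} (hu : u ∈ Pl c) (hr : r ∈ Pl d) :
    Bf u r = 0 :=
  Bf_disjoint fun l => by
    by_cases h : l = c
    · subst h; exact Or.inr (hr l hd)
    · exact Or.inl (hu l h)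

/-- Plane form. -/
theorem plane_form {c : Fin n} {r : Vc F n} (hr : r ∈ Pl c) :
    r = r (inl c) • eV c + r (inr c) • fV c := by
  classical
  funext x
  rcases x with l | l
  · by_cases h : l = c
    · subst h; simp
    · simp [eV_inl_ne h, (hr l h).1]
  · by_cases h : l = c
    · subst h; simp
    · simp [fV_inr_ne h, (hr l h).2]

theorem Bf_plane {c : Fin n} {r r' : Vc F n} (hr : r ∈ Pl c) (hr' : r' ∈ Pl c) :
    Bf r r' = r (inl c) * r' (inr c) - r (inr c) * r' (inl c) := by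
  classical
  rw [Bf, Finset.sum_eq_single c]
  · intro b _ hb
    rw [(hr b hb).1, (hr b hb).2]; ring
  · simp

/-- The part of `v` in the plane of `c`. -/
def prP (c : Fin n) (v : Vc F n) : Vc F n := v (inl c) • eV c + v (inr c) • fV c

theorem prP_mem (c : Fin n) (v : Vc F n) : prP c v ∈ Pl c :=
  (Pl c).add_mem ((Pl c).smul_mem _ (eV_mem_Pl c)) ((Pl c).smul_mem _ (fV_mem_Pl c))

theorem sub_prP_mem {k : ℕ} {c : Fin n} (hc : c.val = k) {v : Vc F n} (hv : v ∈ Wk F n (k + 1)) :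
    v - prP c v ∈ Wk F n k := by
  classical
  intro l hl
  by_cases h : l = c
  · subst h; simp [prP]
  · have h2 : k + 1 ≤ l.val := by
      have : l.val ≠ c.val := fun h3 => h (Fin.ext h3)
      omega
    simp [prP, eV_inl_ne h, fV_inr_ne h, (hv l h2).1, (hv l h2).2]

/-- Uniqueness of the decomposition. -/
theorem decomp_unique {k : ℕ} {c : Fin n} (hc : k ≤ c.val) {w w' r r' : Vc F n} (hw : w ∈ Wk F n k)
    (hw' : w' ∈ Wk F n k) (hr : r ∈ Pl c) (hr' : r' ∈ Pl c) (h : w + r = w' + r') :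
    w = w' ∧ r = r' := by
  have h1 : w - w' = r' - r := by
    rw [sub_eq_sub_iff_add_eq_add, h, add_comm]
  have h2 : r' - r = 0 := by
    have hm1 : r' - r ∈ Wk F n k := by
      rw [← h1]; exact (Wk F n k).sub_mem hw hw'
    have hm2 : r' - r ∈ Pl c := (Pl (F := F) c).sub_mem hr' hr
    funext x
    rcases x with l | l
    · by_cases hl : l = c
      · subst hl; exact (hm1 l hc).1
      · exact (hm2 l hl).1
    · by_cases hl : l = c
      · subst hl; exact (hm1 l hc).2
      · exact (hm2 l hl).2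
  rw [h2] at h1
  exact ⟨sub_eq_zero.1 h1, (sub_eq_zero.1 h2).symm⟩

/-! ### Membership of the elements -/

theorem T_mem_Gk {k : ℕ} {u : Vc F n} (hu : u ∈ Wk F n k) (t : F) : T u t ∈ Gk F n k := by
  intro l hl
  rw [act_T, act_T, Bf_e_right, Bf_f_right, (hu l hl).1, (hu l hl).2]
  simp

theorem T_mem_Sg {c : Fin n} {r : Vc F n} (hr : r ∈ Pl c) (t : F) : T r t ∈ Sg c := by
  intro l hl
  rw [act_T, act_T, Bf_e_right, Bf_f_right, (hr l hl).1, (hr l hl).2]
  simp

theorem Y_mem_Gk {k : ℕ} {u r : Vc F n} (hu : u ∈ Wk F n k) (hr : r ∈ Wk F n k) :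
    Y u r ∈ Gk F n k := by
  by_cases h : Bf u r = 0
  · intro l hl
    rw [act_Y h, act_Y h, Bf_e_right, Bf_f_right, Bf_e_right, Bf_f_right, (hu l hl).1, (hu l hl).2,
      (hr l hl).1, (hr l hl).2]
    simp
  · rw [Y_of_ne h]; exact (Gk F n k).one_mem

theorem Y_mem_Sg {c : Fin n} {u r : Vc F n} (hu : u ∈ Pl c) (hr : r ∈ Pl c) :
    Y u r ∈ Sg c := by
  by_cases h : Bf u r = 0
  · intro l hl
    rw [act_Y h, act_Y h, Bf_e_right, Bf_f_right, Bf_e_right, Bf_f_right, (hu l hl).1, (hu l hl).2,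
      (hr l hl).1, (hr l hl).2]
    simp
  · rw [Y_of_ne h]; exact (Sg c).one_mem

theorem Y_mem_Mg {b c : Fin n} (t : F) : Y (t • eV b : Vc F n) (eV c) ∈ Mg b c := by
  have h0 : Bf (t • eV b) (eV c : Vc F n) = 0 := by rw [Bf_smul_left, Bf_e_e, mul_zero]
  refine ⟨fun l => ?_, fun l h1 h2 => ?_⟩
  · rw [act_Y h0, Bf_smul_left, Bf_e_e, Bf_e_e]; simp
  · rw [act_Y h0, Bf_smul_left, Bf_e_left, Bf_e_left, fV_inr_ne (Ne.symm h1),
      fV_inr_ne (Ne.symm h2)]
    simp

theorem T_mem_Mg_left {b c : Fin n} (t : F) : T (eV b) t ∈ Mg b c := by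
  refine ⟨fun l => ?_, fun l h1 _ => ?_⟩
  · rw [act_T, Bf_e_e]; simp
  · rw [act_T, Bf_e_left, fV_inr_ne (Ne.symm h1)]; simp

theorem T_mem_Mg_right {b c : Fin n} (t : F) : T (eV c) t ∈ Mg b c := by
  refine ⟨fun l => ?_, fun l _ h2 => ?_⟩
  · rw [act_T, Bf_e_e]; simp
  · rw [act_T, Bf_e_left, fV_inr_ne (Ne.symm h2)]; simp

/-- Structure of `Mg`. -/
theorem Mg_form {b c : Fin n} (hbc : b ≠ c) {m : SpG F n} (hm : m ∈ Mg b c) :
    ∃ t τ₁ τ₂ : F, m = Y (t • eV b : Vc F n) (eV c) * T (eV b) τ₁ * T (eV c) τ₂ := by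
  classical
  have hfix := hm.1
  have hexp : ∀ l' : Fin n, act m (fV l') =
      fV l' + (act m (fV l')) (inl b) • eV b + (act m (fV l')) (inl c) • eV c := by
    intro l'
    funext x
    rcases x with l | l
    · by_cases h1 : l = b
      · subst h1
        simp [eV_inl_ne hbc]
      · by_cases h2 : l = c
        · subst h2
          simp [eV_inl_ne h1]
        · rw [act_inl m _ l (hm.2 l h1 h2)]
          simp [eV_inl_ne h1, eV_inl_ne h2]
    · rw [act_inr m _ l (hfix l)]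
      simp
  have hsym : (act m (fV b)) (inl c) = (act m (fV c)) (inl b) := by
    have h1 := Bf_act m (fV b) (fV c)
    rw [Bf_f_f, hexp b, hexp c] at h1
    simp only [Bf_add_left, Bf_add_right, Bf_smul_left, Bf_smul_right, Bf_f_f, Bf_e_e, Bf_f_left,
      Bf_e_left, fV_inr_self, fV_inr_ne hbc, fV_inr_ne hbc.symm, eV_inl_self, eV_inl_ne hbc,
      eV_inl_ne hbc.symm, eV_inr, fV_inl] at h1
    simp only [mul_zero, mul_one, neg_zero, add_zero, zero_add, mul_neg] at h1
    linear_combination h1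
  refine ⟨(act m (fV b)) (inl c), (act m (fV b)) (inl b), (act m (fV c)) (inl c), ?_⟩
  set γ := (act m (fV b)) (inl c)
  set α := (act m (fV b)) (inl b)
  set δ := (act m (fV c)) (inl c)
  have h0 : Bf (γ • eV b) (eV c : Vc F n) = 0 := by rw [Bf_smul_left, Bf_e_e, mul_zero]
  apply G_ext_basis
  intro l
  constructor
  · rw [hfix l, act_mul, act_mul, act_T, act_T, act_Y h0]
    simp [Bf_e_e, Bf_smul_left]
  · by_cases h1 : l = b
    · subst h1
      rw [hexp l, act_mul, act_mul, act_T, act_T, act_Y h0]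
      simp only [Bf_add_left, Bf_add_right, Bf_smul_left, Bf_smul_right, Bf_e_e, Bf_e_left,
        fV_inr_self, fV_inr_ne hbc, fV_inr_ne hbc.symm, eV_inr, mul_zero, mul_one, add_zero,
        zero_add, zero_smul]
      module
    · by_cases h2 : l = c
      · subst h2
        rw [hexp l, ← hsym, act_mul, act_mul, act_T, act_T, act_Y h0]
        simp only [Bf_add_left, Bf_add_right, Bf_smul_left, Bf_smul_right, Bf_e_e, Bf_e_left,
          fV_inr_self, fV_inr_ne h1, fV_inr_ne (Ne.symm h1), eV_inr, mul_zero, mul_one, add_zero, zero_add, zero_smul]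
        module
      · rw [hm.2 l h1 h2, act_mul, act_mul, act_T, act_T, act_Y h0]
        simp only [Bf_add_left, Bf_add_right, Bf_smul_left, Bf_smul_right, Bf_e_e, Bf_e_left,
          fV_inr_self, fV_inr_ne h1, fV_inr_ne h2, fV_inr_ne (Ne.symm h1), fV_inr_ne (Ne.symm h2),
          eV_inr, mul_zero, mul_one, add_zero, zero_add, zero_smul]

/-! ### The plane: transitivity -/

/-- The set of generating transvections of `Sg c`. -/
def Tset (c : Fin n) : Set (SpG F n) := {g | ∃ τ : F, g = T (eV c) τ ∨ g = T (fV c) τ}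

theorem Tset_le_Sg (c : Fin n) : Subgroup.closure (Tset (F := F) c) ≤ Sg c := by
  rw [Subgroup.closure_le]
  rintro g ⟨τ, rfl | rfl⟩
  · exact T_mem_Sg (eV_mem_Pl c) τ
  · exact T_mem_Sg (fV_mem_Pl c) τ

theorem exists_trans_plane {c : Fin n} {r : Vc F n} (hr : r ∈ Pl c) (h0 : r ≠ 0) :
    ∃ s ∈ Subgroup.closure (Tset (F := F) c), act s (eV c) = r := by
  have hform := plane_form hr
  set α := r (inl c)
  set β := r (inr c)
  have mem1 : ∀ τ : F, T (eV c : Vc F n) τ ∈ Subgroup.closure (Tset (F := F) c) := fun τ =>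
    Subgroup.subset_closure ⟨τ, Or.inl rfl⟩
  have mem2 : ∀ τ : F, T (fV c : Vc F n) τ ∈ Subgroup.closure (Tset (F := F) c) := fun τ =>
    Subgroup.subset_closure ⟨τ, Or.inr rfl⟩
  by_cases hβ : β = 0
  · have hα : α ≠ 0 := by
      intro hα
      apply h0
      rw [hform, hα, hβ]; simp
    refine ⟨T (fV c) (1 / α) * (T (eV c) (α - 1) * T (fV c) (-1)),
      Subgroup.mul_mem _ (mem2 _) (Subgroup.mul_mem _ (mem1 _) (mem2 _)), ?_⟩
    rw [hform, hβ, act_mul, act_mul, act_T, act_T, act_T]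
    simp only [Bf_add_left, Bf_add_right, Bf_smul_left, Bf_smul_right, Bf_e_e, Bf_f_f, Bf_f_e_self,
      Bf_e_f_self, Bf_self]
    simp only [mul_one, mul_neg, neg_neg, mul_zero, zero_add, add_zero, zero_smul]
    have e1 : (1 / α) * (-1 + -(α - 1)) = -1 := by field_simp; ring
    rw [e1]
    module
  · refine ⟨T (eV c) ((α - 1) / β) * T (fV c) (-β), Subgroup.mul_mem _ (mem1 _) (mem2 _), ?_⟩
    rw [hform, act_mul, act_T, act_T]
    simp only [Bf_add_left, Bf_add_right, Bf_smul_left, Bf_smul_right, Bf_e_e, Bf_f_f, Bf_f_e_self,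
      Bf_e_f_self, Bf_self]
    have e1 : (α - 1) / β * (0 + -β * -1 * 1) = α - 1 := by field_simp; ring
    rw [e1]
    module

/-- A dual vector in the plane. -/
theorem exists_dual {c : Fin n} {r : Vc F n} (hr : r ∈ Pl c) (h0 : r ≠ 0) :
    ∃ r' ∈ (Pl c : Submodule F (Vc F n)), Bf r' r = 1 := by
  have hform := plane_form hr
  by_cases hβ : r (inr c) = 0
  · have hα : r (inl c) ≠ 0 := by
      intro hα
      apply h0
      rw [hform, hα, hβ]; simp
    refine ⟨(-(r (inl c))⁻¹) • fV c, (Pl c).smul_mem _ (fV_mem_Pl c), ?_⟩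
    rw [Bf_smul_left, Bf_f_left]
    field_simp
  · refine ⟨((r (inr c))⁻¹) • eV c, (Pl c).smul_mem _ (eV_mem_Pl c), ?_⟩
    rw [Bf_smul_left, Bf_e_left]
    field_simp

/-- Two vectors with the same pairing with `r` differ by a multiple of `r`. -/
theorem dual_diff {c : Fin n} {r x : Vc F n} (hr : r ∈ Pl c) (h0 : r ≠ 0) (hx : x ∈ Pl c)
    (h : Bf x r = 0) : ∃ κ : F, x = κ • r := by
  have key : ∀ a b a' b' : F, (a ≠ 0 ∨ b ≠ 0) → a' * b - b' * a = 0 →
      ∃ κ : F, a' • (eV c : Vc F n) + b' • fV c = κ • (a • eV c + b • fV c) := by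
    intro a b a' b' hab h1
    by_cases hb : b = 0
    · subst hb
      have ha : a ≠ 0 := by simpa using hab
      have hb' : b' = 0 := by
        have : b' * a = 0 := by linear_combination -h1
        exact (mul_eq_zero.1 this).resolve_right ha
      subst hb'
      refine ⟨a' / a, ?_⟩
      simp [smul_smul, div_mul_cancel₀ _ ha]
    · refine ⟨b' / b, ?_⟩
      rw [smul_add, smul_smul, smul_smul, div_mul_cancel₀ _ hb]
      congr 2
      field_simp
      linear_combination h1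
  have hform := plane_form hr
  have hform' := plane_form hx
  rw [Bf_plane hx hr] at h
  have hab : r (inl c) ≠ 0 ∨ r (inr c) ≠ 0 := by
    by_contra hcon
    push Not at hcon
    apply h0
    rw [hform, hcon.1, hcon.2]; simp
  obtain ⟨κ, hκ⟩ := key _ _ _ _ hab h
  exact ⟨κ, by rw [hform', hκ, ← hform]⟩

/-- `SL₂` acts transitively on hyperbolic pairs. -/
theorem exists_pair {c : Fin n} {r r' : Vc F n} (hr : r ∈ Pl c) (hr' : r' ∈ Pl c) (h : Bf r r' = 1) :
    ∃ s ∈ (Sg c : Subgroup (SpG F n)), act s (eV c) = r ∧ act s (fV c) = r' := by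
  have h0 : r ≠ 0 := by
    rintro rfl
    simp at h
  obtain ⟨s, hs, hse⟩ := exists_trans_plane hr h0
  have hsS : s ∈ (Sg c : Subgroup (SpG F n)) := Tset_le_Sg c hs
  have hsf : act s (fV c) ∈ (Pl c : Submodule F (Vc F n)) := act_Sg_P hsS (fV_mem_Pl c)
  have h1 : Bf r (act s (fV c)) = 1 := by
    rw [← hse, Bf_act, Bf_e_f_self]
  have h2 : Bf (r' - act s (fV c)) r = 0 := by
    rw [Bf_sub_left, Bf_comm r' r, Bf_comm _ r, h, h1]; ring
  obtain ⟨κ, hκ⟩ := dual_diff hr h0 ((Pl (F := F) c).sub_mem hr' hsf) h2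
  refine ⟨T r κ * s, (Sg c).mul_mem (T_mem_Sg hr κ) hsS, ?_, ?_⟩
  · rw [act_mul, hse, act_T, Bf_self]; simp
  · rw [act_mul, act_T, h1, mul_one, ← hκ]
    simp

/-- The diagonal element. -/
theorem exists_diag (c : Fin n) {α : F} (hα : α ≠ 0) :
    ∃ h ∈ (Sg c : Subgroup (SpG F n)), act h (eV c) = α • eV c ∧ act h (fV c) = α⁻¹ • fV c := by
  apply exists_pair ((Pl c).smul_mem _ (eV_mem_Pl c)) ((Pl c).smul_mem _ (fV_mem_Pl c))
  rw [Bf_smul_left, Bf_smul_right, Bf_e_f_self]
  field_simp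

/-- An element of `Sg c` fixing `e_c` is a transvection. -/
theorem Sg_stab {c : Fin n} {s : SpG F n} (hs : s ∈ Sg c) (h : act s (eV c) = eV c) :
    ∃ τ : F, s = T (eV c) τ := by
  have hsf : act s (fV c) ∈ (Pl c : Submodule F (Vc F n)) := act_Sg_P hs (fV_mem_Pl c)
  have h1 : Bf (eV c) (act s (fV c)) = 1 := by
    conv_lhs => rw [← h]
    rw [Bf_act, Bf_e_f_self]
  have h2 : (act s (fV c)) (inr c) = 1 := by rwa [Bf_e_left] at h1
  refine ⟨(act s (fV c)) (inl c), ?_⟩
  apply G_ext_basis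
  intro l
  by_cases hl : l = c
  · subst hl
    constructor
    · rw [h, act_T, Bf_e_e]; simp
    · rw [act_T, Bf_e_f_self, mul_one]
      conv_lhs => rw [plane_form hsf, h2]
      rw [one_smul, add_comm]
  · rw [(hs l hl).1, (hs l hl).2, act_T, act_T, Bf_e_e, Bf_e_left, fV_inr_ne (Ne.symm hl)]
    simp

theorem Sg_le_closure (c : Fin n) : (Sg c : Subgroup (SpG F n)) ≤ Subgroup.closure (Tset c) := by
  intro s hs
  have hne : act s (eV c) ≠ 0 := fun h => eV_ne_zero c (act_injective s (by simpa using h))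
  obtain ⟨s', hs', he⟩ := exists_trans_plane (act_Sg_P hs (eV_mem_Pl c)) hne
  have h1 : s'⁻¹ * s ∈ (Sg c : Subgroup (SpG F n)) :=
    (Sg c).mul_mem ((Sg c).inv_mem (Tset_le_Sg c hs')) hs
  have h2 : act (s'⁻¹ * s) (eV c) = eV c := by
    rw [act_mul, ← he, act_inv_act]
  obtain ⟨τ, hτ⟩ := Sg_stab h1 h2
  have : s = s' * T (eV c) τ := by rw [← hτ]; group
  rw [this]
  exact Subgroup.mul_mem _ hs' (Subgroup.subset_closure ⟨τ, Or.inl rfl⟩)

/-- Normal form of the stabilizer of `e_c` in `Gk (k + 1)`. -/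
theorem normal_form {k : ℕ} {c : Fin n} (hc : c.val = k) {p : SpG F n} (hp : p ∈ Gk F n (k + 1))
    (he : act p (eV c) = eV c) :
    ∃ w ∈ Wk F n k, ∃ t : F, ∃ g ∈ Gk F n k, p = Y w (eV c) * T (eV c) t * g := by
  have hcv : c.val < k + 1 := by omega
  have hx : act p (fV c) ∈ Wk F n (k + 1) := act_Gk_W hp (fV_mem_Wk hcv)
  obtain ⟨x, hxdef⟩ : ∃ x, x = act p (fV c) := ⟨_, rfl⟩
  rw [← hxdef] at hx
  have h1 : Bf (eV c) x = 1 := by
    have := Bf_act p (eV c) (fV c)
    rwa [he, ← hxdef, Bf_e_f_self] at this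
  have h2 : x (inr c) = 1 := by rwa [Bf_e_left] at h1
  have hw := sub_prP_mem hc hx
  obtain ⟨w, hwdef⟩ : ∃ w, w = x - prP c x := ⟨_, rfl⟩
  rw [← hwdef] at hw
  have hxw : x = w + x (inl c) • eV c + fV c := by
    rw [hwdef, prP, h2, one_smul]
    abel
  obtain ⟨t, htdef⟩ : ∃ t, t = x (inl c) := ⟨_, rfl⟩
  rw [← htdef] at hxw
  have h3 : Bf w (eV c : Vc F n) = 0 := Bf_W_P (by omega) hw (eV_mem_Pl c)
  obtain ⟨q, hqdef⟩ : ∃ q, q = Y w (eV c) * T (eV c) t := ⟨_, rfl⟩
  have hq : q ∈ Gk F n (k + 1) := by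
    rw [hqdef]
    exact (Gk F n (k + 1)).mul_mem (Y_mem_Gk (Wk_mono (Nat.le_succ k) hw) (eV_mem_Wk hcv))
      (T_mem_Gk (eV_mem_Wk hcv) _)
  have hg : q⁻¹ * p ∈ Gk F n (k + 1) := (Gk F n (k + 1)).mul_mem ((Gk F n (k + 1)).inv_mem hq) hp
  have hqe : act q (eV c) = eV c := by
    rw [hqdef, act_mul, act_T]
    simp only [Bf_e_e, mul_zero, zero_smul, add_zero]
    rw [act_Y h3, Bf_e_e, h3]
    simp
  have hqf : act q (fV c) = x := by
    rw [hqdef, act_mul, act_T, Bf_e_f_self, act_Y h3]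
    simp only [Bf_add_right, Bf_smul_right, Bf_e_e, Bf_e_f_self, h3,
      Bf_W_P (le_of_eq hc.symm) hw (fV_mem_Pl c)]
    rw [hxw]
    simp only [mul_one, mul_zero, add_zero, zero_smul, one_smul]
    abel
  have hqe' : act q⁻¹ (eV c) = eV c := by
    have := act_inv_act q (eV c)
    rwa [hqe] at this
  have hqf' : act q⁻¹ x = fV c := by
    have := act_inv_act q (fV c)
    rwa [hqf] at this
  refine ⟨w, hw, t, q⁻¹ * p, ?_, ?_⟩
  · intro l hl
    by_cases hlc : l.val = k
    · have : l = c := Fin.ext (hlc.trans hc.symm)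
      subst this
      constructor
      · rw [act_mul, he, hqe']
      · rw [act_mul, ← hxdef, hqf']
    · exact hg l (by omega)
  · rw [← hqdef]; group

/-! ### Generation -/

/-- The generators of `Gk k`. -/
def Gens (F : Type*) [Field F] (n : ℕ) (k : ℕ) : Set (SpG F n) :=
  {g | (∃ j : Fin n, j.val < k ∧ g ∈ Sg j) ∨
    (∃ i i' : Fin n, i'.val = i.val + 1 ∧ i'.val < k ∧ g ∈ Mg i i')}

theorem Gens_mono {k k' : ℕ} (h : k ≤ k') : Gens F n k ⊆ Gens F n k' := by
  rintro g (⟨j, hj, hg⟩ | ⟨i, i', h1, h2, hg⟩)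
  · exact Or.inl ⟨j, by omega, hg⟩
  · exact Or.inr ⟨i, i', h1, by omega, hg⟩

theorem Gens_closure_le (k : ℕ) : Subgroup.closure (Gens F n k) ≤ Gk F n k := by
  rw [Subgroup.closure_le]
  rintro g (⟨j, hj, hg⟩ | ⟨i, i', h1, h2, hg⟩)
  · exact Sg_le_Gk hj hg
  · exact Mg_le_Gk (by omega) h2 hg

theorem level_main (k : ℕ) :
    Gk F n k ≤ Subgroup.closure (Gens F n k) ∧
    ∀ b : Fin n, b.val + 1 = k → ∀ u ∈ Wk F n k, u ≠ 0 →
      ∃ g ∈ Subgroup.closure (Gens F n k), act g (eV b) = u := by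
  induction k with
  | zero =>
    refine ⟨fun g hg => ?_, fun b hb => by omega⟩
    have : g = 1 := by
      apply G_ext_basis
      intro l
      simpa using hg l (Nat.zero_le _)
    rw [this]
    exact Subgroup.one_mem _
  | succ k ih =>
    by_cases hk : k < n
    · obtain ⟨c, hc⟩ : ∃ c : Fin n, c.val = k := ⟨⟨k, hk⟩, rfl⟩
      have hmono : Subgroup.closure (Gens F n k) ≤ Subgroup.closure (Gens F n (k + 1)) :=
        Subgroup.closure_mono (Gens_mono (Nat.le_succ k))
      have hSc : ∀ s ∈ (Sg c : Subgroup (SpG F n)), s ∈ Subgroup.closure (Gens F n (k + 1)) :=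
        fun s hs => Subgroup.subset_closure (Or.inl ⟨c, by omega, hs⟩)
      -- the short root elements lie in the closure
      have hY : ∀ w ∈ Wk F n k, ∀ r' ∈ (Pl c : Submodule F (Vc F n)),
          Y w r' ∈ Subgroup.closure (Gens F n (k + 1)) := by
        intro w hw r' hr'
        by_cases hw0 : w = 0
        · subst hw0; simp [Subgroup.one_mem]
        by_cases hr0 : r' = 0
        · subst hr0; simp [Subgroup.one_mem]
        have hk0 : k ≠ 0 := by
          rintro rfl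
          exact hw0 (Wk_zero hw)
        obtain ⟨b, hb⟩ : ∃ b : Fin n, b.val + 1 = k := ⟨⟨k - 1, by omega⟩, by simp; omega⟩
        obtain ⟨g, hg, hge⟩ := ih.2 b hb w hw hw0
        obtain ⟨s, hs, hse⟩ := exists_trans_plane hr' hr0
        have hsS := Tset_le_Sg c hs
        have hgG := Gens_closure_le k hg
        have hbc : b ≠ c := by
          intro h; subst h; omega
        have e1 : Y w r' = (g * s) * Y (eV b) (eV c) * (g * s)⁻¹ := by
          rw [conj_Y, act_mul, act_mul, act_Sg_off hsS hbc (eV_mem_Pl b), hge, hse,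
            act_Gk_P hgG (le_of_eq hc.symm) hr']
        rw [e1]
        have hm : Y (eV b) (eV c : Vc F n) ∈ Subgroup.closure (Gens F n (k + 1)) := by
          apply Subgroup.subset_closure
          refine Or.inr ⟨b, c, by omega, by omega, ?_⟩
          have := Y_mem_Mg (F := F) (b := b) (c := c) 1
          simpa using this
        have hgs : g * s ∈ Subgroup.closure (Gens F n (k + 1)) :=
          Subgroup.mul_mem _ (hmono hg) (hSc s hsS)
        exact Subgroup.mul_mem _ (Subgroup.mul_mem _ hgs hm) (Subgroup.inv_mem _ hgs)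
      have hsec : ∀ u ∈ Wk F n (k + 1), u ≠ 0 →
          ∃ g ∈ Subgroup.closure (Gens F n (k + 1)), act g (eV c) = u := by
        intro u hu hu0
        have hw := sub_prP_mem hc hu
        obtain ⟨w, hwdef⟩ : ∃ w, w = u - prP c u := ⟨_, rfl⟩
        rw [← hwdef] at hw
        have hr := prP_mem c u
        obtain ⟨r, hrdef⟩ : ∃ r, r = prP c u := ⟨_, rfl⟩
        rw [← hrdef] at hr
        have huwr : u = w + r := by rw [hwdef, hrdef]; abel
        have hckle : k ≤ c.val := le_of_eq hc.symm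
        by_cases hr0 : r = 0
        · have hw0 : w ≠ 0 := by
            intro h
            apply hu0
            rw [huwr, h, hr0, add_zero]
          have hk0 : k ≠ 0 := by
            rintro rfl
            exact hw0 (Wk_zero hw)
          obtain ⟨b, hb⟩ : ∃ b : Fin n, b.val + 1 = k := ⟨⟨k - 1, by omega⟩, by simp; omega⟩
          obtain ⟨g, hg, hge⟩ := ih.2 b hb w hw hw0
          have hgG := Gens_closure_le k hg
          have hf₀ : act g (fV b) ∈ Wk F n k := act_Gk_W hgG (fV_mem_Wk (by omega))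
          have hB : Bf (act g (fV b)) w = -1 := by
            rw [← hge, Bf_act, Bf_f_e_self]
          refine ⟨Y (act g (fV b)) (eV c) * Y w (-fV c),
            Subgroup.mul_mem _ (hY _ hf₀ _ (eV_mem_Pl c))
              (hY _ hw _ ((Pl (F := F) c).neg_mem (fV_mem_Pl c))), ?_⟩
          have h1 : Bf w (-fV c : Vc F n) = 0 := Bf_W_P hckle hw ((Pl (F := F) c).neg_mem (fV_mem_Pl c))
          have h2 : Bf (act g (fV b)) (eV c : Vc F n) = 0 := Bf_W_P hckle hf₀ (eV_mem_Pl c)
          have h3 : Bf w (eV c : Vc F n) = 0 := Bf_W_P hckle hw (eV_mem_Pl c)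
          have h4 : Bf (eV c : Vc F n) w = 0 := Bf_symm0 h3
          rw [act_mul, act_Y h1, act_Y h2]
          simp only [Bf_neg_left, Bf_f_e_self, h3, Bf_add_right, Bf_smul_right, Bf_e_e, h2, h4, hB]
          rw [huwr, hr0]
          simp
        · obtain ⟨s, hs, hse⟩ := exists_trans_plane hr hr0
          have hsS := Tset_le_Sg c hs
          obtain ⟨r', hr', hB⟩ := exists_dual hr hr0
          refine ⟨Y w r' * s, Subgroup.mul_mem _ (hY _ hw _ hr') (hSc s hsS), ?_⟩
          have h1 : Bf w r' = 0 := Bf_W_P hckle hw hr'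
          rw [act_mul, hse, act_Y h1, hB, Bf_W_P hckle hw hr, huwr]
          simp [add_comm]
      refine ⟨fun p hp => ?_, fun b hb u hu hu0 => ?_⟩
      · have hne : act p (eV c) ≠ 0 := fun h =>
          eV_ne_zero c (act_injective p (by simpa using h))
        have hv : act p (eV c) ∈ Wk F n (k + 1) := act_Gk_W hp (eV_mem_Wk (by omega))
        obtain ⟨g, hg, hge⟩ := hsec _ hv hne
        have hgG := Gens_closure_le (k + 1) hg
        have h1 : g⁻¹ * p ∈ Gk F n (k + 1) :=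
          (Gk F n (k + 1)).mul_mem ((Gk F n (k + 1)).inv_mem hgG) hp
        have h2 : act (g⁻¹ * p) (eV c) = eV c := by
          rw [act_mul, ← hge, act_inv_act]
        obtain ⟨w, hw, t, g', hg', e⟩ := normal_form hc h1 h2
        have : p = g * (Y w (eV c) * T (eV c) t * g') := by rw [← e]; group
        rw [this]
        exact Subgroup.mul_mem _ hg (Subgroup.mul_mem _ (Subgroup.mul_mem _
          (hY w hw _ (eV_mem_Pl c)) (hSc _ (T_mem_Sg (eV_mem_Pl c) t))) (hmono (ih.1 hg')))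
      · have : b = c := Fin.ext (by omega)
        subst this
        exact hsec u hu hu0
    · refine ⟨fun p hp => ?_, fun b hb => ?_⟩
      · have hp' : p ∈ Gk F n k := fun l hl => by
          have := l.isLt
          omega
        exact Subgroup.closure_mono (Gens_mono (Nat.le_succ k)) (ih.1 hp')
      · have := b.isLt
        omega

theorem Gk_eq_closure (k : ℕ) : Gk F n k = Subgroup.closure (Gens F n k) :=
  le_antisymm (level_main k).1 (Gens_closure_le k)

theorem exists_Gk_act {k : ℕ} {b : Fin n} (hb : b.val + 1 = k) {u : Vc F n} (hu : u ∈ Wk F n k)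
    (hu0 : u ≠ 0) : ∃ g ∈ Gk F n k, act g (eV b) = u := by
  obtain ⟨g, hg, h⟩ := (level_main k).2 b hb u hu hu0
  exact ⟨g, Gens_closure_le k hg, h⟩

end Cfsg.Agent.Lib.SpAm
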