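import Cfsg.Agent.Lib.SpAm.Pair

/-!
# The induction: the amalgam has a completion
-/

set_option autoImplicit false
set_option linter.unusedSimpArgs false
set_option linter.unusedVariables false
set_option linter.unusedSectionVars false

namespace Cfsg.Agent.Lib.SpAm

open Matrix Sum

variable {F : Type*} [Field F] {n : ℕ} {H : Type*} [Group H]

namespace Kit

variable {k : ℕ} {c : Fin n} {Γ : Type*} [Group Γ] (K : Kit F n k c Γ)

/-- The generators of the stabilizer. -/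
def PG : Set Γ := {γ | (∃ g ∈ Gk F n k, γ = K.ph g) ∨ (∃ t : F, γ = K.sg (T (eV c) t)) ∨
  (∃ w ∈ Wk F n k, γ = K.y w (eV c))}

/-- The generators of the whole group. -/
def AG : Set Γ := {γ | (∃ g ∈ Gk F n k, γ = K.ph g) ∨
  (∃ s ∈ (Sg c : Subgroup (SpG F n)), γ = K.sg s) ∨ (∃ u ∈ Wk F n k, γ = K.y u (eV c))}

theorem normal_left {a x : Γ} (hck : k = c.val) (ha : a ∈ K.PG)
    (hx : ∃ w ∈ Wk F n k, ∃ t : F, ∃ g ∈ Gk F n k, x = K.y w (eV c) * K.sg (T (eV c) t) * K.ph g) :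
    ∃ w ∈ Wk F n k, ∃ t : F, ∃ g ∈ Gk F n k,
      a * x = K.y w (eV c) * K.sg (T (eV c) t) * K.ph g := by
  have he := eV_mem_Pl (F := F) c
  have hTs : ∀ τ : F, T (eV c) τ ∈ (Sg c : Subgroup (SpG F n)) := fun τ => T_mem_Sg he τ
  have hadd : ∀ τ t : F, K.sg (T (eV c) τ) * K.sg (T (eV c) t) = K.sg (T (eV c) (τ + t)) := by
    intro τ t
    rw [← K.sg_mul _ _ (hTs τ) (hTs t), T_add_param]
  obtain ⟨w, hw, t, g, hg, rfl⟩ := hx
  rcases ha with ⟨g', hg', rfl⟩ | ⟨t', rfl⟩ | ⟨x', hx', rfl⟩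
  · refine ⟨act g' w, act_Gk_W hg' hw, t, g' * g, (Gk F n k).mul_mem hg' hg, ?_⟩
    rw [K.ph_mul _ _ hg' hg]
    calc K.ph g' * (K.y w (eV c) * K.sg (T (eV c) t) * K.ph g)
        = (K.ph g' * K.y w (eV c)) * K.sg (T (eV c) t) * K.ph g := by group
      _ = K.y (act g' w) (eV c) * (K.ph g' * K.sg (T (eV c) t)) * K.ph g := by
          rw [K.L1 g' hg' w hw _ he]; group
      _ = _ := by rw [K.comm g' hg' _ (hTs t)]; group
  · refine ⟨w, hw, t' + t, g, hg, ?_⟩
    rw [← hadd]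
    have h2 := K.L2 _ (hTs t') w hw _ he
    rw [act_T, Bf_self, mul_zero, zero_smul, add_zero] at h2
    calc K.sg (T (eV c) t') * (K.y w (eV c) * K.sg (T (eV c) t) * K.ph g)
        = (K.sg (T (eV c) t') * K.y w (eV c)) * K.sg (T (eV c) t) * K.ph g := by group
      _ = _ := by rw [h2]; group
  · refine ⟨x' + w, (Wk F n k).add_mem hx' hw, Bf x' w + t, g, hg, ?_⟩
    rw [← hadd]
    have h3 := K.L3 x' hx' w hw _ he
    calc K.y x' (eV c) * (K.y w (eV c) * K.sg (T (eV c) t) * K.ph g)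
        = (K.y x' (eV c) * K.y w (eV c)) * K.sg (T (eV c) t) * K.ph g := by group
      _ = _ := by rw [h3]; group

theorem PG_inv {a : Γ} (hck : k = c.val) (ha : a ∈ K.PG) : a⁻¹ ∈ K.PG := by
  have he := eV_mem_Pl (F := F) c
  rcases ha with ⟨g', hg', rfl⟩ | ⟨t', rfl⟩ | ⟨x', hx', rfl⟩
  · exact Or.inl ⟨g'⁻¹, (Gk F n k).inv_mem hg', (K.ph_inv hg').symm⟩
  · refine Or.inr (Or.inl ⟨-t', ?_⟩)
    rw [T_neg_param, K.sg_inv (T_mem_Sg he t')]
  · exact Or.inr (Or.inr ⟨-x', (Wk F n k).neg_mem hx', (K.y_neg hx' he hck.le).symm⟩)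

/-- The normal form of the elements of the stabilizer. -/
theorem P_normal {x : Γ} (hck : k = c.val) (hx : x ∈ Subgroup.closure K.PG) :
    ∃ w ∈ Wk F n k, ∃ t : F, ∃ g ∈ Gk F n k, x = K.y w (eV c) * K.sg (T (eV c) t) * K.ph g := by
  induction hx using Subgroup.closure_induction_left with
  | one =>
    refine ⟨0, (Wk F n k).zero_mem, 0, 1, (Gk F n k).one_mem, ?_⟩
    rw [K.L70, T_zero_param, K.sg_one, K.ph_one]
    simp
  | mul_left a ha y _ hy => exact K.normal_left hck ha hy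
  | inv_mul_cancel a ha y _ hy => exact K.normal_left hck (K.PG_inv hck ha) hy

/-- The elements of the big group with trivial image lie in the stabilizer. -/
theorem A_to_P (hck : k = c.val) (π : Γ →* SpG F n) (hπph : ∀ g ∈ Gk F n k, π (K.ph g) = g)
    (hπsg : ∀ s ∈ (Sg c : Subgroup (SpG F n)), π (K.sg s) = s)
    (hπy : ∀ x ∈ Wk F n k, π (K.y x (eV c)) = Y x (eV c)) {x : Γ}
    (hx : x ∈ Subgroup.closure K.AG) (hx1 : π x = 1) : x ∈ Subgroup.closure K.PG :=
  K.coset_main (Subgroup.closure K.PG)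
    (fun g hg => Subgroup.subset_closure (Or.inl ⟨g, hg, rfl⟩))
    (fun t => Subgroup.subset_closure (Or.inr (Or.inl ⟨t, rfl⟩)))
    (fun w hw => Subgroup.subset_closure (Or.inr (Or.inr ⟨w, hw, rfl⟩)))
    hck π hπph hπsg hπy hx hx1

end Kit

section Step

variable (A : Amal F n H) {k : ℕ} (L : Lev A k) {b c : Fin n}
variable (hb : b.val + 1 = k) (hc : c.val = k) (hF : ∃ x : F, x ≠ 0 ∧ x ≠ 1)

/-- The group generated in the product. -/
def AA : Subgroup (SpG F n × H) := Subgroup.closure (pairKit A L hb hc hF).AG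

include hb hc hF in
/-- The graph property. -/
theorem graph_one {x : SpG F n × H} (hx : x ∈ AA A L hb hc hF) (h1 : x.1 = 1) : x.2 = 1 := by
  set K := pairKit A L hb hc hF with hK
  have hck : k = c.val := hc.symm
  have hP : x ∈ Subgroup.closure K.PG := K.A_to_P hck (MonoidHom.fst _ _)
    (fun g _ => rfl) (fun s _ => rfl) (fun u _ => rfl) hx h1
  obtain ⟨w, hw, t, g, hg, rfl⟩ := K.P_normal hck hP
  have e1 : Y w (eV c) * T (eV c) t * g = 1 := h1
  have hf : act (Y w (eV c) * T (eV c) t * g) (fV c) = fV c := by rw [e1, act_one]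
  have hw0 : Bf w (eV c) = 0 := Bf_W_P hc.ge hw (eV_mem_Pl c)
  have hgf : act g (fV c) = fV c := (hg c hc.ge).2
  have hT : act (T (eV c) t) (fV c) = fV c + t • eV c := by
    rw [act_T, Bf_e_f_self, mul_one]
  have h2 : Bf (eV c) (fV c + t • eV c : Vc F n) = 1 := by
    rw [Bf_add_right, Bf_smul_right, Bf_self, Bf_e_f_self]; ring
  have h3 : Bf w (fV c + t • eV c : Vc F n) = 0 :=
    Bf_W_P hc.ge hw ((Pl c).add_mem (fV_mem_Pl c) ((Pl c).smul_mem t (eV_mem_Pl c)))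
  rw [act_mul, hgf, act_mul, hT, act_Y hw0, h2, h3, one_smul, zero_smul, add_zero] at hf
  have h4 : w + t • eV c = 0 + 0 := by
    have : fV c + t • eV c + w = fV c + (w + t • eV c) := by abel
    rw [this] at hf
    simpa using hf
  obtain ⟨rfl, h5⟩ := decomp_unique hc.ge hw (Wk F n k).zero_mem
    ((Pl c).smul_mem t (eV_mem_Pl c)) (Pl c).zero_mem h4
  have ht : t = 0 := by
    by_contra ht
    exact (smul_ne_zero ht (eV_ne_zero c)) h5
  subst ht
  have hg1 : g = 1 := by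
    have := e1
    rwa [Y_zero_left, T_zero_param, one_mul, one_mul] at this
  subst hg1
  show (K.y 0 (eV c) * K.sg (T (eV c) 0) * K.ph 1).2 = 1
  rw [K.L70, T_zero_param, K.sg_one, K.ph_one]
  simp

include hb hc hF in
theorem graph_eq {x x' : SpG F n × H} (hx : x ∈ AA A L hb hc hF) (hx' : x' ∈ AA A L hb hc hF)
    (h : x.1 = x'.1) : x.2 = x'.2 := by
  have h1 := graph_one A L hb hc hF ((AA A L hb hc hF).mul_mem ((AA A L hb hc hF).inv_mem hx) hx')
    (by simp [h])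
  simp only [Prod.snd_mul, Prod.snd_inv] at h1
  exact (inv_mul_eq_one.1 h1)

theorem ph_mem {g : SpG F n} (hg : g ∈ Gk F n k) :
    ((g, L.Φ g) : SpG F n × H) ∈ AA A L hb hc hF :=
  Subgroup.subset_closure (Or.inl ⟨g, hg, rfl⟩)

theorem sg_mem {s : SpG F n} (hs : s ∈ (Sg c : Subgroup (SpG F n))) :
    ((s, A.σ c s) : SpG F n × H) ∈ AA A L hb hc hF :=
  Subgroup.subset_closure (Or.inr (Or.inl ⟨s, hs, rfl⟩))

theorem y_mem {u : Vc F n} (hu : u ∈ Wk F n k) :
    ((Y u (eV c), yh A L (b := b) (c := c) u (eV c)) : SpG F n × H) ∈ AA A L hb hc hF :=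
  Subgroup.subset_closure (Or.inr (Or.inr ⟨u, hu, rfl⟩))

include hb hc in
/-- An explicit element of the big group over an element of `Mg b c`. -/
theorem Mg_lift {m : SpG F n} (hm : m ∈ (Mg b c : Subgroup (SpG F n))) :
    ∃ x ∈ AA A L hb hc hF, x.1 = m ∧ x.2 = A.μ b m := by
  have hs1 := bc_succ hb hc
  have hbne := b_ne_c hb hc
  obtain ⟨t, τ₁, τ₂, rfl⟩ := Mg_form hbne hm
  have hWb : (t • eV b : Vc F n) ∈ Wk F n k := (Wk F n k).smul_mem t (eV_mem_Wk (by omega))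
  have hT1 : T (eV b) τ₁ ∈ Gk F n k := T_mem_Gk (eV_mem_Wk (by omega)) _
  have hT2 : T (eV c) τ₂ ∈ (Sg c : Subgroup (SpG F n)) := T_mem_Sg (eV_mem_Pl c) _
  refine ⟨_, (AA A L hb hc hF).mul_mem ((AA A L hb hc hF).mul_mem
    (y_mem A L hb hc hF hWb) (ph_mem A L hb hc hF hT1)) (sg_mem A L hb hc hF hT2), rfl, ?_⟩
  show yh A L (b := b) (c := c) (t • eV b) (eV c) * L.Φ (T (eV b) τ₁) * A.σ c (T (eV c) τ₂) = _
  rw [yh_line A L hb hc, T_eb_eq A L hb hc, T_ec_eq A hb hc,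
    A.μ_mul b c hs1 _ ((Mg b c).mul_mem (Y_mem_Mg t) (T_mem_Mg_left τ₁)) _ (T_mem_Mg_right τ₂),
    A.μ_mul b c hs1 _ (Y_mem_Mg t) _ (T_mem_Mg_left τ₁)]

include hb hc in
/-- The group maps onto `Gk (k+1)`. -/
theorem AA_surj {g : SpG F n} (hg : g ∈ Gk F n (k + 1)) : ∃ x ∈ AA A L hb hc hF, x.1 = g := by
  rw [Gk_eq_closure] at hg
  have hle : Subgroup.closure (Gens F n (k + 1)) ≤ (AA A L hb hc hF).map (MonoidHom.fst _ _) := by
    rw [Subgroup.closure_le]
    rintro g (⟨j, hj, hg⟩ | ⟨i, i', h1, h2, hg⟩)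
    · by_cases hjk : j.val < k
      · exact ⟨_, ph_mem A L hb hc hF (Sg_le_Gk hjk hg), rfl⟩
      · have : j = c := Fin.ext (by omega)
        subst this
        exact ⟨_, sg_mem A L hb hc hF hg, rfl⟩
    · by_cases hjk : i'.val < k
      · exact ⟨_, ph_mem A L hb hc hF (Mg_le_Gk (by omega) hjk hg), rfl⟩
      · have e1 : i' = c := Fin.ext (by omega)
        have e2 : i = b := Fin.ext (by omega)
        subst e1
        subst e2
        obtain ⟨x, hx, hx1, _⟩ := Mg_lift A L hb hc hF hg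
        exact ⟨x, hx, hx1⟩
  obtain ⟨x, hx, hx1⟩ := hle hg
  exact ⟨x, hx, hx1⟩

open Classical in
/-- The extension to the next level. -/
noncomputable def PhiNext (g : SpG F n) : H :=
  if h : ∃ x ∈ AA A L hb hc hF, x.1 = g then h.choose.2 else 1

theorem PhiNext_eq {x : SpG F n × H} (hx : x ∈ AA A L hb hc hF) :
    PhiNext A L hb hc hF x.1 = x.2 := by
  unfold PhiNext
  have h : ∃ y ∈ AA A L hb hc hF, y.1 = x.1 := ⟨x, hx, rfl⟩
  rw [dif_pos h]
  exact graph_eq A L hb hc hF h.choose_spec.1 hx h.choose_spec.2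

include L hb hc hF in
/-- The next level. -/
theorem lev_next : Nonempty (Lev A (k + 1)) := by
  refine ⟨⟨PhiNext A L hb hc hF, ?_, ?_, ?_⟩⟩
  · intro a ha a' ha'
    obtain ⟨x, hx, rfl⟩ := AA_surj A L hb hc hF ha
    obtain ⟨x', hx', rfl⟩ := AA_surj A L hb hc hF ha'
    have := PhiNext_eq A L hb hc hF ((AA A L hb hc hF).mul_mem hx hx')
    rw [Prod.fst_mul, Prod.snd_mul] at this
    rw [this, PhiNext_eq A L hb hc hF hx, PhiNext_eq A L hb hc hF hx']
  · intro j hj a ha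
    by_cases hjk : j.val < k
    · have := PhiNext_eq A L hb hc hF (ph_mem A L hb hc hF (Sg_le_Gk hjk ha))
      rw [show PhiNext A L hb hc hF a = L.Φ a from this, L.Φ_σ j hjk a ha]
    · have : j = c := Fin.ext (by omega)
      subst this
      exact PhiNext_eq A L hb hc hF (sg_mem A L hb hc hF ha)
  · intro i i' h1 h2 a ha
    by_cases hjk : i'.val < k
    · have := PhiNext_eq A L hb hc hF (ph_mem A L hb hc hF (Mg_le_Gk (by omega) hjk ha))
      rw [show PhiNext A L hb hc hF a = L.Φ a from this, L.Φ_μ i i' h1 hjk a ha]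
    · have e1 : i' = c := Fin.ext (by omega)
      have e2 : i = b := Fin.ext (by omega)
      subst e1
      subst e2
      obtain ⟨x, hx, rfl, hx2⟩ := Mg_lift A L hb hc hF ha
      rw [PhiNext_eq A L hb hc hF hx, hx2]

end Step

/-- All levels exist. -/
theorem lev_all (A : Amal F n H) (hF : ∃ x : F, x ≠ 0 ∧ x ≠ 1) :
    ∀ k : ℕ, 1 ≤ k → k ≤ n → Nonempty (Lev A k) := by
  intro k h1
  induction k, h1 using Nat.le_induction with
  | base =>
    intro hn
    refine ⟨⟨A.σ ⟨0, by omega⟩, ?_, ?_, ?_⟩⟩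
    · intro a ha a' ha'
      have hle : Gk F n 1 ≤ Sg (⟨0, by omega⟩ : Fin n) := by
        intro g hg l hl
        refine hg l ?_
        have : l.val ≠ 0 := fun h => hl (Fin.ext h)
        omega
      exact A.σ_mul _ _ (hle ha) _ (hle ha')
    · intro j hj a ha
      have : j = ⟨0, by omega⟩ := Fin.ext (by simp; omega)
      rw [this]
    · intro i i' h1 h2
      omega
  | succ k hk ih =>
    intro hn
    obtain ⟨L⟩ := ih (by omega)
    have hb0 : k - 1 < n := by omega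
    have hc0 : k < n := by omega
    exact lev_next A L (b := ⟨k - 1, hb0⟩) (c := ⟨k, hc0⟩) (by simp; omega) rfl hF

/-- The completion of the amalgam. -/
theorem amal_main (A : Amal F n H) (hF : ∃ x : F, x ≠ 0 ∧ x ≠ 1) (hn : 1 ≤ n) :
    ∃ Φ : SpG F n →* H, (∀ j : Fin n, ∀ a ∈ (Sg j : Subgroup (SpG F n)), Φ a = A.σ j a) ∧
      ∀ i i' : Fin n, i'.val = i.val + 1 → ∀ a ∈ (Mg i i' : Subgroup (SpG F n)), Φ a = A.μ i a := by
  obtain ⟨L⟩ := lev_all A hF n hn le_rfl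
  have hall : ∀ g : SpG F n, g ∈ Gk F n n := fun g l hl => absurd l.isLt (by omega)
  refine ⟨MonoidHom.mk' L.Φ (fun a b => L.Φ_mul a (hall a) b (hall b)), ?_, ?_⟩
  · intro j a ha
    exact L.Φ_σ j j.isLt a ha
  · intro i i' h a ha
    exact L.Φ_μ i i' h i'.isLt a ha

/-- The uniqueness. -/
theorem amal_unique (Φ₁ Φ₂ : SpG F n →* H)
    (h1 : ∀ j : Fin n, ∀ a ∈ (Sg j : Subgroup (SpG F n)), Φ₁ a = Φ₂ a)
    (h2 : ∀ i i' : Fin n, i'.val = i.val + 1 → ∀ a ∈ (Mg i i' : Subgroup (SpG F n)), Φ₁ a = Φ₂ a) :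
    Φ₁ = Φ₂ := by
  ext g
  have hall : g ∈ Gk F n n := fun l hl => absurd l.isLt (by omega)
  rw [Gk_eq_closure] at hall
  have hle : Subgroup.closure (Gens F n n) ≤ MonoidHom.eqLocus Φ₁ Φ₂ := by
    rw [Subgroup.closure_le]
    rintro g (⟨j, hj, hg⟩ | ⟨i, i', h1', h2', hg⟩)
    · exact h1 j g hg
    · exact h2 i i' h1' g hg
  exact hle hall

end Cfsg.Agent.Lib.SpAm
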