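import Cfsg.Agent.Lib.SpAm.Kit

/-!
# The remaining relations among the short root elements
-/

set_option autoImplicit false
set_option linter.unusedSimpArgs false
set_option linter.unusedVariables false
set_option linter.unusedSectionVars false

namespace Cfsg.Agent.Lib.SpAm

open Matrix Sum

variable {F : Type*} [Field F] {n : ℕ} {H : Type*} [Group H]

section Step

variable (A : Amal F n H) {k : ℕ} (L : Lev A k) {b c : Fin n}
variable (hb : b.val + 1 = k) (hc : c.val = k)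

include hb hc in
/-- The key relation, needing a field with more than two elements. -/
theorem yh_T2 (hF : ∃ x : F, x ≠ 0 ∧ x ≠ 1) {a : Fin n} (ha : a.val + 1 = b.val) :
    yh A L (b := b) (c := c) (eV b) (eV c) * yh A L (b := b) (c := c) (eV a) (eV c) =
      yh A L (b := b) (c := c) (eV b + eV a) (eV c) := by
  classical
  have hab : a ≠ b := by
    intro h
    have := congrArg Fin.val h
    omega
  have hbc := b_ne_c hb hc
  have hac : a ≠ c := by
    intro h
    have := congrArg Fin.val h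
    omega
  have hs1 := bc_succ hb hc
  have hWa : (eV a : Vc F n) ∈ Wk F n k := eV_mem_Wk (by omega)
  have hWfa : (fV a : Vc F n) ∈ Wk F n k := fV_mem_Wk (by omega)
  have hWb : (eV b : Vc F n) ∈ Wk F n k := eV_mem_Wk (by omega)
  have hPlW : ∀ {w : Vc F n}, w ∈ (Pl b : Submodule F (Vc F n)) → w ∈ Wk F n k :=
    fun hw => Pl_le_Wk (by omega) hw
  have hSG : ∀ {g : SpG F n}, g ∈ (Sg b : Subgroup (SpG F n)) → g ∈ Gk F n k :=
    fun hg => Sg_le_Gk (by omega) hg
  have hea : ∀ {w : Vc F n}, w ∈ (Pl b : Submodule F (Vc F n)) → Bf (eV a) w = 0 :=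
    fun hw => Bf_P_P hab (eV_mem_Pl a) hw
  have hYG : ∀ {w : Vc F n}, w ∈ (Pl b : Submodule F (Vc F n)) → Y (eV a) w ∈ Gk F n k :=
    fun hw => Y_mem_Gk hWa (hPlW hw)
  have hTG : ∀ τ : F, T (eV a) τ ∈ Gk F n k := fun τ => T_mem_Gk hWa τ
  have hec : (eV c : Vc F n) ∈ (Pl c : Submodule F (Vc F n)) := eV_mem_Pl c
  -- the data of the commutator lemma
  obtain ⟨ζ, hform, hζ0, hζadd, hζS, hζ1, hζ3⟩ := zeta_lemma (F := F) (n := n) (H := H) b L.Φ
    (fun w => L.Φ (Y (eV a) w)) (fun w => yh A L (b := b) (c := c) w (eV c))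
    (fun τ => L.Φ (T (eV a) τ)) (fun τ => A.σ c (T (eV c) τ))
    (fun x hx y hy => L.Φ_mul x (hSG hx) y (hSG hy))
    (by
      intro g hg w hw
      show L.Φ g * L.Φ (Y (eV a) w) * (L.Φ g)⁻¹ = L.Φ (Y (eV a) (act g w))
      rw [← L.Φ_conj (hSG hg) (hYG hw), conj_Y, (hg a hab).1])
    (by
      intro g hg w hw
      exact (yh_conj_g A L hb hc (hSG hg) (hPlW hw) hec).symm)
    (by
      intro w hw w' hw'
      show L.Φ (Y (eV a) w) * L.Φ (Y (eV a) w') =
        L.Φ (Y (eV a) (w + w')) * L.Φ (T (eV a) (Bf w w'))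
      rw [← L.Φ_mul _ (hYG hw) _ (hYG hw'), ← L.Φ_mul _ (hYG ((Pl b).add_mem hw hw')) _ (hTG _),
        Y_mul_right (hea hw) (hea hw')])
    (fun w hw w' hw' => yh_A1_plane A L hb hc hw hw')
    (by
      intro τ w hw
      show Commute (L.Φ (T (eV a) τ)) (yh A L (b := b) (c := c) w (eV c))
      have h := yh_L1 A L hb hc (hTG τ) (hPlW hw) hec
      rw [act_T, hea hw, mul_zero, zero_smul, add_zero] at h
      exact h)
    (by
      intro τ w hw
      exact (Phi_comm_sigma A L hc (hYG hw) (T_mem_Sg hec τ)).symm)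
    (by
      intro t s
      show Commute (L.Φ (Y (eV a) (t • eV b))) (yh A L (b := b) (c := c) (s • eV b) (eV c))
      rw [yh_line A L hb hc, ← Y_smul_left, L.Φ_μ a b ha.symm (by omega) _ (Y_mem_Mg t)]
      exact A.comm_MM a b b c ha.symm hs1 hab _ (Y_mem_Mg t) _ (Y_mem_Mg s))
    (by
      show L.Φ (Y (eV a) 0) = 1
      rw [Y_zero_right, L.Φ_one])
    (yh_zero_left A L _)
    (by
      show L.Φ (T (eV a) 0) = 1
      rw [T_zero_param, L.Φ_one])
    (by
      show A.σ c (T (eV c) 0) = 1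
      rw [T_zero_param, A.σ_one])
  -- first computation
  have hsb : ∀ s : F, (s • eV b : Vc F n) ∈ Wk F n k := fun s => (Wk F n k).smul_mem s hWb
  have hsbP : ∀ s : F, (s • eV b : Vc F n) ∈ (Pl b : Submodule F (Vc F n)) :=
    fun s => (Pl b).smul_mem s (eV_mem_Pl b)
  have E1 : ∀ s : F, s ≠ 0 → ∀ t : F, yh A L (b := b) (c := c) (s • eV b + t • eV a) (eV c) =
      ζ t * yh A L (b := b) (c := c) (s • eV b) (eV c) := by
    intro s hs t
    have hv : (-(t / s)) • (fV b : Vc F n) ∈ (Pl b : Submodule F (Vc F n)) :=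
      (Pl b).smul_mem _ (fV_mem_Pl b)
    have h0 := hea hv
    have hBv : Bf ((-(t / s)) • (fV b : Vc F n)) (s • eV b) = t := by
      rw [Bf_smul_left, Bf_smul_right, Bf_f_e_self]
      field_simp
    have hact : act (Y (eV a) ((-(t / s)) • (fV b : Vc F n))) (s • eV b) = s • eV b + t • eV a := by
      rw [act_Y h0, hBv, hea (hsbP s)]
      simp
    have h1 := hform _ hv _ (hsbP s)
    rw [hBv] at h1
    have h2 := yh_conj_g A L hb hc (hYG hv) (hsb s) hec
    rw [hact] at h2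
    rw [h2, ← h1]
    unfold cc
    group
  obtain ⟨x₀, hx0, hx1⟩ := hF
  have hexs : ∀ t : F, ∃ s : F, s ≠ 0 ∧ s + t ≠ 0 := by
    intro t
    by_cases ht : t = 0
    · exact ⟨1, one_ne_zero, by rw [ht, add_zero]; exact one_ne_zero⟩
    · refine ⟨-(x₀ * t), neg_ne_zero.2 (mul_ne_zero hx0 ht), ?_⟩
      intro h
      apply hx1
      have : (1 - x₀) * t = 0 := by linear_combination h
      rcases mul_eq_zero.1 this with h' | h'
      · exact (sub_eq_zero.1 h').symm
      · exact absurd h' ht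
  -- the element `b₁`
  have hv1 : (-(fV a : Vc F n)) ∈ Wk F n k := (Wk F n k).neg_mem hWfa
  have hb₁ : Y (eV b) (-(fV a : Vc F n)) ∈ Gk F n k := Y_mem_Gk hWb hv1
  have hB0 : Bf (eV b) (-(fV a : Vc F n)) = 0 := by
    rw [Bf_neg_right, Bf_e_left, fV_inr_ne hab.symm, neg_zero]
  have hact₁ : ∀ s t : F, act (Y (eV b) (-(fV a : Vc F n))) (s • eV b + t • eV a) =
      (s + t) • eV b + t • eV a := by
    intro s t
    have e1 : Bf (-(fV a : Vc F n)) (s • eV b + t • eV a) = t := by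
      rw [Bf_add_right, Bf_smul_right, Bf_smul_right, Bf_neg_left, Bf_neg_left, Bf_f_e_self,
        Bf_f_left, eV_inl_ne hab]
      ring
    have e2 : Bf (eV b) (s • eV b + t • eV a : Vc F n) = 0 := by
      rw [Bf_add_right, Bf_smul_right, Bf_smul_right, Bf_self, Bf_e_e]
      ring
    rw [act_Y hB0, e1, e2, add_smul]
    simp only [zero_smul, add_zero]
    abel
  have hact₂ : ∀ s : F, act (Y (eV b) (-(fV a : Vc F n))) (s • eV b) = s • eV b := by
    intro s
    have := hact₁ s 0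
    simpa using this
  have hsa : ∀ s t : F, (s • eV b + t • eV a : Vc F n) ∈ Wk F n k := fun s t =>
    (Wk F n k).add_mem (hsb s) ((Wk F n k).smul_mem t hWa)
  have hline : ∀ s t : F, yh A L (b := b) (c := c) (t • eV b) (eV c) *
      yh A L (b := b) (c := c) (s • eV b) (eV c) =
      yh A L (b := b) (c := c) ((s + t) • eV b) (eV c) := by
    intro s t
    have := yh_A1_plane A L hb hc (hsbP t) (hsbP s)
    rw [Bf_smul_left, Bf_smul_right, Bf_self, mul_zero, mul_zero, T_zero_param, A.σ_one, mul_one,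
      ← add_smul, add_comm t s] at this
    exact this
  have E2 : ∀ t : F, L.Φ (Y (eV b) (-(fV a : Vc F n))) * ζ t *
      (L.Φ (Y (eV b) (-(fV a : Vc F n))))⁻¹ =
      ζ t * yh A L (b := b) (c := c) (t • eV b) (eV c) := by
    intro t
    obtain ⟨s, hs, hst⟩ := hexs t
    have h1 := E1 s hs t
    have h2 := yh_conj_g A L hb hc hb₁ (hsa s t) hec
    rw [hact₁, E1 _ hst t, h1] at h2
    have h3 := yh_conj_g A L hb hc hb₁ (hsb s) hec
    rw [hact₂] at h3
    have h4 : L.Φ (Y (eV b) (-(fV a : Vc F n))) * (ζ t * yh A L (b := b) (c := c) (s • eV b) (eV c)) *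
        (L.Φ (Y (eV b) (-(fV a : Vc F n))))⁻¹ =
        (L.Φ (Y (eV b) (-(fV a : Vc F n))) * ζ t * (L.Φ (Y (eV b) (-(fV a : Vc F n))))⁻¹) *
          (L.Φ (Y (eV b) (-(fV a : Vc F n))) * yh A L (b := b) (c := c) (s • eV b) (eV c) *
            (L.Φ (Y (eV b) (-(fV a : Vc F n))))⁻¹) := by group
    rw [h4, ← h3, ← hline s t, ← mul_assoc] at h2
    exact (mul_right_cancel h2).symm
  have E3 : ∀ t : F, t ≠ 0 → yh A L (b := b) (c := c) (t • eV a) (eV c) = ζ t := by
    intro t ht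
    have h1 := E1 t ht t
    have h2 := yh_conj_g A L hb hc hb₁ ((Wk F n k).smul_mem t hWa) hec
    have h3 := hact₁ 0 t
    rw [zero_smul, zero_add, zero_add] at h3
    rw [h3, h1, ← E2 t] at h2
    have h4 := mul_right_cancel h2
    exact (mul_left_cancel h4).symm
  have hE := E1 1 one_ne_zero 1
  rw [one_smul, one_smul, ← E3 1 one_ne_zero] at hE
  have hcom := hζ3 1 _ (eV_mem_Pl b)
  rw [← E3 1 one_ne_zero, one_smul] at hcom
  rw [one_smul] at hE
  rw [hE]
  exact hcom.symm.eq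

include hb hc in
theorem yh_A1 (hF : ∃ x : F, x ≠ 0 ∧ x ≠ 1) {u u' : Vc F n} (hu : u ∈ Wk F n k)
    (hu' : u' ∈ Wk F n k) :
    yh A L (b := b) (c := c) u (eV c) * yh A L (b := b) (c := c) u' (eV c) =
      yh A L (b := b) (c := c) (u + u') (eV c) * A.σ c (T (eV c) (Bf u u')) := by
  have hec : (eV c : Vc F n) ∈ (Pl c : Submodule F (Vc F n)) := eV_mem_Pl c
  refine pair_red hb (fun u u' => yh A L (b := b) (c := c) u (eV c) * yh A L (b := b) (c := c) u' (eV c) =
      yh A L (b := b) (c := c) (u + u') (eV c) * A.σ c (T (eV c) (Bf u u'))) ?_ ?_ ?_ ?_ u hu u' hu'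
  · intro g hg v hv v' hv' h
    show _ * _ = _ * _
    rw [yh_conj_g A L hb hc hg hv hec, yh_conj_g A L hb hc hg hv' hec, ← map_add,
      yh_conj_g A L hb hc hg ((Wk F n k).add_mem hv hv') hec, Bf_act]
    have hc1 := (Phi_comm_sigma A L hc hg (T_mem_Sg hec (Bf v v'))).eq
    calc L.Φ g * yh A L (b := b) (c := c) v (eV c) * (L.Φ g)⁻¹ *
          (L.Φ g * yh A L (b := b) (c := c) v' (eV c) * (L.Φ g)⁻¹)
        = L.Φ g * (yh A L (b := b) (c := c) v (eV c) * yh A L (b := b) (c := c) v' (eV c)) *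
            (L.Φ g)⁻¹ := by group
      _ = L.Φ g * yh A L (b := b) (c := c) (v + v') (eV c) * (L.Φ g)⁻¹ *
            (L.Φ g * A.σ c (T (eV c) (Bf v v')) * (L.Φ g)⁻¹) := by rw [h]; group
      _ = _ := by rw [hc1]; group
  · intro v hv
    show _ * _ = _ * _
    rw [yh_zero_left, one_mul, zero_add, Bf_zero_left, T_zero_param, A.σ_one, mul_one]
  · intro v hv
    exact yh_A1_plane A L hb hc (eV_mem_Pl b) hv
  · intro a ha
    show _ * _ = _ * _
    rw [yh_T2 A L hb hc hF ha, Bf_e_e, T_zero_param, A.σ_one, mul_one]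

include hb hc in
theorem yh_L3 (hF : ∃ x : F, x ≠ 0 ∧ x ≠ 1) {u u' r : Vc F n} (hu : u ∈ Wk F n k)
    (hu' : u' ∈ Wk F n k) (hr : r ∈ (Pl c : Submodule F (Vc F n))) :
    yh A L (b := b) (c := c) u r * yh A L (b := b) (c := c) u' r =
      yh A L (b := b) (c := c) (u + u') r * A.σ c (T r (Bf u u')) := by
  by_cases h1 : r = 0
  · subst h1
    rw [yh_zero_right, yh_zero_right, yh_zero_right, T_zero_vec, A.σ_one, one_mul]
  obtain ⟨s, hs, rfl⟩ := exists_Sg_act hr h1
  have hec : (eV c : Vc F n) ∈ (Pl c : Submodule F (Vc F n)) := eV_mem_Pl c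
  rw [yh_conj_s A L hb hc hs hu hec, yh_conj_s A L hb hc hs hu' hec,
    yh_conj_s A L hb hc hs ((Wk F n k).add_mem hu hu') hec, ← conj_T,
    pm_conj (A.σ_mul c) hs (T_mem_Sg hec _)]
  have := yh_A1 A L hb hc hF hu hu'
  calc A.σ c s * yh A L (b := b) (c := c) u (eV c) * (A.σ c s)⁻¹ *
        (A.σ c s * yh A L (b := b) (c := c) u' (eV c) * (A.σ c s)⁻¹)
      = A.σ c s * (yh A L (b := b) (c := c) u (eV c) * yh A L (b := b) (c := c) u' (eV c)) *
          (A.σ c s)⁻¹ := by group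
    _ = _ := by rw [this]; group

include hb hc in
theorem yh_L5 (hF : ∃ x : F, x ≠ 0 ∧ x ≠ 1) {u u' r r' : Vc F n} (hu : u ∈ Wk F n k)
    (hu' : u' ∈ Wk F n k) (h0 : Bf u u' = 0) (hr : r ∈ (Pl c : Submodule F (Vc F n)))
    (hr' : r' ∈ (Pl c : Submodule F (Vc F n))) :
    yh A L (b := b) (c := c) u r * yh A L (b := b) (c := c) u' r' =
      L.Φ (Y u (Bf r r' • u')) * (yh A L (b := b) (c := c) u' r' * yh A L (b := b) (c := c) u r) := by
  have h0' : Bf u' u = 0 := Bf_symm0 h0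
  set τ := Bf r r' with hτ
  have hsum : u' + u ∈ Wk F n k := (Wk F n k).add_mem hu' hu
  have hrr' := (Pl c).add_mem hr hr'
  have Ly : ∀ {x : Vc F n}, x ∈ (Pl c : Submodule F (Vc F n)) →
      yh A L (b := b) (c := c) (u' + u) x =
        yh A L (b := b) (c := c) u' x * yh A L (b := b) (c := c) u x := by
    intro x hx
    rw [yh_L3 A L hb hc hF hu' hu hx, h0', T_zero_param, A.σ_one, mul_one]
  have L4sum := yh_L4 A L hb hc hsum hr hr'
  have L4u' := yh_L4 A L hb hc hu' hr hr'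
  have L4u := yh_L4 A L hb hc hu hr hr'
  rw [← hτ] at L4sum L4u' L4u
  have hTu' : T u' τ ∈ Gk F n k := T_mem_Gk hu' τ
  have hTu : T u τ ∈ Gk F n k := T_mem_Gk hu τ
  have hYY : Y u' (τ • u) ∈ Gk F n k := Y_mem_Gk hu' ((Wk F n k).smul_mem _ hu)
  have hTadd : L.Φ (T (u' + u) τ) = L.Φ (T u' τ) * L.Φ (T u τ) * L.Φ (Y u' (τ • u)) := by
    rw [T_add h0', L.Φ_mul _ ((Gk F n k).mul_mem hTu' hTu) _ hYY, L.Φ_mul _ hTu' _ hTu]
  -- commutations
  have hPbA : ∀ {x : Vc F n}, x ∈ (Pl c : Submodule F (Vc F n)) →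
      Commute (L.Φ (T u' τ)) (yh A L (b := b) (c := c) u x) := by
    intro x hx
    have := yh_L1 A L hb hc hTu' hu hx
    rw [act_T, h0', mul_zero, zero_smul, add_zero] at this
    exact this
  have hPaPb : Commute (L.Φ (T u τ)) (L.Φ (T u' τ)) := by
    show _ * _ = _ * _
    rw [← L.Φ_mul _ hTu _ hTu', ← L.Φ_mul _ hTu' _ hTu, T_comm_T h0]
  have hYfix : act (Y u' (τ • u)) u = u := by
    rw [act_Y (by rw [Bf_smul_right, h0', mul_zero]), Bf_smul_left, Bf_self, h0']
    simp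
  have hYfix' : act (Y u' (τ • u)) u' = u' := by
    rw [act_Y (by rw [Bf_smul_right, h0', mul_zero]), Bf_smul_left, Bf_self, h0]
    simp
  have hYA : ∀ {x : Vc F n}, x ∈ (Pl c : Submodule F (Vc F n)) →
      Commute (L.Φ (Y u' (τ • u))) (yh A L (b := b) (c := c) u x) := by
    intro x hx
    have := yh_L1 A L hb hc hYY hu hx
    rwa [hYfix] at this
  have hYB : ∀ {x : Vc F n}, x ∈ (Pl c : Submodule F (Vc F n)) →
      Commute (L.Φ (Y u' (τ • u))) (yh A L (b := b) (c := c) u' x) := by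
    intro x hx
    have := yh_L1 A L hb hc hYY hu' hx
    rwa [hYfix'] at this
  -- the computation
  set B := yh A L (b := b) (c := c) u' r with hB
  set A₀ := yh A L (b := b) (c := c) u r with hA₀
  set B' := yh A L (b := b) (c := c) u' r' with hB'
  set A' := yh A L (b := b) (c := c) u r' with hA'
  set Pb := L.Φ (T u' τ) with hPb
  set Pa := L.Φ (T u τ) with hPa
  set PY := L.Φ (Y u' (τ • u)) with hPY
  have E1 : yh A L (b := b) (c := c) u' (r + r') = B * B' * Pb⁻¹ := by rw [L4u']; group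
  have E2 : yh A L (b := b) (c := c) u (r + r') = A₀ * A' * Pa⁻¹ := by rw [L4u]; group
  rw [Ly hr, Ly hr', Ly hrr', hTadd, E1, E2] at L4sum
  have L4sum' : B * A₀ * (B' * A') = B * B' * Pb⁻¹ * (A₀ * A' * Pa⁻¹) * (Pb * Pa * PY) := L4sum
  have hcA : Pb⁻¹ * (A₀ * A') = (A₀ * A') * Pb⁻¹ :=
    (((hPbA hr).mul_right (hPbA hr')).inv_left).eq
  have hcP : Pa⁻¹ * Pb * Pa = Pb := by
    have : Pa⁻¹ * Pb = Pb * Pa⁻¹ := (hPaPb.inv_left).eq
    rw [this]; group
  have main : B * A₀ * (B' * A') = B * B' * (A₀ * A') * PY := by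
    rw [L4sum']
    calc B * B' * Pb⁻¹ * (A₀ * A' * Pa⁻¹) * (Pb * Pa * PY)
        = B * B' * (Pb⁻¹ * (A₀ * A')) * (Pa⁻¹ * Pb * Pa) * PY := by group
      _ = B * B' * ((A₀ * A') * Pb⁻¹) * Pb * PY := by rw [hcA, hcP]
      _ = _ := by group
  -- conclusion
  have e1 : A₀ * B' * A' = B' * A₀ * A' * PY := by
    have : B * (A₀ * B' * A') = B * (B' * A₀ * A' * PY) := by
      calc B * (A₀ * B' * A') = B * A₀ * (B' * A') := by group
        _ = _ := by rw [main]; group
    exact mul_left_cancel this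
  have e2 : A₀ * B' * A' = B' * A₀ * PY * A' := by
    rw [e1, mul_assoc (B' * A₀), mul_assoc (B' * A₀), (hYA hr').eq]
  have e3 : A₀ * B' = B' * A₀ * PY := mul_right_cancel e2
  have e4 : Y u (τ • u') = Y u' (τ • u) := by
    rw [← Y_smul_left, Y_comm_sym]
  rw [e4, ← hPY, e3]
  have : Commute PY (B' * A₀) := (hYB hr').mul_right (hYA hr)
  exact this.symm.eq

/-- The kit in the product group. -/
noncomputable def pairKit (hF : ∃ x : F, x ≠ 0 ∧ x ≠ 1) : Kit F n k c (SpG F n × H) where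
  ph g := (g, L.Φ g)
  sg s := (s, A.σ c s)
  y u r := (Y u r, yh A L (b := b) (c := c) u r)
  ph_mul a b' ha hb' := Prod.ext rfl (L.Φ_mul a ha b' hb')
  sg_mul a b' ha hb' := Prod.ext rfl (A.σ_mul c a ha b' hb')
  comm g hg s hs := Prod.ext (Gk_Sg_comm hc.ge hg hs) (Phi_comm_sigma A L hc hg hs)
  L1 g hg u hu r hr := Prod.ext (by
      show g * Y u r = Y (act g u) r * g
      have := conj_Y g u r
      rw [act_Gk_P hg hc.ge hr] at this
      rw [← this]; group) (yh_L1 A L hb hc hg hu hr)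
  L2 s hs u hu r hr := Prod.ext (by
      show s * Y u r = Y u (act s r) * s
      have := conj_Y s u r
      rw [act_Sg_W hs hc.ge hu] at this
      rw [← this]; group) (yh_L2 A L hb hc hs hu hr)
  L3 u hu u' hu' r hr := Prod.ext (Y_mul_left (Bf_W_P hc.ge hu hr) (Bf_W_P hc.ge hu' hr))
    (yh_L3 A L hb hc hF hu hu' hr)
  L4 u hu r hr r' hr' := Prod.ext (Y_mul_right (Bf_W_P hc.ge hu hr) (Bf_W_P hc.ge hu hr'))
    (yh_L4 A L hb hc hu hr hr')
  L5 u hu u' hu' h0 r hr r' hr' := Prod.ext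
    (Y_rel h0 (Bf_W_P hc.ge hu hr) (Bf_W_P hc.ge hu hr') (Bf_W_P hc.ge hu' hr) (Bf_W_P hc.ge hu' hr'))
    (yh_L5 A L hb hc hF hu hu' h0 hr hr')
  L6 t u hu r hr := Prod.ext (Y_smul_left t u r) (yh_L6 A L hb hc t hu hr)
  L70 r := Prod.ext (Y_zero_left r) (yh_zero_left A L r)
  L71 u := Prod.ext (Y_zero_right u) (yh_zero_right A L u)

end Step

end Cfsg.Agent.Lib.SpAm
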