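import Cfsg.Agent.Lib.SpAm.Level

/-!
# The inductive step: from the relations among short root elements to injectivity

We work in an abstract group `Γ` (later `Sp × H`).  `Kit` collects the data at level `k`:
maps `ph`, `sg` on `Gk k` and on the `SL₂` of index `c`, and short root elements `y u r`.
-/

set_option autoImplicit false
set_option linter.unusedSimpArgs false
set_option linter.unusedVariables false

namespace Cfsg.Agent.Lib.SpAm

open Matrix Sum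

variable {F : Type*} [Field F] {n : ℕ}

/-- The relations at level `k` with new index `c`. -/
structure Kit (F : Type*) [Field F] (n : ℕ) (k : ℕ) (c : Fin n) (Γ : Type*) [Group Γ] where
  ph : SpG F n → Γ
  sg : SpG F n → Γ
  y : Vc F n → Vc F n → Γ
  ph_mul : ∀ a b, a ∈ Gk F n k → b ∈ Gk F n k → ph (a * b) = ph a * ph b
  sg_mul : ∀ a b, a ∈ (Sg c : Subgroup (SpG F n)) → b ∈ (Sg c : Subgroup (SpG F n)) →
    sg (a * b) = sg a * sg b
  comm : ∀ g ∈ Gk F n k, ∀ s ∈ (Sg c : Subgroup (SpG F n)), ph g * sg s = sg s * ph g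
  L1 : ∀ g ∈ Gk F n k, ∀ u ∈ Wk F n k, ∀ r ∈ (Pl c : Submodule F (Vc F n)),
    ph g * y u r = y (act g u) r * ph g
  L2 : ∀ s ∈ (Sg c : Subgroup (SpG F n)), ∀ u ∈ Wk F n k, ∀ r ∈ (Pl c : Submodule F (Vc F n)),
    sg s * y u r = y u (act s r) * sg s
  L3 : ∀ u ∈ Wk F n k, ∀ u' ∈ Wk F n k, ∀ r ∈ (Pl c : Submodule F (Vc F n)),
    y u r * y u' r = y (u + u') r * sg (T r (Bf u u'))
  L4 : ∀ u ∈ Wk F n k, ∀ r ∈ (Pl c : Submodule F (Vc F n)), ∀ r' ∈ (Pl c : Submodule F (Vc F n)),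
    y u r * y u r' = y u (r + r') * ph (T u (Bf r r'))
  L5 : ∀ u ∈ Wk F n k, ∀ u' ∈ Wk F n k, Bf u u' = 0 → ∀ r ∈ (Pl c : Submodule F (Vc F n)),
    ∀ r' ∈ (Pl c : Submodule F (Vc F n)),
    y u r * y u' r' = ph (Y u (Bf r r' • u')) * (y u' r' * y u r)
  L6 : ∀ t : F, ∀ u ∈ Wk F n k, ∀ r ∈ (Pl c : Submodule F (Vc F n)), y (t • u) r = y u (t • r)
  L70 : ∀ r, y 0 r = 1
  L71 : ∀ u, y u 0 = 1

namespace Kit

variable {k : ℕ} {c : Fin n} {Γ : Type*} [Group Γ] (K : Kit F n k c Γ)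

theorem ph_one : K.ph 1 = 1 := by
  have h := K.ph_mul 1 1 (Gk F n k).one_mem (Gk F n k).one_mem
  rw [mul_one] at h
  exact left_eq_mul.1 h

theorem sg_one : K.sg 1 = 1 := by
  have h := K.sg_mul 1 1 (Sg c).one_mem (Sg c).one_mem
  rw [mul_one] at h
  exact left_eq_mul.1 h

theorem ph_inv {g : SpG F n} (hg : g ∈ Gk F n k) : K.ph g⁻¹ = (K.ph g)⁻¹ := by
  rw [eq_inv_iff_mul_eq_one, ← K.ph_mul _ _ ((Gk F n k).inv_mem hg) hg]
  simp [K.ph_one]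

theorem sg_inv {s : SpG F n} (hs : s ∈ (Sg c : Subgroup (SpG F n))) : K.sg s⁻¹ = (K.sg s)⁻¹ := by
  rw [eq_inv_iff_mul_eq_one, ← K.sg_mul _ _ ((Sg c).inv_mem hs) hs]
  simp [K.sg_one]

theorem y_neg {u : Vc F n} (hu : u ∈ Wk F n k) {r : Vc F n}
    (hr : r ∈ (Pl c : Submodule F (Vc F n))) (hc : k ≤ c.val) : K.y (-u) r = (K.y u r)⁻¹ := by
  rw [eq_inv_iff_mul_eq_one]
  have := K.L3 (-u) ((Wk F n k).neg_mem hu) u hu r hr
  rw [this]
  simp [K.L70, Bf_neg_left, Bf_self, K.sg_one]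

section Coset

variable (P : Subgroup Γ)

/-- The descriptions of the coset attached to the vector `w + r`. -/
def D (w r : Vc F n) (κ : Γ) : Prop :=
  (w = 0 ∧ ∃ s ∈ (Sg c : Subgroup (SpG F n)), act s (eV c) = r ∧ κ = K.sg s) ∨
  (w ≠ 0 ∧ r ≠ 0 ∧ ∃ r' ∈ (Pl c : Submodule F (Vc F n)), Bf r' r = 1 ∧
    ∃ s ∈ (Sg c : Subgroup (SpG F n)), act s (eV c) = r ∧ κ = K.y w r' * K.sg s) ∨
  (w ≠ 0 ∧ r = 0 ∧ ∃ f ∈ Wk F n k, Bf f w = -1 ∧ κ = K.y f (eV c) * K.y w (-fV c))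

variable (hPph : ∀ g ∈ Gk F n k, K.ph g ∈ P) (hPT : ∀ t : F, K.sg (T (eV c) t) ∈ P)
  (hPy : ∀ w ∈ Wk F n k, K.y w (eV c) ∈ P) (hck : k = c.val)

include hPy in
theorem y_smul_mem {w : Vc F n} (hw : w ∈ Wk F n k) (t : F) : K.y w (t • eV c) ∈ P := by
  rw [← K.L6 t w hw _ (eV_mem_Pl c)]
  exact hPy _ ((Wk F n k).smul_mem t hw)

theorem m_mem : (-fV c : Vc F n) ∈ (Pl c : Submodule F (Vc F n)) :=
  (Pl (F := F) c).neg_mem (fV_mem_Pl c)

include hPT in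
theorem wd_A {s₁ s₂ : SpG F n} (h₁ : s₁ ∈ (Sg c : Subgroup (SpG F n)))
    (h₂ : s₂ ∈ (Sg c : Subgroup (SpG F n))) (h : act s₁ (eV c) = act s₂ (eV c)) :
    (K.sg s₁)⁻¹ * K.sg s₂ ∈ P := by
  have h3 : act (s₁⁻¹ * s₂) (eV c) = eV c := by
    rw [act_mul, ← h, act_inv_act]
  obtain ⟨τ, hτ⟩ := Sg_stab ((Sg c).mul_mem ((Sg c).inv_mem h₁) h₂) h3
  have : (K.sg s₁)⁻¹ * K.sg s₂ = K.sg (s₁⁻¹ * s₂) := by
    rw [K.sg_mul _ _ ((Sg c).inv_mem h₁) h₂, K.sg_inv h₁]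
  rw [this, hτ]
  exact hPT τ

include hPph hPT hPy hck in
theorem wd_B {w r r₁ r₂ : Vc F n} {s₁ s₂ : SpG F n} (hw : w ∈ Wk F n k)
    (hr : r ∈ (Pl c : Submodule F (Vc F n))) (hr0 : r ≠ 0)
    (hr₁ : r₁ ∈ (Pl c : Submodule F (Vc F n))) (hr₂ : r₂ ∈ (Pl c : Submodule F (Vc F n)))
    (hB₁ : Bf r₁ r = 1) (hB₂ : Bf r₂ r = 1)
    (h₁ : s₁ ∈ (Sg c : Subgroup (SpG F n))) (h₂ : s₂ ∈ (Sg c : Subgroup (SpG F n)))
    (he₁ : act s₁ (eV c) = r) (he₂ : act s₂ (eV c) = r) :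
    (K.y w r₁ * K.sg s₁)⁻¹ * (K.y w r₂ * K.sg s₂) ∈ P := by
  have hd : Bf (r₂ - r₁) r = 0 := by rw [Bf_sub_left, hB₁, hB₂, sub_self]
  obtain ⟨κ, hκ⟩ := dual_diff hr hr0 ((Pl (F := F) c).sub_mem hr₂ hr₁) hd
  have hr2 : r₂ = r₁ + κ • r := by rw [← hκ]; abel
  have hκr : κ • r ∈ (Pl c : Submodule F (Vc F n)) := (Pl c).smul_mem κ hr
  have h4 := K.L4 w hw r₁ hr₁ (κ • r) hκr
  rw [← hr2] at h4
  have hTw : T w (Bf r₁ (κ • r)) ∈ Gk F n k := T_mem_Gk hw _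
  have h5 : K.y w r₂ = K.y w r₁ * K.y w (κ • r) * (K.ph (T w (Bf r₁ (κ • r))))⁻¹ := by
    rw [h4]; group
  have h6 : K.y w (κ • r) * K.sg s₁ = K.sg s₁ * K.y w (κ • eV c) := by
    have := K.L2 s₁ h₁ w hw (κ • eV c) ((Pl c).smul_mem κ (eV_mem_Pl c))
    rw [map_smul, he₁] at this
    exact this.symm
  have h7 : (K.ph (T w (Bf r₁ (κ • r))))⁻¹ * K.sg s₂ = K.sg s₂ * (K.ph (T w (Bf r₁ (κ • r))))⁻¹ :=
    ((show Commute (K.ph (T w (Bf r₁ (κ • r)))) (K.sg s₂) from K.comm _ hTw s₂ h₂).inv_left).eq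
  have e : (K.y w r₁ * K.sg s₁)⁻¹ * (K.y w r₂ * K.sg s₂) =
      K.y w (κ • eV c) * ((K.sg s₁)⁻¹ * K.sg s₂) * (K.ph (T w (Bf r₁ (κ • r))))⁻¹ := by
    rw [h5]
    have h8 : K.y w (κ • r) = K.sg s₁ * K.y w (κ • eV c) * (K.sg s₁)⁻¹ := by
      rw [← h6]; group
    calc (K.y w r₁ * K.sg s₁)⁻¹ * (K.y w r₁ * K.y w (κ • r) * (K.ph (T w (Bf r₁ (κ • r))))⁻¹ * K.sg s₂)
        = (K.sg s₁)⁻¹ * K.y w (κ • r) * ((K.ph (T w (Bf r₁ (κ • r))))⁻¹ * K.sg s₂) := by group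
      _ = (K.sg s₁)⁻¹ * K.y w (κ • r) * (K.sg s₂ * (K.ph (T w (Bf r₁ (κ • r))))⁻¹) := by rw [h7]
      _ = _ := by rw [h8]; group
  rw [e]
  refine P.mul_mem (P.mul_mem (K.y_smul_mem P hPy hw κ) ?_) (P.inv_mem (hPph _ hTw))
  exact K.wd_A P hPT h₁ h₂ (he₁.trans he₂.symm)


include hPph hPT hPy hck in
/-- Moving a transvection of `e` past `y w r`. -/
theorem Te_mul_y {w r : Vc F n} (hw : w ∈ Wk F n k) (hr : r ∈ (Pl c : Submodule F (Vc F n)))
    (τ : F) : ∃ p ∈ P, K.sg (T (eV c) τ) * K.y w r = K.y w r * p := by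
  have hTs : T (eV c) τ ∈ (Sg c : Subgroup (SpG F n)) := T_mem_Sg (eV_mem_Pl c) τ
  have h2 := K.L2 _ hTs w hw r hr
  rw [act_T] at h2
  have hβ : (τ * Bf (eV c) r) • eV c ∈ (Pl c : Submodule F (Vc F n)) :=
    (Pl c).smul_mem _ (eV_mem_Pl c)
  have h4 := K.L4 w hw r hr _ hβ
  have hTw : T w (Bf r ((τ * Bf (eV c) r) • eV c)) ∈ Gk F n k := T_mem_Gk hw _
  refine ⟨K.y w ((τ * Bf (eV c) r) • eV c) * (K.ph (T w (Bf r ((τ * Bf (eV c) r) • eV c))))⁻¹ *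
    K.sg (T (eV c) τ), P.mul_mem (P.mul_mem (K.y_smul_mem P hPy hw _) (P.inv_mem (hPph _ hTw)))
      (hPT _), ?_⟩
  rw [h2, ← mul_assoc, ← mul_assoc, h4]
  group

include hPph hPT hPy hck in
/-- Moving `y x₀ e` past `y w r` for `x₀ ⊥ w`. -/
theorem y_mul_y_orth {x₀ w r : Vc F n} (hx₀ : x₀ ∈ Wk F n k) (hw : w ∈ Wk F n k)
    (hr : r ∈ (Pl c : Submodule F (Vc F n))) (h0 : Bf x₀ w = 0) :
    ∃ p ∈ P, K.y x₀ (eV c) * K.y w r = K.y w r * p := by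
  have h5 := K.L5 x₀ hx₀ w hw h0 (eV c) (eV_mem_Pl c) r hr
  have hzG : Y x₀ (Bf (eV c) r • w) ∈ Gk F n k := Y_mem_Gk hx₀ ((Wk F n k).smul_mem _ hw)
  have hzw : act (Y x₀ (Bf (eV c) r • w)) w = w := by
    rw [act_Y (by rw [Bf_smul_right, h0, mul_zero]), Bf_smul_left, Bf_self, h0]
    simp
  have h1 := K.L1 _ hzG w hw r hr
  rw [hzw] at h1
  refine ⟨K.ph (Y x₀ (Bf (eV c) r • w)) * K.y x₀ (eV c), P.mul_mem (hPph _ hzG) (hPy _ hx₀), ?_⟩
  rw [h5, ← mul_assoc, h1]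
  group

/-- Swapping two `y _ e`. -/
theorem y_swap {x f : Vc F n} (hx : x ∈ Wk F n k) (hf : f ∈ Wk F n k) :
    ∃ τ : F, K.y x (eV c) * K.y f (eV c) = K.y f (eV c) * K.y x (eV c) * K.sg (T (eV c) τ) := by
  refine ⟨Bf x f - Bf f x, ?_⟩
  have h1 := K.L3 x hx f hf (eV c) (eV_mem_Pl c)
  have h2 := K.L3 f hf x hx (eV c) (eV_mem_Pl c)
  rw [add_comm f x] at h2
  have hT : T (eV c) (Bf x f) = T (eV c) (Bf f x) * T (eV c) (Bf x f - Bf f x) := by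
    rw [T_add_param]; congr 1; ring
  rw [h1, h2, hT, K.sg_mul _ _ (T_mem_Sg (eV_mem_Pl c) _) (T_mem_Sg (eV_mem_Pl c) _)]
  group

include hPph hPT hPy hck in
/-- The coset description (C) is independent of `f`. -/
theorem wd_C {w f₁ f₂ : Vc F n} (hw : w ∈ Wk F n k) (hf₁ : f₁ ∈ Wk F n k) (hf₂ : f₂ ∈ Wk F n k)
    (h₁ : Bf f₁ w = -1) (h₂ : Bf f₂ w = -1) :
    (K.y f₁ (eV c) * K.y w (-fV c))⁻¹ * (K.y f₂ (eV c) * K.y w (-fV c)) ∈ P := by
  have hf₀ : f₂ - f₁ ∈ Wk F n k := (Wk F n k).sub_mem hf₂ hf₁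
  have h0 : Bf (f₂ - f₁) w = 0 := by rw [Bf_sub_left, h₁, h₂, sub_self]
  have h3 := K.L3 f₁ hf₁ (f₂ - f₁) hf₀ (eV c) (eV_mem_Pl c)
  rw [add_sub_cancel] at h3
  have h4 : K.y f₂ (eV c) = K.y f₁ (eV c) * K.y (f₂ - f₁) (eV c) *
      K.sg (T (eV c) (-Bf f₁ (f₂ - f₁))) := by
    rw [T_neg_param, K.sg_inv (T_mem_Sg (eV_mem_Pl c) _), h3]; group
  obtain ⟨p, hp, hpe⟩ := K.Te_mul_y P hPph hPT hPy hck hw (m_mem (c := c)) (-Bf f₁ (f₂ - f₁))
  obtain ⟨q, hq, hqe⟩ := K.y_mul_y_orth P hPph hPT hPy hck hf₀ hw (m_mem (c := c)) h0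
  have : (K.y f₁ (eV c) * K.y w (-fV c))⁻¹ * (K.y f₂ (eV c) * K.y w (-fV c)) = q * p := by
    rw [h4, mul_assoc (K.y f₁ (eV c) * _), hpe, mul_assoc (K.y f₁ (eV c)), ← mul_assoc (K.y (f₂ - f₁) (eV c)),
      hqe]
    group
  rw [this]
  exact P.mul_mem hq hp

include hPph hPT hPy hck in
/-- `Sg c` stabilizes the coset (C). -/
theorem sfix {w f : Vc F n} (hw : w ∈ Wk F n k) (hf : f ∈ Wk F n k) (h₁ : Bf f w = -1)
    {s : SpG F n} (hs : s ∈ (Sg c : Subgroup (SpG F n))) :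
    ∃ p ∈ P, K.sg s * (K.y f (eV c) * K.y w (-fV c)) = (K.y f (eV c) * K.y w (-fV c)) * p := by
  have hck' : k ≤ c.val := hck.le
  have hm := m_mem (F := F) (c := c)
  have main : ∀ s ∈ Subgroup.closure (Tset (F := F) c), s ∈ (Sg c : Subgroup (SpG F n)) ∧
      ∃ p ∈ P, K.sg s * (K.y f (eV c) * K.y w (-fV c)) = (K.y f (eV c) * K.y w (-fV c)) * p := by
    intro s hs
    induction hs using Subgroup.closure_induction with
    | mem x hx =>
      obtain ⟨τ, rfl | rfl⟩ := hx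
      · refine ⟨T_mem_Sg (eV_mem_Pl c) τ, ?_⟩
        have h2 := K.L2 _ (T_mem_Sg (eV_mem_Pl c) τ) f hf (eV c) (eV_mem_Pl c)
        rw [act_T, Bf_self, mul_zero, zero_smul, add_zero] at h2
        obtain ⟨p, hp, hpe⟩ := K.Te_mul_y P hPph hPT hPy hck hw hm τ
        refine ⟨p, hp, ?_⟩
        rw [← mul_assoc, h2, mul_assoc, hpe, mul_assoc]
      · refine ⟨T_mem_Sg (fV_mem_Pl c) τ, ?_⟩
        have hTG : T f τ ∈ Gk F n k := T_mem_Gk hf τ
        refine ⟨K.ph (T f τ), hPph _ hTG, ?_⟩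
        have hTs : T (fV c) τ ∈ (Sg c : Subgroup (SpG F n)) := T_mem_Sg (fV_mem_Pl c) τ
        have h2 := K.L2 _ hTs f hf (eV c) (eV_mem_Pl c)
        have h2' := K.L2 _ hTs w hw (-fV c) hm
        have e1 : act (T (fV c) τ) (eV c) = eV c + τ • (-fV c) := by
          rw [act_T, Bf_f_e_self, mul_neg, mul_one, smul_neg, neg_smul]
        have e2 : act (T (fV c) τ) (-fV c) = -fV c := by
          rw [act_T, Bf_neg_right, Bf_self]; simp
        rw [e1] at h2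
        rw [e2] at h2'
        have hτm : τ • (-fV c : Vc F n) ∈ (Pl c : Submodule F (Vc F n)) := (Pl c).smul_mem τ hm
        have h4 := K.L4 f hf (eV c) (eV_mem_Pl c) _ hτm
        have e3 : Bf (eV c) (τ • (-fV c : Vc F n)) = -τ := by
          rw [Bf_smul_right, Bf_neg_right, Bf_e_f_self]; ring
        rw [e3] at h4
        have hTG' : T f (-τ) ∈ Gk F n k := T_mem_Gk hf _
        have h5 : K.y f (eV c + τ • (-fV c)) = K.y f (eV c) * K.y f (τ • (-fV c)) * K.ph (T f τ) := by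
          have : K.ph (T f τ) = (K.ph (T f (-τ)))⁻¹ := by
            rw [← K.ph_inv hTG', T_neg_param, inv_inv]
          rw [this, h4]; group
        have h1 := K.L1 _ hTG w hw _ hm
        have e4 : act (T f τ) w = w - τ • f := by
          rw [act_T, h₁, sub_eq_add_neg]; congr 1
          rw [mul_neg, mul_one, neg_smul]
        rw [e4] at h1
        have h6 := K.L6 τ f hf _ hm
        have h3 := K.L3 (τ • f) ((Wk F n k).smul_mem τ hf) (w - τ • f)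
          ((Wk F n k).sub_mem hw ((Wk F n k).smul_mem τ hf)) _ hm
        have e5 : τ • f + (w - τ • f) = w := by abel
        have e6 : Bf (τ • f) (w - τ • f) = -τ := by
          rw [Bf_sub_right, Bf_smul_left, Bf_smul_right, Bf_smul_left, Bf_self, h₁]; ring
        rw [e5, e6, T_neg_vec] at h3
        have hTs' : T (fV c) (-τ) = (T (fV c) τ)⁻¹ := T_neg_param _ _
        rw [hTs', K.sg_inv hTs] at h3
        have hcomm := K.comm _ hTG _ hTs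
        calc K.sg (T (fV c) τ) * (K.y f (eV c) * K.y w (-fV c))
            = (K.sg (T (fV c) τ) * K.y f (eV c)) * K.y w (-fV c) := by group
          _ = K.y f (eV c + τ • (-fV c)) * K.sg (T (fV c) τ) * K.y w (-fV c) := by rw [h2]
          _ = K.y f (eV c + τ • (-fV c)) * (K.sg (T (fV c) τ) * K.y w (-fV c)) := by group
          _ = K.y f (eV c + τ • (-fV c)) * (K.y w (-fV c) * K.sg (T (fV c) τ)) := by rw [h2']
          _ = K.y f (eV c) * K.y f (τ • (-fV c)) * (K.ph (T f τ) * K.y w (-fV c)) * K.sg (T (fV c) τ) := by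
              rw [h5]; group
          _ = K.y f (eV c) * (K.y (τ • f) (-fV c) * K.y (w - τ • f) (-fV c)) * K.ph (T f τ) * K.sg (T (fV c) τ) := by
              rw [h1, ← h6]; group
          _ = K.y f (eV c) * (K.y w (-fV c) * (K.sg (T (fV c) τ))⁻¹) * (K.sg (T (fV c) τ) * K.ph (T f τ)) := by
              rw [h3, ← hcomm]; group
          _ = _ := by group
    | one => exact ⟨(Sg c).one_mem, 1, P.one_mem, by rw [K.sg_one]; group⟩
    | mul x y _ _ hx hy =>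
      obtain ⟨hx1, p, hp, hpe⟩ := hx
      obtain ⟨hy1, q, hq, hqe⟩ := hy
      refine ⟨(Sg c).mul_mem hx1 hy1, p * q, P.mul_mem hp hq, ?_⟩
      rw [K.sg_mul _ _ hx1 hy1, mul_assoc, hqe, ← mul_assoc, hpe]
      group
    | inv x _ hx =>
      obtain ⟨hx1, p, hp, hpe⟩ := hx
      refine ⟨(Sg c).inv_mem hx1, p⁻¹, P.inv_mem hp, ?_⟩
      rw [K.sg_inv hx1, inv_mul_eq_iff_eq_mul, ← mul_assoc, hpe]
      group
  exact (main s (Sg_le_closure c hs)).2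

include hPph hPT hPy hck in
/-- `y x e` for `x ⊥ w` stabilizes the coset (C). -/
theorem key0 {w f x : Vc F n} (hw : w ∈ Wk F n k) (hf : f ∈ Wk F n k)
    (hx : x ∈ Wk F n k) (h0 : Bf x w = 0) :
    ∃ p ∈ P, K.y x (eV c) * (K.y f (eV c) * K.y w (-fV c)) =
      (K.y f (eV c) * K.y w (-fV c)) * p := by
  have hm := m_mem (F := F) (c := c)
  obtain ⟨τ, hτ⟩ := K.y_swap hx hf
  obtain ⟨p, hp, hpe⟩ := K.Te_mul_y P hPph hPT hPy hck hw hm τ
  obtain ⟨q, hq, hqe⟩ := K.y_mul_y_orth P hPph hPT hPy hck hx hw hm h0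
  refine ⟨q * p, P.mul_mem hq hp, ?_⟩
  calc K.y x (eV c) * (K.y f (eV c) * K.y w (-fV c))
      = (K.y x (eV c) * K.y f (eV c)) * K.y w (-fV c) := by group
    _ = K.y f (eV c) * K.y x (eV c) * (K.sg (T (eV c) τ) * K.y w (-fV c)) := by rw [hτ]; group
    _ = K.y f (eV c) * (K.y x (eV c) * K.y w (-fV c)) * p := by rw [hpe]; group
    _ = _ := by rw [hqe]; group

theorem Bf_e_neg_f_eq : (Bf (-fV c) (eV c) : F) = 1 := by
  rw [Bf_neg_left, Bf_f_e_self, neg_neg]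

/-- The relation between (B) and (C). -/
theorem rel_R {w f : Vc F n} {α : F} (hα : α ≠ 0) (hw : w ∈ Wk F n k) (hf : f ∈ Wk F n k)
    {h : SpG F n} (hh : h ∈ (Sg c : Subgroup (SpG F n))) (he : act h (eV c) = α • eV c)
    (hf' : act h (fV c) = α⁻¹ • fV c) :
    K.sg h * (K.y f (eV c) * K.y w (-fV c)) =
      K.y (α • f) (eV c) * (K.y w (α⁻¹ • (-fV c)) * K.sg h) := by
  have hm := m_mem (F := F) (c := c)
  have h1 := K.L2 h hh f hf (eV c) (eV_mem_Pl c)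
  have h2 := K.L2 h hh w hw (-fV c) hm
  rw [he] at h1
  rw [map_neg, hf', ← smul_neg] at h2
  have h3 := K.L6 α f hf (eV c) (eV_mem_Pl c)
  rw [h3, ← mul_assoc (K.sg h), h1, mul_assoc, h2]

include hPph hPT hPy hck in
/-- A consequence of the relation: the (B)-coset of `α e` is `y (-αf) e κ_C P`. -/
theorem B_eq_C {w f : Vc F n} {α : F} (hα : α ≠ 0) (hw : w ∈ Wk F n k) (hf : f ∈ Wk F n k)
    (h₁ : Bf f w = -1) {h : SpG F n} (hh : h ∈ (Sg c : Subgroup (SpG F n)))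
    (he : act h (eV c) = α • eV c) (hf' : act h (fV c) = α⁻¹ • fV c) :
    ∃ p ∈ P, K.y w (α⁻¹ • (-fV c)) * K.sg h =
      K.y (-(α • f)) (eV c) * ((K.y f (eV c) * K.y w (-fV c)) * p) := by
  obtain ⟨p, hp, hpe⟩ := K.sfix P hPph hPT hPy hck hw hf h₁ hh
  refine ⟨p, hp, ?_⟩
  have hR := K.rel_R hα hw hf hh he hf'
  rw [← hpe, hR, K.y_neg ((Wk F n k).smul_mem α hf) (eV_mem_Pl c) hck.le]
  group

include hPph hPT hPy hck in
/-- The action of `y x e` on the coset (C) when `x` is not orthogonal to `w`. -/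
theorem key1 {w f x : Vc F n} {α : F} (hα : α ≠ 0) (hw : w ∈ Wk F n k) (hf : f ∈ Wk F n k)
    (hx : x ∈ Wk F n k) (h₁ : Bf f w = -1) (hαx : Bf x w = α)
    {h : SpG F n} (hh : h ∈ (Sg c : Subgroup (SpG F n)))
    (he : act h (eV c) = α • eV c) (hf' : act h (fV c) = α⁻¹ • fV c) :
    ∃ p ∈ P, K.y x (eV c) * (K.y f (eV c) * K.y w (-fV c)) =
      (K.y w (α⁻¹ • (-fV c)) * K.sg h) * p := by
  obtain ⟨q, hq, hqe⟩ := K.B_eq_C P hPph hPT hPy hck hα hw hf h₁ hh he hf'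
  have hαf : -(α • f) ∈ Wk F n k := (Wk F n k).neg_mem ((Wk F n k).smul_mem α hf)
  have hx₀ : x + α • f ∈ Wk F n k := (Wk F n k).add_mem hx ((Wk F n k).smul_mem α hf)
  have h0 : Bf (x + α • f) w = 0 := by
    rw [Bf_add_left, Bf_smul_left, h₁, hαx]; ring
  have hdecomp : x = -(α • f) + (x + α • f) := by abel
  have h3 := K.L3 (-(α • f)) hαf (x + α • f) hx₀ (eV c) (eV_mem_Pl c)
  rw [← hdecomp] at h3
  have hTs := T_mem_Sg (F := F) (eV_mem_Pl c) (Bf (-(α • f)) (x + α • f))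
  have h4 : K.y x (eV c) = K.y (-(α • f)) (eV c) * K.y (x + α • f) (eV c) *
      (K.sg (T (eV c) (Bf (-(α • f)) (x + α • f))))⁻¹ := by
    rw [h3]; group
  have hTs' := (Sg (F := F) c).inv_mem hTs
  obtain ⟨p₁, hp₁, hp₁e⟩ := K.sfix P hPph hPT hPy hck hw hf h₁ hTs'
  rw [K.sg_inv hTs] at hp₁e
  obtain ⟨p₂, hp₂, hp₂e⟩ := K.key0 P hPph hPT hPy hck hw hf hx₀ h0
  refine ⟨q⁻¹ * (p₂ * p₁), P.mul_mem (P.inv_mem hq) (P.mul_mem hp₂ hp₁), ?_⟩
  rw [hqe, h4]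
  calc K.y (-(α • f)) (eV c) * K.y (x + α • f) (eV c) *
        (K.sg (T (eV c) (Bf (-(α • f)) (x + α • f))))⁻¹ * (K.y f (eV c) * K.y w (-fV c))
      = K.y (-(α • f)) (eV c) * (K.y (x + α • f) (eV c) *
        ((K.sg (T (eV c) (Bf (-(α • f)) (x + α • f))))⁻¹ * (K.y f (eV c) * K.y w (-fV c)))) := by
          group
    _ = K.y (-(α • f)) (eV c) * (K.y (x + α • f) (eV c) * (K.y f (eV c) * K.y w (-fV c))) * p₁ := by
          rw [hp₁e]; group
    _ = K.y (-(α • f)) (eV c) * ((K.y f (eV c) * K.y w (-fV c)) * p₂) * p₁ := by rw [hp₂e]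
    _ = _ := by group


/-- The invariant of the coset computation. -/
def Inv (x : Γ) (v : Vc F n) : Prop :=
  ∃ w ∈ Wk F n k, ∃ r ∈ (Pl c : Submodule F (Vc F n)), ∃ κ : Γ, K.D w r κ ∧ κ⁻¹ * x ∈ P ∧ w + r = v

omit [Field F] in
theorem coset_step {γ κ κ' x p : Γ} {P : Subgroup Γ} (h : γ * κ = κ' * p) (hp : p ∈ P)
    (hx : κ⁻¹ * x ∈ P) : κ'⁻¹ * (γ * x) ∈ P := by
  have : κ'⁻¹ * (γ * x) = p * (κ⁻¹ * x) := by
    have h2 : γ = κ' * p * κ⁻¹ := by rw [← h]; group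
    rw [h2]; group
  rw [this]
  exact P.mul_mem hp hx

include hPph hck in
theorem step_ph {x : Γ} {v : Vc F n} (hI : K.Inv P x v) {g : SpG F n} (hg : g ∈ Gk F n k) :
    K.Inv P (K.ph g * x) (act g v) := by
  obtain ⟨w, hw, r, hr, κ, hD, hx, rfl⟩ := hI
  have hgr : act g r = r := act_Gk_P hg hck.le hr
  rw [map_add, hgr]
  rcases hD with ⟨rfl, s, hs, hse, rfl⟩ | ⟨hw0, hr0, r', hr', hB, s, hs, hse, rfl⟩ |
    ⟨hw0, rfl, f, hf, hfw, rfl⟩
  · refine ⟨act g 0, by rw [map_zero]; exact (Wk F n k).zero_mem, r, hr, K.sg s, ?_, ?_, rfl⟩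
    · exact Or.inl ⟨by rw [map_zero], s, hs, hse, rfl⟩
    · exact coset_step (K.comm g hg s hs) (hPph g hg) hx
  · refine ⟨act g w, act_Gk_W hg hw, r, hr, K.y (act g w) r' * K.sg s, ?_, ?_, rfl⟩
    · refine Or.inr (Or.inl ⟨?_, hr0, r', hr', hB, s, hs, hse, rfl⟩)
      intro h
      apply hw0
      exact act_injective g (by rw [h, map_zero])
    · refine coset_step (p := K.ph g) ?_ (hPph g hg) hx
      rw [← mul_assoc, K.L1 g hg w hw r' hr', mul_assoc, K.comm g hg s hs, mul_assoc]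
  · refine ⟨act g w, act_Gk_W hg hw, 0, (Pl c).zero_mem,
      K.y (act g f) (eV c) * K.y (act g w) (-fV c), ?_, ?_, rfl⟩
    · refine Or.inr (Or.inr ⟨?_, rfl, act g f, act_Gk_W hg hf, ?_, rfl⟩)
      · intro h
        apply hw0
        exact act_injective g (by rw [h, map_zero])
      · rw [Bf_act, hfw]
    · refine coset_step (p := K.ph g) ?_ (hPph g hg) hx
      rw [← mul_assoc, K.L1 g hg f hf _ (eV_mem_Pl c), mul_assoc, K.L1 g hg w hw _ (m_mem (c := c)),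
        mul_assoc]

include hPph hPT hPy hck in
theorem step_sg {x : Γ} {v : Vc F n} (hI : K.Inv P x v) {s₀ : SpG F n}
    (hs₀ : s₀ ∈ (Sg c : Subgroup (SpG F n))) :
    K.Inv P (K.sg s₀ * x) (act s₀ v) := by
  obtain ⟨w, hw, r, hr, κ, hD, hx, rfl⟩ := hI
  have hgw : act s₀ w = w := act_Sg_W hs₀ hck.le hw
  rw [map_add, hgw]
  rcases hD with ⟨rfl, s, hs, hse, rfl⟩ | ⟨hw0, hr0, r', hr', hB, s, hs, hse, rfl⟩ |
    ⟨hw0, rfl, f, hf, hfw, rfl⟩
  · refine ⟨0, (Wk F n k).zero_mem, act s₀ r, act_Sg_P hs₀ hr, K.sg (s₀ * s), ?_, ?_, rfl⟩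
    · exact Or.inl ⟨rfl, s₀ * s, (Sg c).mul_mem hs₀ hs, by rw [act_mul, hse], rfl⟩
    · refine coset_step (p := 1) ?_ P.one_mem hx
      rw [K.sg_mul _ _ hs₀ hs, mul_one]
  · refine ⟨w, hw, act s₀ r, act_Sg_P hs₀ hr, K.y w (act s₀ r') * K.sg (s₀ * s), ?_, ?_, rfl⟩
    · refine Or.inr (Or.inl ⟨hw0, ?_, act s₀ r', act_Sg_P hs₀ hr', by rw [Bf_act, hB], s₀ * s,
        (Sg c).mul_mem hs₀ hs, by rw [act_mul, hse], rfl⟩)
      intro h
      apply hr0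
      exact act_injective s₀ (by rw [h, map_zero])
    · refine coset_step (p := 1) ?_ P.one_mem hx
      rw [K.sg_mul _ _ hs₀ hs, mul_one, ← mul_assoc, K.L2 s₀ hs₀ w hw r' hr', mul_assoc]
  · obtain ⟨p, hp, hpe⟩ := K.sfix P hPph hPT hPy hck hw hf hfw hs₀
    refine ⟨w, hw, act s₀ 0, by rw [map_zero]; exact (Pl c).zero_mem, _, ?_, coset_step hpe hp hx, rfl⟩
    exact Or.inr (Or.inr ⟨hw0, by rw [map_zero], f, hf, hfw, rfl⟩)

include hck in
/-- A dual vector in `Wk`. -/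
theorem exists_f {w : Vc F n} (hw : w ∈ Wk F n k) (hw0 : w ≠ 0) :
    ∃ f ∈ Wk F n k, Bf f w = -1 := by
  have hk : k ≠ 0 := by
    rintro rfl
    exact hw0 (Wk_zero hw)
  have hb : k - 1 < n := by have := c.isLt; omega
  obtain ⟨g, hg, hge⟩ := exists_Gk_act (b := ⟨k - 1, hb⟩) (by simp; omega) hw hw0
  refine ⟨act g (fV ⟨k - 1, hb⟩), act_Gk_W hg (fV_mem_Wk (by simp; omega)), ?_⟩
  rw [← hge, Bf_act, Bf_f_e_self]

include hPph hPT hPy hck in
/-- The unified action on the coset (C). -/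
theorem C_step {w f x₂ : Vc F n} (hw : w ∈ Wk F n k) (hw0 : w ≠ 0) (hf : f ∈ Wk F n k)
    (hx₂ : x₂ ∈ Wk F n k) (hfw : Bf f w = -1) :
    ∃ κ', K.D w (Bf x₂ w • eV c) κ' ∧ ∃ p ∈ P,
      K.y x₂ (eV c) * (K.y f (eV c) * K.y w (-fV c)) = κ' * p := by
  by_cases h0 : Bf x₂ w = 0
  · obtain ⟨p, hp, hpe⟩ := K.key0 P hPph hPT hPy hck hw hf hx₂ h0
    refine ⟨_, ?_, p, hp, hpe⟩
    rw [h0, zero_smul]
    exact Or.inr (Or.inr ⟨hw0, rfl, f, hf, hfw, rfl⟩)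
  · obtain ⟨h, hh, he, hf'⟩ := exists_diag (F := F) c h0
    obtain ⟨p, hp, hpe⟩ := K.key1 P hPph hPT hPy hck h0 hw hf hx₂ hfw rfl hh he hf'
    refine ⟨_, ?_, p, hp, hpe⟩
    refine Or.inr (Or.inl ⟨hw0, smul_ne_zero h0 (eV_ne_zero c), _,
      (Pl c).smul_mem _ (m_mem (c := c)), ?_, h, hh, he, rfl⟩)
    rw [Bf_smul_left, Bf_smul_right, Bf_e_neg_f_eq]
    field_simp

include hPph hPT hPy hck in
theorem step_y {x : Γ} {v : Vc F n} (hI : K.Inv P x v) {x₁ : Vc F n} (hx₁ : x₁ ∈ Wk F n k) :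
    K.Inv P (K.y x₁ (eV c) * x) (act (Y x₁ (eV c)) v) := by
  obtain ⟨w, hw, r, hr, κ, hD, hx, rfl⟩ := hI
  have hck' : k ≤ c.val := hck.le
  have he := eV_mem_Pl (F := F) c
  have hx₁e : Bf x₁ (eV c) = 0 := Bf_W_P hck' hx₁ he
  have hew : Bf (eV c) w = 0 := Bf_P_W hck' hw he
  have hx₁r : Bf x₁ r = 0 := Bf_W_P hck' hx₁ hr
  have hvec : act (Y x₁ (eV c)) (w + r) =
      (w + Bf (eV c) r • x₁) + (r + Bf x₁ w • eV c) := by
    rw [act_Y hx₁e, Bf_add_right, Bf_add_right, hew, hx₁r]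
    simp only [zero_add, add_zero]
    abel
  rw [hvec]
  by_cases hβ : Bf (eV c) r = 0
  · -- the plane component is a multiple of `e`
    have hre : Bf r (eV c) = 0 := Bf_symm0 hβ
    obtain ⟨α, hα⟩ := dual_diff he (eV_ne_zero c) hr hre
    rw [hβ, zero_smul, add_zero]
    rcases hD with ⟨rfl, s, hs, hse, rfl⟩ | ⟨hw0, hr0, r', hr', hB, s, hs, hse, rfl⟩ |
      ⟨hw0, rfl, f, hf, hfw, rfl⟩
    · -- case (A)
      have hr0 : r ≠ 0 := by
        rw [← hse]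
        intro h
        exact eV_ne_zero (F := F) c (act_injective s (by rw [h, map_zero]))
      have hα0 : α ≠ 0 := by
        rintro rfl
        apply hr0
        rw [hα, zero_smul]
      refine ⟨0, (Wk F n k).zero_mem, r + Bf x₁ 0 • eV c, ?_, K.sg s, ?_, ?_, rfl⟩
      · simpa using hr
      · refine Or.inl ⟨rfl, s, hs, ?_, rfl⟩
        simpa using hse
      · refine coset_step (p := K.y x₁ (α⁻¹ • eV c)) ?_ (K.y_smul_mem P hPy hx₁ _) hx
        have h2 := K.L2 s hs x₁ hx₁ (α⁻¹ • eV c) ((Pl c).smul_mem _ he)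
        rw [map_smul, hse, hα, smul_smul, inv_mul_cancel₀ hα0, one_smul] at h2
        exact h2.symm
    · -- case (B)
      have hα0 : α ≠ 0 := by
        rintro rfl
        apply hr0
        rw [hα, zero_smul]
      obtain ⟨f, hf, hfw⟩ := exists_f hck hw hw0
      obtain ⟨h, hh, hhe, hhf⟩ := exists_diag (F := F) c hα0
      have hm := m_mem (F := F) (c := c)
      have hB₂ : Bf (α⁻¹ • (-fV c : Vc F n)) r = 1 := by
        rw [hα, Bf_smul_left, Bf_smul_right, Bf_e_neg_f_eq]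
        field_simp
      have hwd := K.wd_B P hPph hPT hPy hck hw hr hr0 hr' ((Pl c).smul_mem _ hm) hB hB₂ hs hh hse
        (by rw [hhe, hα])
      obtain ⟨q, hq, hqe⟩ := K.B_eq_C P hPph hPT hPy hck hα0 hw hf hfw hh hhe hhf
      have hαf : -(α • f) ∈ Wk F n k := (Wk F n k).neg_mem ((Wk F n k).smul_mem α hf)
      have h3 := K.L3 x₁ hx₁ (-(α • f)) hαf (eV c) he
      have hTs := T_mem_Sg (F := F) he (Bf x₁ (-(α • f)))
      obtain ⟨p₁, hp₁, hp₁e⟩ := K.sfix P hPph hPT hPy hck hw hf hfw hTs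
      have hx₂ : x₁ + -(α • f) ∈ Wk F n k := (Wk F n k).add_mem hx₁ hαf
      obtain ⟨κ', hκ', p₂, hp₂, hp₂e⟩ := K.C_step P hPph hPT hPy hck hw hw0 hf hx₂ hfw
      have hα₂ : Bf (x₁ + -(α • f)) w • eV c = r + Bf x₁ w • eV c := by
        rw [Bf_add_left, Bf_neg_left, Bf_smul_left, hfw, hα]
        rw [← add_smul]
        congr 1
        ring
      rw [hα₂] at hκ'
      have hr2 : r + Bf x₁ w • eV c ∈ (Pl c : Submodule F (Vc F n)) :=
        (Pl c).add_mem hr ((Pl c).smul_mem _ he)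
      refine ⟨w, hw, _, hr2, κ', hκ', ?_, rfl⟩
      -- `κ'⁻¹ (y x₁ e x)`, with `x = κ (κ⁻¹ κ₁) q⁻¹...`
      have h5 : K.y x₁ (eV c) * (K.y w (α⁻¹ • (-fV c)) * K.sg h) = κ' * (p₂ * p₁ * q) := by
        rw [hqe]
        calc K.y x₁ (eV c) * (K.y (-(α • f)) (eV c) * ((K.y f (eV c) * K.y w (-fV c)) * q))
            = (K.y x₁ (eV c) * K.y (-(α • f)) (eV c)) * ((K.y f (eV c) * K.y w (-fV c)) * q) := by
              group
          _ = K.y (x₁ + -(α • f)) (eV c) * (K.sg (T (eV c) (Bf x₁ (-(α • f)))) *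
                (K.y f (eV c) * K.y w (-fV c))) * q := by rw [h3]; group
          _ = K.y (x₁ + -(α • f)) (eV c) * (K.y f (eV c) * K.y w (-fV c)) * p₁ * q := by
              rw [hp₁e]; group
          _ = _ := by rw [hp₂e]; group
      have h6 : (K.y w (α⁻¹ • (-fV c)) * K.sg h)⁻¹ * x ∈ P := by
        have : (K.y w (α⁻¹ • (-fV c)) * K.sg h)⁻¹ * x =
            ((K.y w r' * K.sg s)⁻¹ * (K.y w (α⁻¹ • (-fV c)) * K.sg h))⁻¹ *
              ((K.y w r' * K.sg s)⁻¹ * x) := by group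
        rw [this]
        exact P.mul_mem (P.inv_mem hwd) hx
      exact coset_step h5 (P.mul_mem (P.mul_mem hp₂ hp₁) hq) h6
    · -- case (C)
      obtain ⟨κ', hκ', p₂, hp₂, hp₂e⟩ := K.C_step P hPph hPT hPy hck hw hw0 hf hx₁ hfw
      rw [← zero_add (Bf x₁ w • eV c)] at hκ'
      refine ⟨w, hw, _, (Pl c).add_mem (Pl c).zero_mem ((Pl c).smul_mem _ he), κ', hκ',
        coset_step hp₂e hp₂ hx, rfl⟩
  · -- `β ≠ 0`
    set β := Bf (eV c) r with hβdef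
    have hr0 : r ≠ 0 := by
      rintro rfl
      exact hβ (by rw [hβdef]; simp)
    have hβe : (β⁻¹ • eV c : Vc F n) ∈ (Pl c : Submodule F (Vc F n)) := (Pl c).smul_mem _ he
    have hBβ : Bf (β⁻¹ • eV c : Vc F n) r = 1 := by
      rw [Bf_smul_left, ← hβdef]
      field_simp
    -- the normal description
    obtain ⟨s, hs, hse, hκ₀⟩ : ∃ s ∈ (Sg c : Subgroup (SpG F n)), act s (eV c) = r ∧
        (K.y w (β⁻¹ • eV c) * K.sg s)⁻¹ * x ∈ P := by
      rcases hD with ⟨rfl, s, hs, hse, rfl⟩ | ⟨hw0, _, r', hr', hB, s, hs, hse, rfl⟩ |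
        ⟨hw0, rfl, f, hf, hfw, rfl⟩
      · refine ⟨s, hs, hse, ?_⟩
        rw [K.L70, one_mul]
        exact hx
      · refine ⟨s, hs, hse, ?_⟩
        have hwd := K.wd_B P hPph hPT hPy hck hw hr hr0 hr' hβe hB hBβ hs hs hse hse
        have : (K.y w (β⁻¹ • eV c) * K.sg s)⁻¹ * x =
            ((K.y w r' * K.sg s)⁻¹ * (K.y w (β⁻¹ • eV c) * K.sg s))⁻¹ *
              ((K.y w r' * K.sg s)⁻¹ * x) := by group
        rw [this]
        exact P.mul_mem (P.inv_mem hwd) hx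
      · exact absurd rfl hr0
    set w' := w + β • x₁ with hw'def
    have hw' : w' ∈ Wk F n k := (Wk F n k).add_mem hw ((Wk F n k).smul_mem _ hx₁)
    set τ := β⁻¹ * Bf x₁ w with hτdef
    have hr2 : r + Bf x₁ w • eV c ∈ (Pl c : Submodule F (Vc F n)) :=
      (Pl c).add_mem hr ((Pl c).smul_mem _ he)
    have hTss : T (eV c) τ * s ∈ (Sg c : Subgroup (SpG F n)) :=
      (Sg c).mul_mem (T_mem_Sg he τ) hs
    have hse2 : act (T (eV c) τ * s) (eV c) = r + Bf x₁ w • eV c := by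
      rw [act_mul, hse, act_T, ← hβdef]
      congr 2
      rw [hτdef]
      field_simp
    have hr20 : r + Bf x₁ w • eV c ≠ 0 := by
      intro h
      apply hβ
      have := congrArg (Bf (eV c)) h
      rw [Bf_add_right, Bf_smul_right, Bf_self, mul_zero, add_zero, Bf_zero_right] at this
      exact this
    have hmain : K.y x₁ (eV c) * (K.y w (β⁻¹ • eV c) * K.sg s) =
        (K.y w' (β⁻¹ • eV c) * K.sg (T (eV c) τ * s)) * 1 := by
      have h6 := K.L6 β⁻¹ w hw (eV c) he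
      have h6' := K.L6 β⁻¹ w' hw' (eV c) he
      have h3 := K.L3 x₁ hx₁ (β⁻¹ • w) ((Wk F n k).smul_mem _ hw) (eV c) he
      have e1 : x₁ + β⁻¹ • w = β⁻¹ • w' := by
        rw [hw'def, smul_add, smul_smul, inv_mul_cancel₀ hβ, one_smul, add_comm]
      have e2 : Bf x₁ (β⁻¹ • w) = τ := by rw [Bf_smul_right]
      rw [e1, e2, h6'] at h3
      rw [h6] at h3
      rw [mul_one, ← mul_assoc, h3, K.sg_mul _ _ (T_mem_Sg he τ) hs, mul_assoc]
    by_cases hw0' : w' = 0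
    · refine ⟨w', hw', _, hr2, K.sg (T (eV c) τ * s), Or.inl ⟨hw0', _, hTss, hse2, rfl⟩, ?_, rfl⟩
      rw [hw0', K.L70, one_mul] at hmain
      exact coset_step hmain P.one_mem hκ₀
    · refine ⟨w', hw', _, hr2, K.y w' (β⁻¹ • eV c) * K.sg (T (eV c) τ * s), Or.inr (Or.inl
        ⟨hw0', hr20, _, hβe, ?_, _, hTss, hse2, rfl⟩), coset_step hmain P.one_mem hκ₀, rfl⟩
      rw [Bf_smul_left, Bf_add_right, Bf_smul_right, Bf_self, mul_zero, add_zero, ← hβdef]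
      field_simp

include hPph hPT hPy hck in
/-- The main result of the coset computation. -/
theorem coset_main (π : Γ →* SpG F n) (hπph : ∀ g ∈ Gk F n k, π (K.ph g) = g)
    (hπsg : ∀ s ∈ (Sg c : Subgroup (SpG F n)), π (K.sg s) = s)
    (hπy : ∀ x ∈ Wk F n k, π (K.y x (eV c)) = Y x (eV c)) {x : Γ}
    (hx : x ∈ Subgroup.closure {γ : Γ | (∃ g ∈ Gk F n k, γ = K.ph g) ∨
      (∃ s ∈ (Sg c : Subgroup (SpG F n)), γ = K.sg s) ∨ (∃ u ∈ Wk F n k, γ = K.y u (eV c))})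
    (hx1 : π x = 1) : x ∈ P := by
  have he := eV_mem_Pl (F := F) c
  have hinv : K.Inv P x (act (π x) (eV c)) := by
    clear hx1
    induction hx using Subgroup.closure_induction_left with
    | one =>
      refine ⟨0, (Wk F n k).zero_mem, eV c, he, 1, Or.inl ⟨rfl, 1, (Sg c).one_mem, by simp, K.sg_one.symm⟩,
        by simp, ?_⟩
      simp
    | mul_left a ha y _ hy =>
      rcases ha with ⟨g, hg, rfl⟩ | ⟨s, hs, rfl⟩ | ⟨u, hu, rfl⟩
      · rw [map_mul, act_mul, hπph g hg]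
        exact K.step_ph P hPph hck hy hg
      · rw [map_mul, act_mul, hπsg s hs]
        exact K.step_sg P hPph hPT hPy hck hy hs
      · rw [map_mul, act_mul, hπy u hu]
        exact K.step_y P hPph hPT hPy hck hy hu
    | inv_mul_cancel a ha y _ hy =>
      rcases ha with ⟨g, hg, rfl⟩ | ⟨s, hs, rfl⟩ | ⟨u, hu, rfl⟩
      · have h1 := (Gk F n k).inv_mem hg
        rw [← K.ph_inv hg, map_mul, act_mul, hπph _ h1]
        exact K.step_ph P hPph hck hy h1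
      · have h1 := (Sg c).inv_mem hs
        rw [← K.sg_inv hs, map_mul, act_mul, hπsg _ h1]
        exact K.step_sg P hPph hPT hPy hck hy h1
      · have h1 := (Wk F n k).neg_mem hu
        rw [← K.y_neg hu he hck.le, map_mul, act_mul, hπy _ h1]
        exact K.step_y P hPph hPT hPy hck hy h1
  rw [hx1, act_one] at hinv
  obtain ⟨w, hw, r, hr, κ, hD, hκ, hv⟩ := hinv
  have hdec : w + r = 0 + eV c := by rw [hv, zero_add]
  obtain ⟨rfl, rfl⟩ := decomp_unique hck.le hw (Wk F n k).zero_mem hr he hdec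
  rcases hD with ⟨_, s, hs, hse, rfl⟩ | ⟨h0, _⟩ | ⟨h0, _⟩
  · obtain ⟨τ, rfl⟩ := Sg_stab hs hse
    have := P.mul_mem (hPT τ) hκ
    simpa using this
  · exact absurd rfl h0
  · exact absurd rfl h0

end Coset

end Kit

end Cfsg.Agent.Lib.SpAm
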